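import Cfsg.Agent.McKay.Basic
import Cfsg.Agent.Chars.Basic.Kernel
import Cfsg.Agent.Constrained.PSolvable
import Cfsg.Agent.Coprime.Basic

/-!
# Reduction of the count to a central subgroup

For an invariant character of a normal subgroup `L` there is a group `X` with a central subgroup
`Z`, `X / Z ≅ G / L`, in which the count becomes a count over a linear character of `Z`.
-/

set_option autoImplicit false

namespace CfsgLib.McKay

open Cfsg CfsgLib.Glauberman CfsgLib.Chars.Induced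
open scoped Pointwise

universe u

variable {G : Type u} [Group G]

/-- Pull-back along a surjection. -/
noncomputable def pullSurj {A B : Type*} [Group A] [Group B] (q : A →* B)
    (hq : Function.Surjective q) (χ : IrrCharacter B) : IrrCharacter A :=
  ⟨fun a => (χ : B → ℂ) (q a), CfsgLib.Chars.isIrrCharacter_comp χ.2 q hq⟩

@[simp] theorem pullSurj_apply {A B : Type*} [Group A] [Group B] (q : A →* B)
    (hq : Function.Surjective q) (χ : IrrCharacter B) (a : A) :
    (pullSurj q hq χ : A → ℂ) a = (χ : B → ℂ) (q a) := rfl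

theorem pullSurj_injective {A B : Type*} [Group A] [Group B] (q : A →* B)
    (hq : Function.Surjective q) : Function.Injective (pullSurj q hq) := fun χ χ' h =>
  Subtype.ext (funext fun b => by
    obtain ⟨a, rfl⟩ := hq b
    exact congrFun (congrArg Subtype.val h) a)

/-- A character constant on the cosets of the kernel comes from the image. -/
theorem exists_pullSurj_eq {A B : Type*} [Group A] [Group B] [Finite A] (q : A →* B)
    (hq : Function.Surjective q) (χ : IrrCharacter A)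
    (h : q.ker ≤ CfsgLib.Chars.charKer (χ : A → ℂ)) : ∃ χ', pullSurj q hq χ' = χ := by
  obtain ⟨ψ, hψ⟩ := CfsgLib.Chars.exists_inflate_eq q.ker χ h
  let e := QuotientGroup.quotientKerEquivOfSurjective q hq
  refine ⟨⟨fun b => (ψ : A ⧸ q.ker → ℂ) (e.symm b),
    CfsgLib.Chars.isIrrCharacter_comp ψ.2 e.symm.toMonoidHom e.symm.surjective⟩, Subtype.ext ?_⟩
  funext a
  rw [← hψ, CfsgLib.Chars.inflate_apply]
  show (ψ : A ⧸ q.ker → ℂ) (e.symm (q a)) = _
  rw [show e.symm (q a) = (a : A ⧸ q.ker) from e.symm_apply_apply (a : A ⧸ q.ker)]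

theorem charDegree_pullSurj {A B : Type*} [Group A] [Group B] (q : A →* B)
    (hq : Function.Surjective q) (χ : IrrCharacter B) :
    Cfsg.charDegree (pullSurj q hq χ : A → ℂ) = Cfsg.charDegree (χ : B → ℂ) := by
  apply Nat.cast_injective (R := ℂ)
  rw [CfsgLib.Chars.coe_charDegree, CfsgLib.Chars.coe_charDegree, pullSurj_apply, map_one]

/-- The irreducible characters of a central subgroup are linear. -/
theorem exists_linear [Finite G] {Z : Subgroup G} (hZ : Z ≤ Subgroup.center G)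
    (l : IrrCharacter Z) : ∃ lam : Z →* ℂˣ, CfsgLib.Chars.linChar lam = l := by
  haveI : IsMulCommutative Z :=
    ⟨⟨fun a b => Subtype.ext (Subgroup.mem_center_iff.1 (hZ b.2) a)⟩⟩
  exact CfsgLib.Chars.exists_linChar_eq l (CfsgLib.Chars.map_one_eq_one_of_isMulCommutative l)

variable [Fintype G]

/-- Lying over a linear character of a central subgroup. -/
theorem over_central_iff {Z : Subgroup G} [Fintype Z] (hZ : Z ≤ Subgroup.center G)
    (lam : Z →* ℂˣ) (χ : IrrCharacter G) :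
    CfsgLib.Glauberman.mult Z.subtype χ (CfsgLib.Chars.linChar lam) ≠ 0 ↔
      ∀ z : Z, (χ : G → ℂ) z = (χ : G → ℂ) 1 * (lam z : ℂ) := by
  classical
  constructor
  · intro h z
    have h1 := restrict_eq_sum Z.subtype χ z
    rw [Finset.sum_eq_single (CfsgLib.Chars.linChar lam) (fun β _ hne => by
      rw [not_not.1 fun h' => hne (eq_of_central hZ χ _ _ h' h), Nat.cast_zero, zero_mul])
      (fun h' => absurd (Finset.mem_univ _) h')] at h1
    have h2 := restrict_eq_sum Z.subtype χ 1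
    rw [Finset.sum_eq_single (CfsgLib.Chars.linChar lam) (fun β _ hne => by
      rw [not_not.1 fun h' => hne (eq_of_central hZ χ _ _ h' h), Nat.cast_zero, zero_mul])
      (fun h' => absurd (Finset.mem_univ _) h')] at h2
    simp only [map_one, CfsgLib.Chars.linChar_apply, Units.val_one, mul_one] at h2
    rw [show (χ : G → ℂ) z = (χ : G → ℂ) (Z.subtype z) from rfl, h1, h2,
      CfsgLib.Chars.linChar_apply]
  · intro h
    obtain ⟨β, hβ⟩ := exists_under Z.subtype χ
    obtain ⟨mu, rfl⟩ := exists_linear hZ β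
    have : mu = lam := by
      have h1 := restrict_eq_sum Z.subtype χ
      refine MonoidHom.ext fun z => Units.ext ?_
      have hval : ∀ w : Z, (χ : G → ℂ) w =
          (CfsgLib.Glauberman.mult Z.subtype χ (CfsgLib.Chars.linChar mu) : ℂ) * (mu w : ℂ) := by
        intro w
        rw [show (χ : G → ℂ) w = (χ : G → ℂ) (Z.subtype w) from rfl, h1 w,
          Finset.sum_eq_single (CfsgLib.Chars.linChar mu) (fun γ _ hne => by
            rw [not_not.1 fun h' => hne (eq_of_central hZ χ _ _ h' hβ), Nat.cast_zero, zero_mul])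
            (fun h' => absurd (Finset.mem_univ _) h')]
        rfl
      have e1 := hval 1
      rw [map_one, Units.val_one, mul_one, OneMemClass.coe_one] at e1
      have e2 := hval z
      rw [h z, e1] at e2
      exact (mul_left_cancel₀ (Nat.cast_ne_zero.2 hβ) e2).symm
    exact this ▸ hβ

/-- The count in a group over the count in the covering group. -/
theorem cnt_cover {p : ℕ} (hp : p.Prime) {Γ : Type u} [Group Γ] [Finite Γ] (π : Γ →* G)
    (hπ : Function.Surjective π) (hker : π.ker ≤ Subgroup.center Γ) {L : Subgroup G} [Fintype L]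
    (j : L →* Γ) (hj : ∀ x, π (j x) = (x : G)) [j.range.Normal] (ν : IrrCharacter L)
    (hpν : ¬ p ∣ Cfsg.charDegree (ν : L → ℂ)) (χ₀ : IrrCharacter Γ)
    (hχ₀ : ∀ x, (χ₀ : Γ → ℂ) (j x) = (ν : L → ℂ) x) (H : Subgroup G) (hLH : L ≤ H)
    {Z : Subgroup (Γ ⧸ j.range)} [Fintype Z]
    (hZdef : Z = π.ker.map (QuotientGroup.mk' j.range)) (lam : Z →* ℂˣ)
    (hlam : ∀ (z : π.ker) (hz : (QuotientGroup.mk' j.range (z : Γ)) ∈ Z),
      (χ₀ : Γ → ℂ) z * (lam ⟨_, hz⟩ : ℂ) = (χ₀ : Γ → ℂ) 1)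
    (hZH : Z ≤ (H.comap π).map (QuotientGroup.mk' j.range)) :
    cnt p (Subgroup.inclusion hLH) ν =
      cnt p (Subgroup.inclusion hZH) (CfsgLib.Chars.linChar lam) := by
  classical
  set mk := QuotientGroup.mk' j.range with hmk
  set ΓH := H.comap π with hΓH
  set XH := ΓH.map mk with hXH
  have := Fintype.ofFinite Γ
  have := Fintype.ofFinite ΓH
  have := Fintype.ofFinite XH
  have hjH : ∀ x : L, j x ∈ ΓH := fun x => by
    show π (j x) ∈ H
    rw [hj]
    exact hLH x.2
  have hRle : j.range ≤ ΓH := by rintro _ ⟨x, rfl⟩; exact hjH x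
  set R' := j.range.subgroupOf ΓH with hR'
  haveI : R'.Normal := inferInstance
  have := Fintype.ofFinite R'
  let qX : ΓH →* XH := mk.subgroupMap ΓH
  have hqX : Function.Surjective qX := mk.subgroupMap_surjective ΓH
  have hqXker : ∀ y : ΓH, qX y = 1 ↔ y ∈ R' := by
    intro y
    rw [Subgroup.mem_subgroupOf, ← QuotientGroup.eq_one_iff (y : Γ)]
    exact Subtype.ext_iff
  let qH : ΓH →* H := (π.comp ΓH.subtype).codRestrict H fun y => y.2
  have hqH : Function.Surjective qH := fun h => by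
    obtain ⟨y, hy⟩ := hπ h.1
    exact ⟨⟨y, show π y ∈ H by rw [hy]; exact h.2⟩, Subtype.ext hy⟩
  -- the restriction of `χ₀`
  let jH : L →* ΓH := j.codRestrict ΓH hjH
  have hirr : IsIrrCharacter ΓH (fun y : ΓH => (χ₀ : Γ → ℂ) y) :=
    CfsgLib.Glauberman.isIrrCharacter_of_restrict jH
      (CfsgLib.Chars.isCharacter_restrict (CfsgLib.Chars.isCharacter_coe χ₀) ΓH) ν hχ₀
  let c₀ : IrrCharacter ΓH := ⟨_, hirr⟩
  have hjinj : Function.Injective j := fun a b h => Subtype.ext (by rw [← hj a, ← hj b, h])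
  let ej : L ≃* R' := MulEquiv.ofBijective (jH.codRestrict R' fun x => ⟨x, rfl⟩)
    ⟨fun a b h => hjinj (congrArg (fun r : R' => ((r : ΓH) : Γ)) h), fun r => by
      obtain ⟨x, hx⟩ := r.2
      exact ⟨x, Subtype.ext (Subtype.ext hx)⟩⟩
  let νR : IrrCharacter R' := irrPull ej.symm ν
  have hνR : ∀ r : R', (c₀ : ΓH → ℂ) r = (νR : R' → ℂ) r := by
    intro r
    obtain ⟨x, rfl⟩ := ej.surjective r
    rw [irrPull_apply, ej.symm_apply_apply]
    exact hχ₀ x
  -- transfer of lying over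
  have hover : ∀ χ : IrrCharacter H,
      CfsgLib.Glauberman.mult (Subgroup.inclusion hLH) χ ν ≠ 0 ↔
        CfsgLib.Chars.Induced.mult (fun r : R' => (pullSurj qH hqH χ : ΓH → ℂ) r) νR ≠ 0 := by
    intro χ
    have h3 := NormalSylow.mult_eq_induced R'.subtype (pullSurj qH hqH χ) νR
    simp only [Subgroup.coe_subtype] at h3
    rw [h3, mult_ne_zero_iff_finsum, mult_ne_zero_iff_finsum, finsum_eq_sum_of_fintype,
      finsum_eq_sum_of_fintype]
    refine not_congr (Eq.congr_left (Fintype.sum_equiv ej.toEquiv _ _ fun x => ?_))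
    show _ = (χ : H → ℂ) (qH (ej x : ΓH)) * (starRingEnd ℂ) ((ν : L → ℂ) (ej.symm (ej x)))
    rw [ej.symm_apply_apply]
    congr 1
    exact congrArg (χ : H → ℂ) (Subtype.ext (hj x).symm)
  -- the quotient `ΓH / R'`
  have hkerq : qX.ker = R' := Subgroup.ext fun y => (MonoidHom.mem_ker).trans (hqXker y)
  let eX : ΓH ⧸ R' ≃* XH :=
    (QuotientGroup.quotientMulEquivOfEq hkerq.symm).trans
      (QuotientGroup.quotientKerEquivOfSurjective qX hqX)
  have heX : ∀ y : ΓH, eX (y : ΓH ⧸ R') = qX y := fun y => rfl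
  have hZc : Z ≤ Subgroup.center (Γ ⧸ j.range) := by
    rw [hZdef]
    rintro _ ⟨z, hz, rfl⟩
    rw [Subgroup.mem_center_iff]
    intro g
    obtain ⟨g, rfl⟩ := QuotientGroup.mk'_surjective j.range g
    rw [← map_mul, ← map_mul, Subgroup.mem_center_iff.1 (hker hz) g]
  have hZc' : Z.subgroupOf XH ≤ Subgroup.center XH := fun z hz =>
    Subgroup.mem_center_iff.2 fun g => Subtype.ext (Subgroup.mem_center_iff.1 (hZc hz) g)
  have := Fintype.ofFinite (Z.subgroupOf XH)
  have hoverX : ∀ β : IrrCharacter XH,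
      CfsgLib.Glauberman.mult (Subgroup.inclusion hZH) β (CfsgLib.Chars.linChar lam) ≠ 0 ↔
        ∀ z : Z, (β : XH → ℂ) (Subgroup.inclusion hZH z) = (β : XH → ℂ) 1 * (lam z : ℂ) := by
    intro β
    rw [← mult_toSub hZH]
    have he : toSub (H := XH) hZH (CfsgLib.Chars.linChar lam) =
        CfsgLib.Chars.linChar (lam.comp (Subgroup.subgroupOfEquivOfLe hZH).toMonoidHom) :=
      Subtype.ext (funext fun z => by simp [toSub])
    rw [he, over_central_iff hZc']
    constructor
    · intro h z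
      exact h ⟨Subgroup.inclusion hZH z, z.2⟩
    · intro h z
      exact h ⟨(z : XH), z.2⟩
  -- the bijection
  let P : IrrCharacter H → Prop := fun χ => ¬ p ∣ Cfsg.charDegree (χ : H → ℂ) ∧
    CfsgLib.Glauberman.mult (Subgroup.inclusion hLH) χ ν ≠ 0
  let Q : IrrCharacter XH → Prop := fun β => ¬ p ∣ Cfsg.charDegree (β : XH → ℂ) ∧
    CfsgLib.Glauberman.mult (Subgroup.inclusion hZH) β (CfsgLib.Chars.linChar lam) ≠ 0
  let T : IrrCharacter XH → IrrCharacter ΓH := fun β =>
    ⟨fun y => (c₀ : ΓH → ℂ) y * (β : XH → ℂ) (qX y), by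
      have h := gallagher_isIrrCharacter c₀ νR hνR (irrPull eX β)
      simpa [heX] using h⟩
  have hTinj : Function.Injective T := by
    intro β β' h
    have h1 := gallagher_injective c₀ νR hνR (irrPull eX β) (irrPull eX β')
      (fun y => by simpa [heX, T] using congrFun (congrArg Subtype.val h) y)
    refine Subtype.ext (funext fun x => ?_)
    have h2 := congrArg (fun b : IrrCharacter (ΓH ⧸ R') => (b : ΓH ⧸ R' → ℂ) (eX.symm x)) h1
    simpa using h2
  have hn : (c₀ : ΓH → ℂ) 1 = (Cfsg.charDegree (ν : L → ℂ) : ℂ) := by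
    rw [CfsgLib.Chars.coe_charDegree, ← map_one jH]
    exact hχ₀ 1
  have hdegT : ∀ (β : IrrCharacter XH) (χ : IrrCharacter H), pullSurj qH hqH χ = T β →
      Cfsg.charDegree (χ : H → ℂ) = Cfsg.charDegree (ν : L → ℂ) * Cfsg.charDegree (β : XH → ℂ) := by
    intro β χ h
    apply Nat.cast_injective (R := ℂ)
    push_cast
    rw [← charDegree_pullSurj qH hqH χ, h, ← hn]
    simp only [CfsgLib.Chars.coe_charDegree]
    show (c₀ : ΓH → ℂ) 1 * (β : XH → ℂ) (qX 1) = _
    rw [map_one]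
  have hkerH : ∀ y : ΓH, y ∈ qH.ker ↔ (y : Γ) ∈ π.ker := fun y => by
    rw [MonoidHom.mem_ker, MonoidHom.mem_ker]
    exact Subtype.ext_iff
  have hmemZ : ∀ z : π.ker, mk (z : Γ) ∈ Z := fun z => hZdef ▸ ⟨z, z.2, rfl⟩
  -- from `H` to `XH`
  have hdown : ∀ χ : {χ // P χ}, ∃ β : {β // Q β}, T β.1 = pullSurj qH hqH χ.1 := by
    rintro ⟨χ, hχp, hχν⟩
    obtain ⟨β₀, hβ₀⟩ := gallagher_exists c₀ νR hνR (pullSurj qH hqH χ) ((hover χ).1 hχν)
    have hT : T (irrPull eX.symm β₀) = pullSurj qH hqH χ := by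
      refine Subtype.ext (funext fun y => ?_)
      rw [hβ₀]
      show _ * (β₀ : ΓH ⧸ R' → ℂ) (eX.symm (qX y)) = _
      rw [← heX, eX.symm_apply_apply]
    refine ⟨⟨irrPull eX.symm β₀, ?_, ?_⟩, hT⟩
    · intro hd
      exact hχp (by rw [hdegT _ χ hT.symm]; exact dvd_mul_of_dvd_right hd _)
    · rw [hoverX]
      rintro ⟨_, hz⟩
      obtain ⟨w, hw, rfl⟩ := Subgroup.mem_map.1 (hZdef ▸ hz)
      have hwH : w ∈ ΓH := by
        show π w ∈ H
        rw [show π w = 1 from hw]
        exact H.one_mem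
      have h1 := congrFun (congrArg Subtype.val hT) ⟨w, hwH⟩
      have h2 := congrFun (congrArg Subtype.val hT) 1
      rw [show (pullSurj qH hqH χ : ΓH → ℂ) ⟨w, hwH⟩ = (pullSurj qH hqH χ : ΓH → ℂ) 1 from by
        rw [pullSurj_apply, pullSurj_apply, (MonoidHom.mem_ker).1 ((hkerH ⟨w, hwH⟩).2 hw), map_one],
        ← h2] at h1
      have h3 := hlam ⟨w, hw⟩ hz
      have hc : (χ₀ : Γ → ℂ) w ≠ 0 := fun h0 => by
        rw [h0, zero_mul] at h3
        exact CfsgLib.Chars.map_one_ne_zero χ₀ h3.symm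
      change (χ₀ : Γ → ℂ) w * _ = (χ₀ : Γ → ℂ) ((1 : ΓH) : Γ) * _ at h1
      rw [OneMemClass.coe_one, map_one, ← h3, mul_assoc] at h1
      have h4 := mul_left_cancel₀ hc h1
      calc (irrPull eX.symm β₀ : XH → ℂ) (Subgroup.inclusion hZH ⟨mk w, hz⟩)
          = (irrPull eX.symm β₀ : XH → ℂ) (qX ⟨w, hwH⟩) := rfl
        _ = (lam ⟨mk w, hz⟩ : ℂ) * (irrPull eX.symm β₀ : XH → ℂ) 1 := h4
        _ = _ := mul_comm _ _
  -- from `XH` to `H`
  have hup : ∀ β : {β // Q β}, ∃ χ : {χ // P χ}, pullSurj qH hqH χ.1 = T β.1 := by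
    rintro ⟨β, hβp, hβl⟩
    have hker' : qH.ker ≤ CfsgLib.Chars.charKer (T β : ΓH → ℂ) := by
      intro y hy
      rw [CfsgLib.Chars.mem_charKer]
      intro g
      have hyk := (hkerH y).1 hy
      show (χ₀ : Γ → ℂ) ((y * g : ΓH) : Γ) * (β : XH → ℂ) (qX (y * g)) = _ * _
      rw [Subgroup.coe_mul, CfsgLib.Chars.map_mul_of_mem_center χ₀ (hker hyk), map_mul,
        CfsgLib.Chars.map_mul_of_mem_center β (z := qX y) (by
          rw [Subgroup.mem_center_iff]
          intro x
          exact Subtype.ext (Subgroup.mem_center_iff.1 (hZc (hmemZ ⟨y, hyk⟩)) x))]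
      have h3 := hlam ⟨y, hyk⟩ (hmemZ _)
      have h4 := (hoverX β).1 hβl ⟨mk (y : Γ), hmemZ ⟨y, hyk⟩⟩
      rw [show Subgroup.inclusion hZH ⟨mk (y : Γ), hmemZ ⟨y, hyk⟩⟩ = qX y from rfl] at h4
      rw [h4]
      have hb := CfsgLib.Chars.map_one_ne_zero β
      have hc := CfsgLib.Chars.map_one_ne_zero χ₀
      show _ = (χ₀ : Γ → ℂ) g * (β : XH → ℂ) (qX g)
      field_simp
      linear_combination ((χ₀ : Γ → ℂ) g * (β : XH → ℂ) (qX g)) * h3
    obtain ⟨χ, hχ⟩ := exists_pullSurj_eq qH hqH (T β) hker'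
    refine ⟨⟨χ, ?_, ?_⟩, hχ⟩
    · rw [hdegT β χ hχ]
      exact fun hd => (hp.dvd_mul.1 hd).elim hpν hβp
    · rw [hover, hχ, CfsgLib.Chars.Induced.mult_ne_zero_iff
        (CfsgLib.Chars.isCharacter_restrict (CfsgLib.Chars.isCharacter_coe (T β)) R'),
        show (fun r : R' => (T β : ΓH → ℂ) r) = (β : XH → ℂ) 1 • (νR : R' → ℂ) from funext fun r => by
          show (c₀ : ΓH → ℂ) r * (β : XH → ℂ) (qX r) = _
          rw [(hqXker r).2 r.2, hνR, Pi.smul_apply, smul_eq_mul, mul_comm],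
        classInner_smul_left, CfsgLib.Chars.Induced.classInner_irr_self, mul_one]
      exact CfsgLib.Chars.map_one_ne_zero β
  choose U hU using hup
  refine (Nat.card_congr (Equiv.ofBijective U ⟨?_, ?_⟩)).symm
  · intro β β' h
    exact Subtype.ext (hTinj ((hU β).symm.trans ((by rw [h]) : _ = _) |>.trans (hU β')))
  · intro χ
    obtain ⟨β, hβ⟩ := hdown χ
    exact ⟨β, Subtype.ext (pullSurj_injective qH hqH ((hU β).trans hβ))⟩

/-- Reduction of a count to a count over a central subgroup. -/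
theorem cnt_eq_of_central {p : ℕ} [Fact p.Prime] (hG : Cfsg.IsPSolvable p G) {L : Subgroup G}
    [L.Normal] [Fintype L] (ν : IrrCharacter L) (hν : ∀ g : G, conjIrr g ν = ν) (S : Sylow p G)
    (hLN : L ≤ Subgroup.normalizer ((L ⊔ (S : Subgroup G) : Subgroup G) : Set G))
    (hSTAR : ∀ (X : Type u) [Group X] [Fintype X] (Z : Subgroup X) [Fintype Z],
      Cfsg.IsPSolvable p X → ∀ (hZ : Z ≤ Subgroup.center X), Z.index = L.index →
      ∀ (lam : Z →* ℂˣ) (T : Sylow p X)
        (hZN : Z ≤ Subgroup.normalizer ((T : Subgroup X) : Set X)),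
      cnt p Z.subtype (CfsgLib.Chars.linChar lam) =
        cnt p (Subgroup.inclusion hZN) (CfsgLib.Chars.linChar lam)) :
    cnt p L.subtype ν = cnt p (Subgroup.inclusion hLN) ν := by
  classical
  have hp : p.Prime := Fact.out
  -- `p ∣ ν(1)`: both counts vanish
  by_cases hpν : p ∣ Cfsg.charDegree (ν : L → ℂ)
  · have h0 : ∀ (H : Subgroup G) (hLH : L ≤ H), cnt p (Subgroup.inclusion hLH) ν = 0 := by
      intro H hLH
      have := Fintype.ofFinite H
      have := Fintype.ofFinite (L.subgroupOf H)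
      rw [cnt, Nat.card_eq_zero]
      refine Or.inl ⟨fun ⟨χ, hχ, hχν⟩ => hχ ?_⟩
      rw [exists_degree_eq χ (toSub hLH ν) (by rwa [mult_toSub])]
      refine dvd_mul_of_dvd_right ?_ _
      have h2 : Cfsg.charDegree (toSub (H := H) hLH ν : L.subgroupOf H → ℂ) =
          Cfsg.charDegree (ν : L → ℂ) := by
        apply Nat.cast_injective (R := ℂ)
        rw [CfsgLib.Chars.coe_charDegree, CfsgLib.Chars.coe_charDegree, toSub, irrPull_apply, map_one]
      rwa [h2]
    rw [h0, cnt, Nat.card_eq_zero]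
    refine Or.inl ⟨fun ⟨χ, hχ, hχν⟩ => hχ ?_⟩
    rw [exists_degree_eq χ ν hχν]
    exact dvd_mul_of_dvd_right hpν _
  obtain ⟨Γ, _, _, π, j, hπ, hj, hjn, hker, χ₀, hχ₀⟩ :=
    exists_covering_extension ν (fun g => congrArg Subtype.val (hν g))
  have := hjn
  have := Fintype.ofFinite Γ
  set mk := QuotientGroup.mk' j.range with hmk
  set Z : Subgroup (Γ ⧸ j.range) := π.ker.map mk with hZdef
  have := Fintype.ofFinite (Γ ⧸ j.range)
  have := Fintype.ofFinite Z
  have := Fintype.ofFinite π.ker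
  -- the linear character
  obtain ⟨ω₀, hω₀⟩ := exists_under π.ker.subtype χ₀
  obtain ⟨w, rfl⟩ := exists_linear hker ω₀
  have hw := (over_central_iff hker w χ₀).1 hω₀
  have hinjk : Function.Injective (mk.subgroupMap π.ker) := by
    rw [injective_iff_map_eq_one]
    intro z hz
    have h1 : ((z : Γ) : Γ ⧸ j.range) = 1 := congrArg Subtype.val hz
    obtain ⟨x, hx⟩ := (QuotientGroup.eq_one_iff _).1 h1
    have h2 : (x : G) = 1 := by rw [← hj x, hx]; exact z.2
    exact Subtype.ext (hx.symm.trans (by rw [show x = 1 from Subtype.ext h2, map_one]; rfl))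
  let ez : π.ker ≃* Z := MulEquiv.ofBijective (mk.subgroupMap π.ker)
    ⟨hinjk, mk.subgroupMap_surjective π.ker⟩
  let lam : Z →* ℂˣ := (w.comp ez.symm.toMonoidHom)⁻¹
  have hlam : ∀ (z : π.ker) (hz : mk (z : Γ) ∈ Z),
      (χ₀ : Γ → ℂ) z * (lam ⟨_, hz⟩ : ℂ) = (χ₀ : Γ → ℂ) 1 := by
    intro z hz
    rw [hw z]
    show _ * _ * (((w (ez.symm (ez z)))⁻¹ : ℂˣ) : ℂ) = _
    rw [ez.symm_apply_apply, mul_assoc, Units.val_inv_eq_inv_val, mul_inv_cancel₀ (Units.ne_zero _),
      mul_one]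
  have hZc : Z ≤ Subgroup.center (Γ ⧸ j.range) := by
    rintro _ ⟨z, hz, rfl⟩
    rw [Subgroup.mem_center_iff]
    intro g
    obtain ⟨g, rfl⟩ := QuotientGroup.mk'_surjective j.range g
    rw [← map_mul, ← map_mul, Subgroup.mem_center_iff.1 (hker hz) g]
  have hle : j.range ≤ L.comap π := by
    rintro _ ⟨x, rfl⟩
    show π (j x) ∈ L
    rw [hj]
    exact x.2
  let fX : Γ ⧸ j.range →* G ⧸ L := QuotientGroup.map j.range L π hle
  have hfX : ∀ y : Γ, fX (mk y) = (π y : G ⧸ L) := fun y => rfl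
  have hfXs : Function.Surjective fX := by
    intro q
    obtain ⟨g, rfl⟩ := QuotientGroup.mk_surjective q
    obtain ⟨y, rfl⟩ := hπ g
    exact ⟨mk y, rfl⟩
  have hkerfX : fX.ker = Z := by
    refine le_antisymm ?_ ?_
    · intro q hq
      obtain ⟨y, rfl⟩ := QuotientGroup.mk'_surjective j.range q
      rw [MonoidHom.mem_ker, hfX, QuotientGroup.eq_one_iff] at hq
      refine ⟨y * (j ⟨π y, hq⟩)⁻¹, ?_, ?_⟩
      · show π (y * (j ⟨π y, hq⟩)⁻¹) = 1
        rw [map_mul, map_inv, hj, mul_inv_cancel]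
      · rw [map_mul, map_inv, show mk (j ⟨π y, hq⟩) = 1 from (QuotientGroup.eq_one_iff _).2 ⟨_, rfl⟩,
          inv_one, mul_one]
    · rintro _ ⟨z, hz, rfl⟩
      rw [MonoidHom.mem_ker, hfX, show π z = 1 from hz, QuotientGroup.mk_one]
  have hidx : Z.index = L.index := by
    rw [← hkerfX, Subgroup.index_ker, MonoidHom.range_eq_top.2 hfXs, Subgroup.card_top,
      ← Subgroup.index_eq_card]
  -- `X` is `p`-solvable
  have hX : Cfsg.IsPSolvable p (Γ ⧸ j.range) := by
    haveI : fX.ker.Normal := inferInstance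
    refine CfsgLib.Constrained.isPSolvable_of_extension fX.ker ?_ ?_
    · rw [hkerfX]
      haveI : IsMulCommutative Z :=
        ⟨⟨fun a b => Subtype.ext (Subgroup.mem_center_iff.1 (hZc b.2) a)⟩⟩
      haveI : Group.IsSolvable Z := by
        exact Group.isSolvable_of_comm fun a b => mul_comm' a b
      exact CfsgLib.Constrained.isPSolvable_of_isSolvable
    · exact CfsgLib.Constrained.IsPSolvable.of_mulEquiv (CfsgLib.Constrained.IsPSolvable.quotient hG L)
        (QuotientGroup.quotientKerEquivOfSurjective fX hfXs).symm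
  -- a Sylow subgroup of `X` over `S`
  obtain ⟨T, hT⟩ : ∃ T : Sylow p (Γ ⧸ j.range),
      (L ⊔ (S : Subgroup G)).map (QuotientGroup.mk' L) = (T : Subgroup (Γ ⧸ j.range)).map fX := by
    have h1 : (L ⊔ (S : Subgroup G)).map (QuotientGroup.mk' L) =
        (S.mapSurjective (f := QuotientGroup.mk' L) (QuotientGroup.mk'_surjective L) : Subgroup (G ⧸ L)) := by
      rw [Subgroup.map_sup, show L.map (QuotientGroup.mk' L) = ⊥ by
        rw [Subgroup.map_eq_bot_iff, QuotientGroup.ker_mk'], bot_sup_eq]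
      rfl
    obtain ⟨T₀⟩ : Nonempty (Sylow p (Γ ⧸ j.range)) := inferInstance
    obtain ⟨q, hq⟩ := MulAction.exists_smul_eq (G ⧸ L) (T₀.mapSurjective (f := fX) hfXs)
      (S.mapSurjective (f := QuotientGroup.mk' L) (QuotientGroup.mk'_surjective L))
    obtain ⟨x, rfl⟩ := hfXs q
    refine ⟨x • T₀, ?_⟩
    rw [h1, ← hq]
    show MulAut.conj (fX x) • ((T₀ : Subgroup (Γ ⧸ j.range)).map fX) =
      (MulAut.conj x • (T₀ : Subgroup (Γ ⧸ j.range))).map fX
    ext g
    simp only [Subgroup.mem_pointwise_smul_iff_inv_smul_mem, Subgroup.mem_map, MulAut.smul_def,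
      MulAut.inv_apply, MulAut.conj_symm_apply]
    constructor
    · rintro ⟨t, ht, he⟩
      exact ⟨x * t * x⁻¹, by simpa [mul_assoc] using ht, by rw [map_mul, map_mul, map_inv, he]; group⟩
    · rintro ⟨t, ht, rfl⟩
      exact ⟨x⁻¹ * t * x, ht, by simp⟩
  -- the normaliser
  set N := Subgroup.normalizer ((L ⊔ (S : Subgroup G) : Subgroup G) : Set G) with hN
  have hZN : Z ≤ Subgroup.normalizer ((T : Subgroup (Γ ⧸ j.range)) : Set (Γ ⧸ j.range)) :=
    hZc.trans (Subgroup.center_le_normalizer _)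
  have hXN : (N.comap π).map mk =
      Subgroup.normalizer ((T : Subgroup (Γ ⧸ j.range)) : Set (Γ ⧸ j.range)) := by
    have hTp : ∀ z ∈ Z ⊔ (T : Subgroup (Γ ⧸ j.range)), ∀ k : ℕ, z ^ p ^ k = 1 →
        z ∈ (T : Subgroup (Γ ⧸ j.range)) := by
      intro z hz k hk
      have hzN : Subgroup.zpowers z ≤ Subgroup.normalizer ((T : Subgroup (Γ ⧸ j.range)) : Set _) := by
        rw [Subgroup.zpowers_le]
        exact (sup_le hZN Subgroup.le_normalizer) hz
      have hpz : IsPGroup p (Subgroup.zpowers z) := fun g => by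
        obtain ⟨i, hi⟩ := Subgroup.mem_zpowers_iff.1 g.2
        refine ⟨k, Subtype.ext ?_⟩
        rw [SubmonoidClass.coe_pow, ← hi, ← zpow_natCast (z ^ i), ← zpow_mul, mul_comm, zpow_mul,
          zpow_natCast, hk, one_zpow]
        rfl
      have hsup : IsPGroup p ((T : Subgroup (Γ ⧸ j.range)) ⊔ Subgroup.zpowers z :
          Subgroup (Γ ⧸ j.range)) := T.isPGroup'.to_sup_of_normal_left' hpz hzN
      have h := T.is_maximal' hsup le_sup_left
      exact h ▸ Subgroup.mem_sup_right (Subgroup.mem_zpowers z)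
    have hcomap : (L ⊔ (S : Subgroup G)) = ((T : Subgroup (Γ ⧸ j.range)).map fX).comap
        (QuotientGroup.mk' L) := by
      rw [← hT, Subgroup.comap_map_eq, QuotientGroup.ker_mk', sup_assoc, sup_comm _ L, ← sup_assoc,
        sup_idem]
    ext q
    obtain ⟨y, rfl⟩ := QuotientGroup.mk'_surjective j.range q
    have hmemN : mk y ∈ (N.comap π).map mk ↔ π y ∈ N := by
      constructor
      · rintro ⟨y', hy', he⟩
        obtain ⟨x, hx⟩ := (QuotientGroup.eq).1 he
        have h := N.mul_mem hy' (hLN x.2)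
        rwa [← hj x, hx, map_mul, map_inv, mul_inv_cancel_left] at h
      · exact fun h => ⟨y, h, rfl⟩
    rw [hmemN]
    have hconj : ∀ t, fX (mk y * t * (mk y)⁻¹) = (π y : G ⧸ L) * fX t * ((π y : G ⧸ L))⁻¹ := by
      intro t
      rw [map_mul, map_mul, map_inv, hfX]
    have hTT : ∀ t, fX t ∈ (T : Subgroup (Γ ⧸ j.range)).map fX →
        t ∈ Z ⊔ (T : Subgroup (Γ ⧸ j.range)) := by
      intro t ht
      rw [← Subgroup.mem_comap, Subgroup.comap_map_eq, hkerfX, sup_comm] at ht
      exact ht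
    constructor
    · intro hy
      refine CfsgLib.Coprime.le_normalizer_of_conj_mem (A := Subgroup.zpowers (mk y)) ?_
        (Subgroup.mem_zpowers _)
      intro a ha t ht
      have hy' : π y ∈ N := hy
      obtain ⟨i, rfl⟩ := Subgroup.mem_zpowers_iff.1 ha
      have hiN : π (y ^ i) ∈ N := by rw [map_zpow]; exact N.zpow_mem hy' i
      rw [← map_zpow]
      obtain ⟨k, hk⟩ := T.isPGroup' ⟨t, ht⟩
      refine hTp _ (hTT _ ?_) k ?_
      · obtain ⟨g, hg⟩ := QuotientGroup.mk_surjective (fX t)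
        have hgP : g ∈ L ⊔ (S : Subgroup G) := by
          rw [hcomap, Subgroup.mem_comap]
          show (g : G ⧸ L) ∈ _
          rw [hg]
          exact ⟨t, ht, rfl⟩
        have h := (Subgroup.mem_normalizer_iff.1 hiN g).1 hgP
        rw [hcomap, Subgroup.mem_comap] at h
        rw [map_mul, map_mul, map_inv, hfX, ← hg]
        exact h
      · have hk' : t ^ p ^ k = 1 := congrArg Subtype.val hk
        rw [conj_pow, hk', mul_one, mul_inv_cancel]
    · intro hy
      refine Subgroup.mem_normalizer_iff.2 fun g => ?_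
      have key : ∀ (y : Γ), mk y ∈ Subgroup.normalizer ((T : Subgroup (Γ ⧸ j.range)) : Set _) →
          ∀ g : G, g ∈ L ⊔ (S : Subgroup G) → π y * g * (π y)⁻¹ ∈ L ⊔ (S : Subgroup G) := by
        intro y hy g hg
        rw [hcomap, Subgroup.mem_comap] at hg ⊢
        obtain ⟨t, ht, he⟩ := hg
        refine ⟨mk y * t * (mk y)⁻¹, (Subgroup.mem_normalizer_iff.1 hy t).1 ht, ?_⟩
        rw [map_mul, map_mul, map_inv, hfX, he]
        rfl
      refine ⟨key y hy g, fun h => ?_⟩
      have h2 := key y⁻¹ (by rw [map_inv]; exact (Subgroup.normalizer _).inv_mem hy) _ h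
      rwa [map_inv, inv_inv, ← mul_assoc, inv_mul_cancel_left, inv_mul_cancel_right] at h2
  have e1 := cnt_cover hp π hπ hker j hj ν hpν χ₀ hχ₀ ⊤ (le_top : L ≤ ⊤) hZdef lam hlam
    (by rw [Subgroup.comap_top, hZdef]; exact Subgroup.map_mono le_top)
  have e2 := cnt_cover hp π hπ hker j hj ν hpν χ₀ hχ₀ N hLN hZdef lam hlam (hXN ▸ hZN)
  have hstar := hSTAR (Γ ⧸ j.range) Z hX hZc hidx lam T hZN
  have e3 : cnt p L.subtype ν = cnt p (Subgroup.inclusion (le_top : L ≤ ⊤)) ν := by
    rw [cnt_congr p (Subgroup.inclusion (le_top : L ≤ ⊤)) L.subtype Subgroup.topEquiv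
      (MulEquiv.refl L) (fun _ => rfl)]
    rfl
  have hcong : ∀ (A B : Subgroup (Γ ⧸ j.range)) (hA : Z ≤ A) (hB : Z ≤ B), A = B →
      cnt p (Subgroup.inclusion hA) (CfsgLib.Chars.linChar lam) =
        cnt p (Subgroup.inclusion hB) (CfsgLib.Chars.linChar lam) := by
    intro A B hA hB h
    subst h
    rfl
  rw [e3, e1, e2, hcong _ _ _ hZN hXN, ← hstar,
    hcong _ ⊤ _ le_top (by rw [Subgroup.comap_top, Subgroup.map_top_of_surjective _ (QuotientGroup.mk'_surjective _)]),
    cnt_congr p (Subgroup.inclusion (le_top : Z ≤ ⊤)) Z.subtype Subgroup.topEquiv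
      (MulEquiv.refl Z) (fun _ => rfl)]
  rfl

end CfsgLib.McKay
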