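import Cfsg.Agent.McKay.Basic

/-!
# Counting through the invariant characters of a normal subgroup

For `Z ≤ K` with `Z` central and `K` normal, the characters of degree prime to `p` over `l` are
distributed among the `S`-invariant characters of `K`, which are unique up to `N(S)`.
-/

set_option autoImplicit false

namespace CfsgLib.McKay

open Cfsg CfsgLib.Glauberman CfsgLib.Chars.Induced
open scoped Pointwise

universe u

variable {G : Type u} [Group G] [Fintype G]

/-- The conjugates of a character under the elements of a subgroup. -/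
noncomputable def orbitCard {K : Subgroup G} [K.Normal] (W : Subgroup G) (θ : IrrCharacter K) : ℕ :=
  Nat.card {η : IrrCharacter K // ∃ x ∈ W, conjIrr x θ = η}

/-- An invariant character of degree prime to `p` over `l`. -/
def Below (p : ℕ) {Z K : Subgroup G} [K.Normal] [Fintype Z] (hZK : Z ≤ K) (l : IrrCharacter Z)
    (S : Subgroup G) (θ : IrrCharacter K) : Prop :=
  (∀ s ∈ S, conjIrr s θ = θ) ∧ ¬ p ∣ Cfsg.charDegree (θ : K → ℂ) ∧
    CfsgLib.Glauberman.mult (Subgroup.inclusion hZK) θ l ≠ 0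

omit [Fintype G] in
theorem conjIrr_inv_smul {K : Subgroup G} [K.Normal] (x : G) (θ : IrrCharacter K) :
    conjIrr x⁻¹ (conjIrr x θ) = θ := by
  rw [← conjIrr_mul, inv_mul_cancel, conjIrr_one]

theorem charDegree_conjIrr {K : Subgroup G} [K.Normal] (x : G) (θ : IrrCharacter K) :
    Cfsg.charDegree (conjIrr x θ : K → ℂ) = Cfsg.charDegree (θ : K → ℂ) := by
  apply Nat.cast_injective (R := ℂ)
  rw [CfsgLib.Chars.coe_charDegree, CfsgLib.Chars.coe_charDegree, conjIrr_coe, conjFun_apply]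
  exact congrArg (θ : K → ℂ) (Subtype.ext (by simp))

theorem mult_conjIrr_sub {H K : Subgroup G} [K.Normal] [Fintype K] (hKH : K ≤ H)
    (χ : IrrCharacter H) (x : H) (θ : IrrCharacter K) :
    CfsgLib.Glauberman.mult (Subgroup.inclusion hKH) χ (conjIrr (x : G) θ) =
      CfsgLib.Glauberman.mult (Subgroup.inclusion hKH) χ θ := by
  classical
  have := Fintype.ofFinite H
  have := Fintype.ofFinite (K.subgroupOf H)
  rw [← mult_toSub hKH, ← mult_toSub hKH, ← conjIrr_toSub, NormalSylow.mult_conjIrr]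

theorem exists_conj_of_under {H K : Subgroup G} [K.Normal] [Fintype K] (hKH : K ≤ H)
    (χ : IrrCharacter H) (θ η : IrrCharacter K)
    (h1 : CfsgLib.Glauberman.mult (Subgroup.inclusion hKH) χ θ ≠ 0)
    (h2 : CfsgLib.Glauberman.mult (Subgroup.inclusion hKH) χ η ≠ 0) :
    ∃ x ∈ H, conjIrr x θ = η := by
  classical
  have := Fintype.ofFinite H
  have := Fintype.ofFinite (K.subgroupOf H)
  rw [← mult_toSub hKH] at h1 h2
  obtain ⟨x, hx⟩ := NormalSylow.mem_conjOrbit χ _ _ h1 h2
  rw [conjIrr_toSub] at hx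
  exact ⟨x, x.2, toSub_injective hKH hx⟩

/-- Some constituent of a character of degree prime to `p` is invariant under `S`. -/
theorem exists_below {p : ℕ} [Fact p.Prime] {Z H K : Subgroup G} [K.Normal] [Fintype K] [Fintype Z]
    (hZK : Z ≤ K) (hKH : K ≤ H) (hZc : Z ≤ Subgroup.center G) (l : IrrCharacter Z)
    {S : Subgroup G} (hS : IsPGroup p S) (hSH : S ≤ H) (χ : IrrCharacter H)
    (hχ : ¬ p ∣ Cfsg.charDegree (χ : H → ℂ))
    (hl : CfsgLib.Glauberman.mult (Subgroup.inclusion (hZK.trans hKH)) χ l ≠ 0) :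
    ∃ θ, Below p hZK l S θ ∧ CfsgLib.Glauberman.mult (Subgroup.inclusion hKH) χ θ ≠ 0 := by
  classical
  have := Fintype.ofFinite H
  have := Fintype.ofFinite (K.subgroupOf H)
  obtain ⟨θ₀, hθ₀, hθ₀l⟩ := exists_between (Subgroup.inclusion hKH) (Subgroup.inclusion hZK) χ l hl
  have hdeg := exists_degree_eq χ (toSub hKH θ₀) (by rwa [mult_toSub])
  rw [hdeg] at hχ
  letI : MulAction G (IrrCharacter K) := conjIrrAction K
  let A : SubMulAction S (IrrCharacter K) :=
    { carrier := {η | CfsgLib.Glauberman.mult (Subgroup.inclusion hKH) χ η ≠ 0}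
      smul_mem' := fun s η (hη : CfsgLib.Glauberman.mult (Subgroup.inclusion hKH) χ η ≠ 0) => by
        show CfsgLib.Glauberman.mult (Subgroup.inclusion hKH) χ (conjIrr (s : G) η) ≠ 0
        rwa [mult_conjIrr_sub hKH χ ⟨s, hSH s.2⟩ η] }
  have hcard : ¬ p ∣ Nat.card A := by
    have h1 : Nat.card A = Nat.card (conjOrbit (toSub (H := H) hKH θ₀)) := by
      refine Nat.card_congr (Equiv.ofBijective
        (fun η => ⟨toSub (H := H) hKH η.1, ?_⟩) ⟨?_, ?_⟩)
      · obtain ⟨x, hx, hxe⟩ := exists_conj_of_under hKH χ θ₀ η.1 hθ₀ η.2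
        exact ⟨⟨x, hx⟩, by rw [← hxe]; exact conjIrr_toSub hKH ⟨x, hx⟩ θ₀⟩
      · intro a b h
        exact Subtype.ext (toSub_injective hKH (congrArg Subtype.val h))
      · rintro ⟨_, x, rfl⟩
        refine ⟨⟨conjIrr (x : G) θ₀, ?_⟩, Subtype.ext (conjIrr_toSub hKH x θ₀).symm⟩
        show CfsgLib.Glauberman.mult (Subgroup.inclusion hKH) χ _ ≠ 0
        rwa [mult_conjIrr_sub]
    rw [h1, card_conjOrbit]
    exact fun hd => hχ (dvd_mul_of_dvd_left (dvd_mul_of_dvd_right hd _) _)
  obtain ⟨η, hη⟩ := hS.nonempty_fixed_point_of_prime_not_dvd_card A hcard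
  obtain ⟨x, -, hxe⟩ := exists_conj_of_under hKH χ θ₀ η.1 hθ₀ η.2
  refine ⟨η.1, ⟨fun s hs => congrArg Subtype.val (hη ⟨s, hs⟩), ?_, ?_⟩, η.2⟩
  · rw [← hxe, charDegree_conjIrr]
    have h2 : Cfsg.charDegree (toSub (H := H) hKH θ₀ : K.subgroupOf H → ℂ) =
        Cfsg.charDegree (θ₀ : K → ℂ) := by
      apply Nat.cast_injective (R := ℂ)
      rw [CfsgLib.Chars.coe_charDegree, CfsgLib.Chars.coe_charDegree, toSub, irrPull_apply, map_one]
    exact fun hd => hχ (dvd_mul_of_dvd_right (h2 ▸ hd) _)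
  · obtain ⟨l', hl'⟩ := exists_under (Subgroup.inclusion hZK) η.1
    have h3 := over_trans (Subgroup.inclusion hKH) (Subgroup.inclusion hZK) χ η.1 l' η.2 hl'
    have := Fintype.ofFinite (Z.subgroupOf H)
    have hc : Z.subgroupOf H ≤ Subgroup.center H := fun z hz =>
      Subgroup.mem_center_iff.2 fun g => Subtype.ext (Subgroup.mem_center_iff.1 (hZc hz) g)
    have h4 : toSub (H := H) (hZK.trans hKH) l' = toSub (hZK.trans hKH) l := by
      refine eq_of_central hc χ _ _ ?_ ?_
      · rw [mult_toSub]; exact h3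
      · rw [mult_toSub]; exact hl
    rwa [toSub_injective _ h4] at hl'

/-- Two invariant constituents are conjugate under the normaliser of `S`. -/
theorem exists_conj_normalizer {p : ℕ} [Fact p.Prime] {H K : Subgroup G} [K.Normal] [Fintype K]
    (hKH : K ≤ H) (S : Sylow p G) (hSH : (S : Subgroup G) ≤ H) (χ : IrrCharacter H)
    (θ η : IrrCharacter K) (hθ : ∀ s ∈ (S : Subgroup G), conjIrr s θ = θ)
    (hη : ∀ s ∈ (S : Subgroup G), conjIrr s η = η)
    (h1 : CfsgLib.Glauberman.mult (Subgroup.inclusion hKH) χ θ ≠ 0)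
    (h2 : CfsgLib.Glauberman.mult (Subgroup.inclusion hKH) χ η ≠ 0) :
    ∃ x ∈ H ⊓ Subgroup.normalizer ((S : Subgroup G) : Set G), conjIrr x θ = η := by
  classical
  obtain ⟨x, hxH, hx⟩ := exists_conj_of_under hKH χ θ η h1 h2
  set T : Subgroup G := H ⊓ inertia K (η : K → ℂ) with hTdef
  have hmem : ∀ g, g ∈ T ↔ g ∈ H ∧ conjIrr g η = η := fun g => by
    rw [hTdef, Subgroup.mem_inf, mem_inertia]
    exact and_congr Iff.rfl ⟨fun h => Subtype.ext (by rw [conjIrr_coe]; exact h),
      fun h => by have := congrArg Subtype.val h; rwa [conjIrr_coe] at this⟩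
  have hST : (S : Subgroup G) ≤ T := fun s hs => (hmem s).2 ⟨hSH hs, hη s hs⟩
  have hxT : ((MulAut.conj x • S : Sylow p G) : Subgroup G) ≤ T := by
    intro g hg
    change g ∈ MulAut.conj x • (S : Subgroup G) at hg
    rw [Subgroup.mem_pointwise_smul_iff_inv_smul_mem] at hg
    have hg' : x⁻¹ * g * x ∈ (S : Subgroup G) := by simpa [MulAut.smul_def] using hg
    refine (hmem g).2 ⟨?_, ?_⟩
    · have h := H.mul_mem (H.mul_mem hxH (hSH hg')) (H.inv_mem hxH)
      rwa [show x * (x⁻¹ * g * x) * x⁻¹ = g by group] at h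
    · have h := hθ _ hg'
      rw [conjIrr_mul, conjIrr_mul, hx] at h
      have h' := congrArg (conjIrr x) h
      rwa [← conjIrr_mul, mul_inv_cancel, conjIrr_one, hx] at h'
  obtain ⟨u, hu⟩ := MulAction.exists_smul_eq T ((MulAut.conj x • S : Sylow p G).subtype hxT)
    (S.subtype hST)
  refine ⟨(u : G) * x, ⟨H.mul_mem ((hmem _).1 u.2).1 hxH, ?_⟩, ?_⟩
  · refine Subgroup.mem_normalizer_iff.2 fun g => ?_
    have hu' : ∀ t : T, ((u⁻¹ * t * u : T) : G) ∈ ((MulAut.conj x • S : Sylow p G) : Subgroup G) ↔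
        (t : G) ∈ (S : Subgroup G) := by
      intro t
      have h3 : t ∈ ((u • (MulAut.conj x • S : Sylow p G).subtype hxT : Sylow p T) : Subgroup T) ↔
          t ∈ ((S.subtype hST : Sylow p T) : Subgroup T) := by rw [hu]
      change t ∈ MulAut.conj u • _ ↔ _ at h3
      rw [Subgroup.mem_pointwise_smul_iff_inv_smul_mem] at h3
      simpa [MulAut.smul_def, Subgroup.mem_subgroupOf] using h3
    have hxg : ∀ g, g ∈ ((MulAut.conj x • S : Sylow p G) : Subgroup G) ↔
        x⁻¹ * g * x ∈ (S : Subgroup G) := by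
      intro g
      show g ∈ MulAut.conj x • (S : Subgroup G) ↔ _
      rw [Subgroup.mem_pointwise_smul_iff_inv_smul_mem]
      simp [MulAut.smul_def]
    constructor
    · intro hg
      have h4 : x * g * x⁻¹ ∈ ((MulAut.conj x • S : Sylow p G) : Subgroup G) := by
        rw [hxg]; simpa [mul_assoc] using hg
      have h5 := (hu' ⟨(u : G) * (x * g * x⁻¹) * (u : G)⁻¹,
        T.mul_mem (T.mul_mem u.2 (hxT h4)) (T.inv_mem u.2)⟩).1 (by simpa [mul_assoc] using h4)
      rw [show (u : G) * x * g * ((u : G) * x)⁻¹ = (u : G) * (x * g * x⁻¹) * (u : G)⁻¹ by group]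
      exact h5
    · intro hg
      rw [show (u : G) * x * g * ((u : G) * x)⁻¹ = (u : G) * (x * g * x⁻¹) * (u : G)⁻¹ by group] at hg
      have h5 := (hu' ⟨_, hST hg⟩).2 hg
      have h6 : x * g * x⁻¹ ∈ ((MulAut.conj x • S : Sylow p G) : Subgroup G) := by
        simpa [mul_assoc] using h5
      rw [hxg] at h6
      simpa [mul_assoc] using h6
  · rw [conjIrr_mul, hx]
    exact ((hmem _).1 u.2).2

/-- The decomposition of the count. -/
theorem cnt_decomp {p : ℕ} [Fact p.Prime] {Z H K : Subgroup G} [K.Normal] [Fintype K] [Fintype Z]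
    (hZK : Z ≤ K) (hKH : K ≤ H) (hZc : Z ≤ Subgroup.center G) (l : IrrCharacter Z)
    (S : Sylow p G) (hSH : (S : Subgroup G) ≤ H) [DecidablePred (Below p hZK l (S : Subgroup G))] :
    (cnt p (Subgroup.inclusion (hZK.trans hKH)) l : ℚ) =
      ∑ θ ∈ Finset.univ.filter (Below p hZK l (S : Subgroup G)),
        (cnt p (Subgroup.inclusion hKH) θ : ℚ) /
          orbitCard (H ⊓ Subgroup.normalizer ((S : Subgroup G) : Set G)) θ := by
  classical
  have := Fintype.ofFinite H
  set W := H ⊓ Subgroup.normalizer ((S : Subgroup G) : Set G) with hW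
  let A : Finset (IrrCharacter H) := Finset.univ.filter fun χ =>
    ¬ p ∣ Cfsg.charDegree (χ : H → ℂ) ∧
      CfsgLib.Glauberman.mult (Subgroup.inclusion (hZK.trans hKH)) χ l ≠ 0
  let R : IrrCharacter H → IrrCharacter K → Prop := fun χ θ =>
    CfsgLib.Glauberman.mult (Subgroup.inclusion hKH) χ θ ≠ 0
  have hA : ∀ θ, Below p hZK l (S : Subgroup G) θ →
      cnt p (Subgroup.inclusion hKH) θ = (A.filter fun χ => R χ θ).card := by
    intro θ hθ
    rw [cnt, Nat.card_eq_fintype_card, Fintype.card_subtype, Finset.filter_filter]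
    congr 1
    ext χ
    simp only [Finset.mem_filter, Finset.mem_univ, true_and, R]
    exact ⟨fun h => ⟨⟨h.1, over_trans (Subgroup.inclusion hKH) (Subgroup.inclusion hZK) χ θ l h.2
      hθ.2.2⟩, h.2⟩, fun h => ⟨h.1.1, h.2⟩⟩
  have hsum : ∀ χ ∈ A, ∑ θ ∈ Finset.univ.filter (Below p hZK l (S : Subgroup G)),
      (if R χ θ then (1 : ℚ) / orbitCard W θ else 0) = 1 := by
    intro χ hχ
    obtain ⟨hd, hl⟩ := (Finset.mem_filter.1 hχ).2
    obtain ⟨θ₀, hθ₀, hθ₀χ⟩ := exists_below hZK hKH hZc l S.isPGroup' hSH χ hd hl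
    set Ω := (Finset.univ.filter (Below p hZK l (S : Subgroup G))).filter (R χ) with hΩ
    have horb : ∀ θ ∈ Ω, Ω = Finset.univ.filter fun η => ∃ x ∈ W, conjIrr x θ = η := by
      intro θ hθ
      simp only [hΩ, Finset.mem_filter, Finset.mem_univ, true_and] at hθ
      ext η
      simp only [hΩ, Finset.mem_filter, Finset.mem_univ, true_and]
      refine ⟨fun h => exists_conj_normalizer hKH S hSH χ θ η hθ.1.1 h.1.1 hθ.2 h.2, ?_⟩
      rintro ⟨x, hx, rfl⟩
      have hR : R χ (conjIrr x θ) := by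
        show CfsgLib.Glauberman.mult (Subgroup.inclusion hKH) χ _ ≠ 0
        rw [mult_conjIrr_sub hKH χ ⟨x, hx.1⟩ θ]
        exact hθ.2
      refine ⟨⟨fun s hs => ?_, by rw [charDegree_conjIrr]; exact hθ.1.2.1, ?_⟩, hR⟩
      · have hs' : x⁻¹ * s * x ∈ (S : Subgroup G) := by
          have := (Subgroup.mem_normalizer_iff.1 ((Subgroup.normalizer _).inv_mem hx.2) s).1 hs
          simpa using this
        rw [← conjIrr_mul, show s * x = x * (x⁻¹ * s * x) by group, conjIrr_mul, hθ.1.1 _ hs']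
      · obtain ⟨l', hl'⟩ := exists_under (Subgroup.inclusion hZK) (conjIrr x θ)
        have h3 := over_trans (Subgroup.inclusion hKH) (Subgroup.inclusion hZK) χ _ l' hR hl'
        have := Fintype.ofFinite (Z.subgroupOf H)
        have hc : Z.subgroupOf H ≤ Subgroup.center H := fun z hz =>
          Subgroup.mem_center_iff.2 fun g => Subtype.ext (Subgroup.mem_center_iff.1 (hZc hz) g)
        have h4 : toSub (H := H) (hZK.trans hKH) l' = toSub (hZK.trans hKH) l := by
          refine eq_of_central hc χ _ _ ?_ ?_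
          · rw [mult_toSub]; exact h3
          · rw [mult_toSub]; exact hl
        rwa [toSub_injective _ h4] at hl'
    rw [← Finset.sum_filter, ← hΩ]
    have hw : ∀ θ ∈ Ω, orbitCard W θ = Ω.card := by
      intro θ hθ
      rw [orbitCard, Nat.card_eq_fintype_card, Fintype.card_subtype, ← horb θ hθ]
    rw [Finset.sum_congr rfl fun θ hθ => by rw [hw θ hθ], Finset.sum_const, nsmul_eq_mul,
      mul_one_div, div_self]
    have : θ₀ ∈ Ω := Finset.mem_filter.2 ⟨Finset.mem_filter.2 ⟨Finset.mem_univ _, hθ₀⟩, hθ₀χ⟩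
    exact_mod_cast (Finset.card_pos.2 ⟨θ₀, this⟩).ne'
  rw [Finset.sum_congr rfl fun θ hθ => by
    rw [hA θ (Finset.mem_filter.1 hθ).2, ← Finset.sum_boole, Finset.sum_div]]
  rw [Finset.sum_comm, Finset.sum_congr rfl (g := fun _ => (1 : ℚ)) fun χ hχ => by
    refine (Finset.sum_congr rfl fun θ _ => ?_).trans (hsum χ hχ)
    split_ifs <;> simp]
  rw [Finset.sum_const, nsmul_eq_mul, mul_one, cnt, Nat.card_eq_fintype_card, Fintype.card_subtype]

end CfsgLib.McKay
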