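import Cfsg.Agent.McKay.Good
import Cfsg.Agent.Glauberman.Sub
import Cfsg.Agent.Coprime.Basic
import Mathlib.RingTheory.IntegralDomain

/-!
# Extendibility and the Glauberman correspondence

A `p`-group `S` acts on a `p'`-group `K`, and a `p'`-group `Q` normalises both, with `[Q,Q]` inside
`C = C_K(S)`. An `S`-invariant, `Q`-invariant character of `K` extends to `K Q` exactly when its
Glauberman correspondent extends to `Q`.
-/

set_option autoImplicit false

namespace CfsgLib.McKay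

open Cfsg CfsgLib.Glauberman CfsgLib.Chars.Induced
open scoped ComplexConjugate

universe u

variable {X : Type u} [Group X]

/-- `q` fixes `θ`. -/
def Fix {K : Subgroup X} (q : X) (θ : IrrCharacter K) : Prop :=
  ∀ k k' : K, (k' : X) = q * k * q⁻¹ → (θ : K → ℂ) k' = (θ : K → ℂ) k

/-- Conjugation on a normalised subgroup. -/
def cj {K : Subgroup X} {q : X} (hq : q ∈ Subgroup.normalizer (K : Set X)) : K ≃* K where
  toFun k := ⟨q * k * q⁻¹, (Subgroup.mem_normalizer_iff.1 hq k).1 k.2⟩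
  invFun k := ⟨q⁻¹ * k * q, by
    simpa using (Subgroup.mem_normalizer_iff.1 ((Subgroup.normalizer _).inv_mem hq) k).1 k.2⟩
  left_inv k := Subtype.ext (by simp [mul_assoc])
  right_inv k := Subtype.ext (by simp [mul_assoc])
  map_mul' k k' := Subtype.ext (by simp [mul_assoc])

@[simp] theorem cj_coe {K : Subgroup X} {q : X} (hq : q ∈ Subgroup.normalizer (K : Set X)) (k : K) :
    (cj hq k : X) = q * k * q⁻¹ := rfl

theorem fix_iff {K : Subgroup X} {q : X} (hq : q ∈ Subgroup.normalizer (K : Set X))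
    (θ : IrrCharacter K) : Fix q θ ↔ irrPull (cj hq) θ = θ := by
  constructor
  · exact fun h => Subtype.ext (funext fun k => h k (cj hq k) rfl)
  · intro h k k' hk
    rw [show k' = cj hq k from Subtype.ext hk]
    exact congrFun (congrArg Subtype.val h) k

theorem fix_of_mem {K : Subgroup X} {q : X} (hq : q ∈ K) (θ : IrrCharacter K) : Fix q θ := by
  intro k k' hk
  rw [show k' = ⟨q, hq⟩ * k * (⟨q, hq⟩ : K)⁻¹ from Subtype.ext hk]
  exact CfsgLib.Chars.isClassFunction_coe θ k ⟨q, hq⟩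

theorem fix_mul {K : Subgroup X} {q r : X} (θ : IrrCharacter K)
    (hr : r ∈ Subgroup.normalizer (K : Set X)) (h1 : Fix q θ) (h2 : Fix r θ) : Fix (q * r) θ := by
  intro k k' hk
  rw [h1 (cj hr k) k' (by rw [hk, cj_coe]; group)]
  exact h2 k _ rfl

theorem fix_inv {K : Subgroup X} {q : X} (θ : IrrCharacter K) (h : Fix q θ) : Fix q⁻¹ θ := by
  intro k k' hk
  exact (h k' k (by rw [hk]; group)).symm

variable [Fintype X]

/-- The Glauberman correspondence, in subgroups. -/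
theorem glaub {p : ℕ} [Fact p.Prime] {K S C : Subgroup X} [Fintype C] (hpK : ¬ p ∣ Nat.card K)
    (hS : IsPGroup p S) (hSK : S ≤ Subgroup.normalizer (K : Set X))
    (hC : C = K ⊓ Subgroup.centralizer (S : Set X)) (hCK : C ≤ K) :
    (∀ θ : IrrCharacter K, (∀ s ∈ S, Fix s θ) → ∃ ξ : IrrCharacter C,
      ¬ p ∣ CfsgLib.Glauberman.mult (Subgroup.inclusion hCK) θ ξ ∧
      ∀ η, ¬ p ∣ CfsgLib.Glauberman.mult (Subgroup.inclusion hCK) θ η → η = ξ) ∧
    (∀ θ θ' : IrrCharacter K, (∀ s ∈ S, Fix s θ) → (∀ s ∈ S, Fix s θ') → ∀ ξ : IrrCharacter C,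
      ¬ p ∣ CfsgLib.Glauberman.mult (Subgroup.inclusion hCK) θ ξ →
      ¬ p ∣ CfsgLib.Glauberman.mult (Subgroup.inclusion hCK) θ' ξ → θ = θ') ∧
    (∀ ξ : IrrCharacter C, ∃ θ : IrrCharacter K, (∀ s ∈ S, Fix s θ) ∧
      ¬ p ∣ CfsgLib.Glauberman.mult (Subgroup.inclusion hCK) θ ξ) := by
  classical
  have hnorm : ∀ s ∈ S, ∀ g ∈ K, s * g * s⁻¹ ∈ K :=
    fun s hs g hg => (Subgroup.mem_normalizer_iff.1 (hSK hs) g).1 hg
  letI := conjSubAction K S hnorm
  have hinv : ∀ θ : IrrCharacter K, (∀ s ∈ S, Fix s θ) ↔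
      θ ∈ MulAction.fixedPoints S (IrrCharacter K) := fun θ => invariant_iff hnorm θ
  have hfix : ∀ g : K, g ∈ MulAction.fixedPoints S K ↔ ∃ c, Subgroup.inclusion hCK c = g := by
    intro g
    rw [fixed_iff_mem hnorm g]
    constructor
    · intro h
      exact ⟨⟨(g : X), hC ▸ h⟩, Subtype.ext rfl⟩
    · rintro ⟨c, rfl⟩
      exact hC ▸ c.2
  obtain ⟨h1, h2, h3⟩ := glauberman hS hpK (Subgroup.inclusion hCK)
    (Subgroup.inclusion_injective hCK) hfix
  refine ⟨fun θ hθ => ?_, fun θ θ' hθ hθ' => h2 θ ((hinv θ).1 hθ) θ' ((hinv θ').1 hθ'), fun ξ => ?_⟩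
  · obtain ⟨ξ, hξ, hu, -⟩ := h1 θ ((hinv θ).1 hθ)
    exact ⟨ξ, hξ, hu⟩
  · obtain ⟨θ, hθ, hne⟩ := h3 ξ
    exact ⟨θ, (hinv θ).2 hθ, hne⟩

omit [Fintype X] in
/-- Multiplicities and conjugation. -/
theorem mult_cj {C K : Subgroup X} [Fintype C] (hCK : C ≤ K) {q : X}
    (hqK : q ∈ Subgroup.normalizer (K : Set X)) (hqC : q ∈ Subgroup.normalizer (C : Set X))
    (θ : IrrCharacter K) (ξ : IrrCharacter C) :
    CfsgLib.Glauberman.mult (Subgroup.inclusion hCK) (irrPull (cj hqK) θ) (irrPull (cj hqC) ξ) =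
      CfsgLib.Glauberman.mult (Subgroup.inclusion hCK) θ ξ :=
  mult_irrPull _ _ _ (fun _ => Subtype.ext rfl) θ ξ

/-- The correspondence commutes with conjugation. -/
theorem glaub_fix_iff {p : ℕ} [Fact p.Prime] {K S C : Subgroup X} [Fintype C]
    (hpK : ¬ p ∣ Nat.card K) (hS : IsPGroup p S) (hSK : S ≤ Subgroup.normalizer (K : Set X))
    (hC : C = K ⊓ Subgroup.centralizer (S : Set X)) (hCK : C ≤ K) {θ : IrrCharacter K}
    (hθ : ∀ s ∈ S, Fix s θ) {ξ : IrrCharacter C}
    (hξ : ¬ p ∣ CfsgLib.Glauberman.mult (Subgroup.inclusion hCK) θ ξ) {q : X}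
    (hqK : q ∈ Subgroup.normalizer (K : Set X)) (hqC : q ∈ Subgroup.normalizer (C : Set X))
    (hqS : q ∈ Subgroup.normalizer (S : Set X)) : Fix q θ ↔ Fix q ξ := by
  obtain ⟨h1, h2, -⟩ := glaub hpK hS hSK hC hCK
  have hm : ¬ p ∣ CfsgLib.Glauberman.mult (Subgroup.inclusion hCK) (irrPull (cj hqK) θ)
      (irrPull (cj hqC) ξ) := by rwa [mult_cj]
  have hθ' : ∀ s ∈ S, Fix s (irrPull (cj hqK) θ) := by
    intro s hs k k' hk
    rw [irrPull_apply, irrPull_apply]
    refine hθ (q * s * q⁻¹) ((Subgroup.mem_normalizer_iff.1 hqS s).1 hs) _ _ ?_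
    simp only [cj_coe, hk]
    group
  constructor
  · intro h
    rw [(fix_iff hqK θ).1 h] at hm
    obtain ⟨ξ₀, -, hu⟩ := h1 θ hθ
    exact (fix_iff hqC ξ).2 ((hu _ hm).trans (hu _ hξ).symm)
  · intro h
    rw [(fix_iff hqC ξ).1 h] at hm
    exact (fix_iff hqK θ).2 (h2 _ _ hθ' hθ ξ hm hξ)

omit [Fintype X] in
/-- Composite multiplicities modulo `p`. -/
theorem dvd_mult_iff {p : ℕ} [Fact p.Prime] {C K₁ K : Subgroup X} [Fintype C] [Fintype K₁]
    (h1 : C ≤ K₁) (h2 : K₁ ≤ K) (θ : IrrCharacter K) (θ₁ : IrrCharacter K₁) (ξ : IrrCharacter C)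
    (hθ₁ : ¬ p ∣ CfsgLib.Glauberman.mult (Subgroup.inclusion h2) θ θ₁)
    (hu : ∀ η, ¬ p ∣ CfsgLib.Glauberman.mult (Subgroup.inclusion h2) θ η → η = θ₁) :
    p ∣ CfsgLib.Glauberman.mult (Subgroup.inclusion (h1.trans h2)) θ ξ ↔
      p ∣ CfsgLib.Glauberman.mult (Subgroup.inclusion h1) θ₁ ξ := by
  classical
  rw [show Subgroup.inclusion (h1.trans h2) = (Subgroup.inclusion h2).comp (Subgroup.inclusion h1)
    from MonoidHom.ext fun _ => rfl, mult_comp, ← Finset.add_sum_erase _ _ (Finset.mem_univ θ₁),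
    Nat.dvd_add_left (Finset.dvd_sum fun β hβ => dvd_mul_of_dvd_left
      (not_not.1 fun hn => (Finset.mem_erase.1 hβ).1 (hu β hn)) _)]
  exact ⟨fun h => ((Fact.out : p.Prime).dvd_mul.1 h).resolve_left hθ₁, fun h => dvd_mul_of_dvd_right h _⟩

omit [Fintype X] in
theorem card_sup_dvd {K R : Subgroup X} (hR : R ≤ Subgroup.normalizer (K : Set X)) :
    Nat.card (K ⊔ R : Subgroup X) ∣ Nat.card K * Nat.card R := by
  have h1 : Nat.card K * K.relIndex (K ⊔ R) = Nat.card (K ⊔ R : Subgroup X) := by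
    have := Subgroup.card_mul_index (K.subgroupOf (K ⊔ R))
    rwa [Nat.card_congr (Subgroup.subgroupOfEquivOfLe (le_sup_left : K ≤ K ⊔ R)).toEquiv] at this
  rw [← h1]
  refine Nat.mul_dvd_mul_left _ ?_
  have h2 : K.relIndex (K ⊔ R) = K.relIndex R := by
    have hKN : K ≤ Subgroup.normalizer (K : Set X) := K.le_normalizer
    have hsup : K ⊔ R ≤ Subgroup.normalizer (K : Set X) := sup_le hKN hR
    rw [← Subgroup.relIndex_subgroupOf hsup, ← Subgroup.relIndex_subgroupOf hR,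
      Subgroup.subgroupOf_sup hKN hR, sup_comm, Subgroup.relIndex_sup_right]
  rw [h2]
  exact Subgroup.index_dvd_card _

/-- Extensions of a character from `K` to `M`. -/
def IsExt {K M : Subgroup X} (h : K ≤ M) (θ : IrrCharacter K) (φ : IrrCharacter M) : Prop :=
  ∀ k : K, (φ : M → ℂ) (Subgroup.inclusion h k) = (θ : K → ℂ) k

/-- Twist by a linear character. -/
noncomputable def mulLin {M : Subgroup X} (φ : IrrCharacter M) (l : M →* ℂˣ) : IrrCharacter M :=
  ⟨fun m => (φ : M → ℂ) m * (l m : ℂ), by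
    classical
    have := Fintype.ofFinite M
    refine CfsgLib.Chars.isIrrCharacter_of_classInner_self
      (CfsgLib.Chars.isCharacter_mul (CfsgLib.Chars.isCharacter_coe φ)
        (CfsgLib.Chars.isCharacter_coe (CfsgLib.Chars.linChar l))) ?_
    rw [← CfsgLib.Chars.Induced.classInner_irr_self φ]
    simp only [classInner]
    congr 1
    refine Finset.sum_congr rfl fun m _ => ?_
    have h : (l m : ℂ) * conj (l m : ℂ) = 1 := by
      have h1 := CfsgLib.Chars.conj_eq_map_inv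
        (CfsgLib.Chars.isCharacter_coe (CfsgLib.Chars.linChar l)) m
      simp only [CfsgLib.Chars.linChar_apply] at h1
      rw [h1, map_inv, Units.val_inv_eq_inv_val, mul_inv_cancel₀ (Units.ne_zero _)]
    rw [map_mul]
    linear_combination ((φ : M → ℂ) m * conj ((φ : M → ℂ) m)) * h⟩

theorem mulLin_apply {M : Subgroup X} (φ : IrrCharacter M) (l : M →* ℂˣ) (m : M) :
    (mulLin φ l : M → ℂ) m = (φ : M → ℂ) m * (l m : ℂ) := rfl

/-- Two extensions differ by a twist, twists of one extension differ. -/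
theorem ext_twist {K M : Subgroup X} (hKM : K ≤ M) (hMK : M ≤ Subgroup.normalizer (K : Set X))
    (hab : ∀ a ∈ M, ∀ b ∈ M, a * b * a⁻¹ * b⁻¹ ∈ K) (θ : IrrCharacter K) (φ : IrrCharacter M)
    (hφ : IsExt hKM θ φ) :
    (∀ φ' : IrrCharacter M, IsExt hKM θ φ' →
      ∃ l : M →* ℂˣ, (∀ k : K, l (Subgroup.inclusion hKM k) = 1) ∧ φ' = mulLin φ l) ∧
    (∀ l l' : M →* ℂˣ, (∀ k : K, l (Subgroup.inclusion hKM k) = 1) →
      (∀ k : K, l' (Subgroup.inclusion hKM k) = 1) → mulLin φ l = mulLin φ l' → l = l') := by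
  classical
  have := Fintype.ofFinite M
  have := Fintype.ofFinite K
  have := Fintype.ofFinite (K.subgroupOf M)
  haveI : (K.subgroupOf M).Normal := Subgroup.normal_subgroupOf_of_le_normalizer hMK
  have hres : ∀ n : K.subgroupOf M, (φ : M → ℂ) n = (toSub hKM θ : K.subgroupOf M → ℂ) n :=
    fun n => hφ ⟨(n : M), n.2⟩
  constructor
  · intro φ' hφ'
    obtain ⟨β, hβ⟩ := gallagher_exists φ (toSub hKM θ) hres φ' (by
      have h3 := NormalSylow.mult_eq_induced (K.subgroupOf M).subtype φ' (toSub hKM θ)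
      simp only [Subgroup.coe_subtype] at h3
      rw [h3, mult_toSub, mult_ne_zero_iff_finsum, finsum_eq_sum_of_fintype]
      intro h0
      have h5 := CfsgLib.Chars.Induced.classInner_irr_self θ
      have h6 : ∑ g : K, (θ : K → ℂ) g * conj ((θ : K → ℂ) g) = 0 := by
        rw [← h0]
        exact Finset.sum_congr rfl fun g _ => by rw [hφ' g]
      simp only [classInner, h6, mul_zero] at h5
      exact zero_ne_one h5)
    have hβ1 : (β : M ⧸ K.subgroupOf M → ℂ) 1 = 1 := by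
      have h1 := congrFun hβ 1
      rw [QuotientGroup.mk_one, ← map_one (Subgroup.inclusion hKM), hφ' 1, ← hφ 1,
        map_one] at h1
      exact (mul_left_cancel₀ (CfsgLib.Chars.map_one_ne_zero φ) ((mul_one _).trans h1)).symm
    obtain ⟨lam, rfl⟩ := CfsgLib.Chars.exists_linChar_eq β hβ1
    refine ⟨lam.comp (QuotientGroup.mk' _), fun k => ?_, Subtype.ext ?_⟩
    · rw [MonoidHom.comp_apply, QuotientGroup.mk'_apply,
        (QuotientGroup.eq_one_iff (Subgroup.inclusion hKM k)).2 (Subgroup.mem_subgroupOf.2 k.2),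
        map_one]
    · rw [hβ]
      rfl
  · intro l l' hl hl' he
    have hker : ∀ (l : M →* ℂˣ), (∀ k : K, l (Subgroup.inclusion hKM k) = 1) →
        K.subgroupOf M ≤ l.ker := fun l hl n hn => hl ⟨(n : X), hn⟩
    have h := gallagher_injective φ (toSub hKM θ) hres
      (CfsgLib.Chars.linChar (QuotientGroup.lift _ l (hker l hl)))
      (CfsgLib.Chars.linChar (QuotientGroup.lift _ l' (hker l' hl')))
      (fun g => congrFun (congrArg Subtype.val he) g)
    have h2 := CfsgLib.Chars.linChar_injective h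
    exact MonoidHom.ext fun g =>
      congrArg (fun f : M ⧸ K.subgroupOf M →* ℂˣ => f (g : M ⧸ K.subgroupOf M)) h2

/-- The linear characters of `M` trivial on `K` number `[M : K]`. -/
theorem card_lin {K M : Subgroup X} (hKM : K ≤ M) (hMK : M ≤ Subgroup.normalizer (K : Set X))
    (hab : ∀ a ∈ M, ∀ b ∈ M, a * b * a⁻¹ * b⁻¹ ∈ K) :
    Nat.card {l : M →* ℂˣ // ∀ k : K, l (Subgroup.inclusion hKM k) = 1} = K.relIndex M := by
  haveI : (K.subgroupOf M).Normal := Subgroup.normal_subgroupOf_of_le_normalizer hMK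
  have hker : ∀ l : {l : M →* ℂˣ // ∀ k : K, l (Subgroup.inclusion hKM k) = 1},
      K.subgroupOf M ≤ l.1.ker := fun l n hn => l.2 ⟨(n : X), hn⟩
  have h1 : Nat.card {l : M →* ℂˣ // ∀ k : K, l (Subgroup.inclusion hKM k) = 1} =
      Nat.card (M ⧸ K.subgroupOf M →* ℂˣ) :=
    Nat.card_congr
      { toFun := fun l => QuotientGroup.lift _ l.1 (hker l)
        invFun := fun f => ⟨f.comp (QuotientGroup.mk' _), fun k => by
          rw [MonoidHom.comp_apply, QuotientGroup.mk'_apply,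
            (QuotientGroup.eq_one_iff (Subgroup.inclusion hKM k)).2 (Subgroup.mem_subgroupOf.2 k.2),
            map_one]⟩
        left_inv := fun l => Subtype.ext (MonoidHom.ext fun _ => rfl)
        right_inv := fun f => MonoidHom.ext fun q => by
          obtain ⟨m, rfl⟩ := QuotientGroup.mk_surjective q
          rfl }
  rw [h1, CfsgLib.Chars.card_monoidHom_units]
  have hc : commutator (M ⧸ K.subgroupOf M) = ⊥ := by
    rw [commutator_eq_bot_iff_center_eq_top, eq_top_iff]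
    intro q _
    rw [Subgroup.mem_center_iff]
    intro r
    obtain ⟨a, rfl⟩ := QuotientGroup.mk_surjective q
    obtain ⟨b, rfl⟩ := QuotientGroup.mk_surjective r
    rw [← QuotientGroup.mk_mul, ← QuotientGroup.mk_mul, QuotientGroup.eq, Subgroup.mem_subgroupOf]
    have h := hab (a⁻¹ : M) (a⁻¹ : M).2 (b⁻¹ : M) (b⁻¹ : M).2
    simpa [mul_assoc] using h
  rw [hc, Subgroup.index_bot]
  rfl

/-- The constituents of a character over an invariant one, with twists counted. -/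
theorem extends_of_twists {K M : Subgroup X} [Fintype K] (hKM : K ≤ M)
    (hMK : M ≤ Subgroup.normalizer (K : Set X))
    (hab : ∀ a ∈ M, ∀ b ∈ M, a * b * a⁻¹ * b⁻¹ ∈ K) (θ : IrrCharacter K)
    (hθ : ∀ m ∈ M, Fix m θ) (φ : IrrCharacter M)
    (hover : CfsgLib.Glauberman.mult (Subgroup.inclusion hKM) φ θ ≠ 0)
    (hinj : ∀ l l' : M →* ℂˣ, (∀ k : K, l (Subgroup.inclusion hKM k) = 1) →
      (∀ k : K, l' (Subgroup.inclusion hKM k) = 1) → mulLin φ l = mulLin φ l' → l = l') :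
    IsExt hKM θ φ := by
  classical
  have := Fintype.ofFinite M
  have := Fintype.ofFinite (K.subgroupOf M)
  haveI : (K.subgroupOf M).Normal := Subgroup.normal_subgroupOf_of_le_normalizer hMK
  have hinv : ∀ m : M, conjFun (K.subgroupOf M) m (toSub hKM θ : K.subgroupOf M → ℂ) = toSub hKM θ := by
    intro m
    funext n
    rw [conjFun_apply, toSub, irrPull_apply, irrPull_apply]
    refine hθ (m : X)⁻¹ (M.inv_mem m.2) _ _ ?_
    simp
  set e := CfsgLib.Glauberman.mult (Subgroup.inclusion hKM) φ θ with he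
  have hm : ∀ ψ : IrrCharacter M, CfsgLib.Chars.Induced.mult
      (fun n : K.subgroupOf M => (ψ : M → ℂ) n) (toSub hKM θ) =
      CfsgLib.Glauberman.mult (Subgroup.inclusion hKM) ψ θ := by
    intro ψ
    have h3 := NormalSylow.mult_eq_induced (K.subgroupOf M).subtype ψ (toSub hKM θ)
    simp only [Subgroup.coe_subtype] at h3
    rw [h3, mult_toSub]
  have htw : ∀ l : {l : M →* ℂˣ // ∀ k : K, l (Subgroup.inclusion hKM k) = 1},
      CfsgLib.Glauberman.mult (Subgroup.inclusion hKM) (mulLin φ l.1) θ = e := by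
    intro l
    apply mult_eq_of_classInner_eq
    rw [he, ← CfsgLib.Glauberman.classInner_eq_mult]
    simp only [mulLin_apply, l.2, Units.val_one, mul_one]
  have hsum := sum_mult_sq_of_invariant (toSub hKM θ) hinv
  simp only [hm] at hsum
  have hle : Nat.card {l : M →* ℂˣ // ∀ k : K, l (Subgroup.inclusion hKM k) = 1} * e ^ 2 ≤
      K.relIndex M := by
    have : Fintype {l : M →* ℂˣ // ∀ k : K, l (Subgroup.inclusion hKM k) = 1} := Fintype.ofFinite _
    rw [Subgroup.relIndex, ← hsum, Nat.card_eq_fintype_card]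
    calc _ = ∑ l : {l : M →* ℂˣ // ∀ k : K, l (Subgroup.inclusion hKM k) = 1},
          CfsgLib.Glauberman.mult (Subgroup.inclusion hKM) (mulLin φ l.1) θ ^ 2 := by
            simp [htw]
      _ = ∑ ψ ∈ Finset.univ.image (fun l : {l : M →* ℂˣ // ∀ k : K, l (Subgroup.inclusion hKM k) = 1}
            => mulLin φ l.1), CfsgLib.Glauberman.mult (Subgroup.inclusion hKM) ψ θ ^ 2 := by
            rw [Finset.sum_image]
            exact fun l _ l' _ h => Subtype.ext (hinj l.1 l'.1 l.2 l'.2 h)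
      _ ≤ _ := Finset.sum_le_sum_of_subset (Finset.subset_univ _)
  rw [card_lin hKM hMK hab] at hle
  have hpos : 0 < K.relIndex M :=
    Nat.pos_of_ne_zero (Subgroup.index_ne_zero_of_finite (H := K.subgroupOf M))
  have he1 : e = 1 := by
    have h1 : K.relIndex M * e ^ 2 ≤ K.relIndex M * 1 := by rwa [mul_one]
    have h2 := Nat.le_of_mul_le_mul_left h1 hpos
    nlinarith [Nat.pos_of_ne_zero hover]
  intro k
  have h := congrFun (restrict_eq_of_invariant φ (toSub hKM θ) hinv (by rw [hm]; exact hover))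
    ⟨Subgroup.inclusion hKM k, k.2⟩
  rw [Pi.smul_apply, hm, ← he, he1, Nat.cast_one, one_smul] at h
  exact h

/-- **Step.** `A` centralises `R`: extensions to `K R` correspond to extensions to `C_K(A) R`. -/
theorem ext_step {p : ℕ} [Fact p.Prime] {K A R K₁ : Subgroup X} [Fintype K] [Fintype K₁]
    (hpK : ¬ p ∣ Nat.card K) (hpR : ¬ p ∣ Nat.card R) (hA : IsPGroup p A)
    (hAK : A ≤ Subgroup.normalizer (K : Set X)) (hRK : R ≤ Subgroup.normalizer (K : Set X))
    (hRA : ∀ r ∈ R, ∀ a ∈ A, r * a = a * r)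
    (hab : ∀ a ∈ R, ∀ b ∈ R, a * b * a⁻¹ * b⁻¹ ∈ K)
    (hK₁ : K₁ = K ⊓ Subgroup.centralizer (A : Set X)) (hK₁K : K₁ ≤ K)
    (θ : IrrCharacter K) (hθA : ∀ a ∈ A, Fix a θ) (hθR : ∀ r ∈ R, Fix r θ)
    (θ₁ : IrrCharacter K₁) (hθ₁ : ¬ p ∣ CfsgLib.Glauberman.mult (Subgroup.inclusion hK₁K) θ θ₁)
    (z : X) (hzK : z ∈ Subgroup.normalizer (K : Set X)) (hzR : z ∈ Subgroup.normalizer (R : Set X))
    (hzA : z ∈ Subgroup.normalizer (A : Set X)) :
    (∃ φ : IrrCharacter (K ⊔ R : Subgroup X), IsExt le_sup_left θ φ ∧ Fix z φ) ↔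
      (∃ β : IrrCharacter (K₁ ⊔ R : Subgroup X), IsExt le_sup_left θ₁ β ∧ Fix z β) := by
  classical
  set M := K ⊔ R with hM
  set M₁ := K₁ ⊔ R with hM₁
  have := Fintype.ofFinite M
  have := Fintype.ofFinite M₁
  have hKM : K ≤ M := le_sup_left
  have hK₁M₁ : K₁ ≤ M₁ := le_sup_left
  have hMK : M ≤ Subgroup.normalizer (K : Set X) := sup_le K.le_normalizer hRK
  have hM₁M : M₁ ≤ M := sup_le_sup_right hK₁K R
  have hmemM : ∀ m ∈ M, ∃ k ∈ K, ∃ r ∈ R, k * r = m := by
    intro m hm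
    have h : m ∈ ((K ⊔ R : Subgroup X) : Set X) := hm
    rw [Subgroup.coe_mul_of_right_le_normalizer_left K R hRK] at h
    obtain ⟨k, hk, r, hr, rfl⟩ := h
    exact ⟨k, hk, r, hr, rfl⟩
  have hRC : ∀ r ∈ R, r ∈ Subgroup.centralizer (A : Set X) :=
    fun r hr => Subgroup.mem_centralizer_iff.2 fun a ha => (hRA r hr a ha).symm
  have hAM : A ≤ Subgroup.normalizer (M : Set X) := by
    refine CfsgLib.Coprime.le_normalizer_of_conj_mem fun a ha m hm => ?_
    obtain ⟨k, hk, r, hr, rfl⟩ := hmemM m hm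
    rw [show a * (k * r) * a⁻¹ = (a * k * a⁻¹) * (a * r * a⁻¹) by group, ← hRA r hr a ha,
      mul_inv_cancel_right]
    exact M.mul_mem (hKM ((Subgroup.mem_normalizer_iff.1 (hAK ha) k).1 hk)) (Subgroup.mem_sup_right hr)
  have hM₁eq : M₁ = M ⊓ Subgroup.centralizer (A : Set X) := by
    refine le_antisymm (le_inf hM₁M (sup_le (hK₁ ▸ inf_le_right) hRC)) ?_
    rintro m ⟨hm, hmc⟩
    obtain ⟨k, hk, r, hr, rfl⟩ := hmemM m hm
    refine M₁.mul_mem (Subgroup.mem_sup_left ?_) (Subgroup.mem_sup_right hr)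
    rw [hK₁]
    have h := (Subgroup.centralizer (A : Set X)).mul_mem hmc
      ((Subgroup.centralizer _).inv_mem (hRC r hr))
    rw [mul_inv_cancel_right] at h
    exact ⟨hk, h⟩
  have hpM : ¬ p ∣ Nat.card M := fun h => by
    rcases (Fact.out : p.Prime).dvd_mul.1 (h.trans (card_sup_dvd hRK)) with h' | h'
    · exact hpK h'
    · exact hpR h'
  obtain ⟨hg1, hg2, hg3⟩ := glaub hpM hA hAM hM₁eq hM₁M
  obtain ⟨hk1, hk2, -⟩ := glaub hpK hA hAK hK₁ hK₁K
  have hθ₁u : ∀ η, ¬ p ∣ CfsgLib.Glauberman.mult (Subgroup.inclusion hK₁K) θ η → η = θ₁ := by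
    intro η hη
    obtain ⟨ξ, -, hu⟩ := hk1 θ hθA
    exact (hu η hη).trans (hu θ₁ hθ₁).symm
  have habM : ∀ a ∈ M, ∀ b ∈ M, a * b * a⁻¹ * b⁻¹ ∈ K := by
    intro a ha b hb
    haveI : (K.subgroupOf M).Normal := Subgroup.normal_subgroupOf_of_le_normalizer hMK
    obtain ⟨k, hk, r, hr, rfl⟩ := hmemM a ha
    obtain ⟨k', hk', r', hr', rfl⟩ := hmemM b hb
    let kM : M := ⟨k, hKM hk⟩
    let rM : M := ⟨r, Subgroup.mem_sup_right hr⟩
    let kM' : M := ⟨k', hKM hk'⟩
    let rM' : M := ⟨r', Subgroup.mem_sup_right hr'⟩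
    show (kM * rM) * (kM' * rM') * (kM * rM)⁻¹ * (kM' * rM')⁻¹ ∈ K.subgroupOf M
    rw [← QuotientGroup.eq_one_iff]
    have h1 : ((rM * rM' * rM⁻¹ * rM'⁻¹ : M) : M ⧸ K.subgroupOf M) = 1 :=
      (QuotientGroup.eq_one_iff _).2 (hab r hr r' hr')
    simp only [QuotientGroup.mk_mul, QuotientGroup.mk_inv,
      (QuotientGroup.eq_one_iff kM).2 (Subgroup.mem_subgroupOf.2 hk),
      (QuotientGroup.eq_one_iff kM').2 (Subgroup.mem_subgroupOf.2 hk'), one_mul] at h1 ⊢
    exact h1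
  have hM₁N : M₁ ≤ Subgroup.normalizer (K₁ : Set X) := by
    rw [hM₁, hK₁]
    refine sup_le Subgroup.le_normalizer (CfsgLib.Coprime.le_normalizer_inf' hRK ?_)
    exact fun r hr => Subgroup.le_normalizer (hRC r hr)
  have hab₁ : ∀ a ∈ M₁, ∀ b ∈ M₁, a * b * a⁻¹ * b⁻¹ ∈ K₁ := fun a ha b hb => by
    rw [hK₁]
    refine ⟨habM a (hM₁M ha) b (hM₁M hb), ?_⟩
    have hc : M₁ ≤ Subgroup.centralizer (A : Set X) := hM₁eq ▸ inf_le_right
    exact (Subgroup.centralizer _).mul_mem ((Subgroup.centralizer _).mul_mem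
      ((Subgroup.centralizer _).mul_mem (hc ha) (hc hb)) ((Subgroup.centralizer _).inv_mem (hc ha)))
      ((Subgroup.centralizer _).inv_mem (hc hb))
  -- the restriction of linear characters
  let res : (M →* ℂˣ) → (M₁ →* ℂˣ) := fun l => l.comp (Subgroup.inclusion hM₁M)
  have hres1 : ∀ l : M →* ℂˣ, (∀ k : K, l (Subgroup.inclusion hKM k) = 1) →
      ∀ k : K₁, res l (Subgroup.inclusion hK₁M₁ k) = 1 := fun l hl k =>
    (congrArg l (Subtype.ext rfl)).trans (hl ⟨k, hK₁K k.2⟩)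
  have hresinj : ∀ l l' : M →* ℂˣ, (∀ k : K, l (Subgroup.inclusion hKM k) = 1) →
      (∀ k : K, l' (Subgroup.inclusion hKM k) = 1) → res l = res l' → l = l' := by
    intro l l' hl hl' h
    refine MonoidHom.ext fun m => ?_
    obtain ⟨k, hk, r, hr, he⟩ := hmemM m m.2
    rw [show m = Subgroup.inclusion hKM ⟨k, hk⟩ * ⟨r, Subgroup.mem_sup_right hr⟩ from Subtype.ext he.symm,
      map_mul, map_mul, hl, hl']
    congr 1
    exact DFunLike.congr_fun h ⟨r, Subgroup.mem_sup_right hr⟩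
  have htwistmult : ∀ (φ : IrrCharacter M) (β : IrrCharacter M₁) (l : M →* ℂˣ),
      CfsgLib.Glauberman.mult (Subgroup.inclusion hM₁M) (mulLin φ l) (mulLin β (res l)) =
        CfsgLib.Glauberman.mult (Subgroup.inclusion hM₁M) φ β := by
    intro φ β l
    apply mult_eq_of_classInner_eq
    rw [← CfsgLib.Glauberman.classInner_eq_mult]
    simp only [classInner, mulLin_apply]
    congr 1
    refine Finset.sum_congr rfl fun m _ => ?_
    have h1 := CfsgLib.Chars.conj_eq_map_inv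
      (CfsgLib.Chars.isCharacter_coe (CfsgLib.Chars.linChar l)) (Subgroup.inclusion hM₁M m)
    simp only [CfsgLib.Chars.linChar_apply] at h1
    have h : (l (Subgroup.inclusion hM₁M m) : ℂ) * conj (l (Subgroup.inclusion hM₁M m) : ℂ) = 1 := by
      rw [h1, map_inv, Units.val_inv_eq_inv_val, mul_inv_cancel₀ (Units.ne_zero _)]
    rw [map_mul]
    show _ * _ * (_ * conj (l (Subgroup.inclusion hM₁M m) : ℂ)) = _
    linear_combination ((φ : M → ℂ) (Subgroup.inclusion hM₁M m) * conj ((β : M₁ → ℂ) m)) * h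
  have hlA : ∀ (l : M →* ℂˣ), (∀ k : K, l (Subgroup.inclusion hKM k) = 1) → ∀ a (ha : a ∈ A) (m : M),
      l (cj (hAM ha) m) = l m := by
    intro l hl a ha m
    obtain ⟨k, hk, r, hr, he⟩ := hmemM m m.2
    have hm : m = Subgroup.inclusion hKM ⟨k, hk⟩ * ⟨r, Subgroup.mem_sup_right hr⟩ :=
      Subtype.ext he.symm
    have hm' : cj (hAM ha) m = Subgroup.inclusion hKM (cj (hAK ha) ⟨k, hk⟩) *
        ⟨r, Subgroup.mem_sup_right hr⟩ := by
      apply Subtype.ext
      show a * (m : X) * a⁻¹ = a * k * a⁻¹ * r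
      rw [← he, show a * (k * r) * a⁻¹ = (a * k * a⁻¹) * (a * r * a⁻¹) by group, ← hRA r hr a ha,
        mul_inv_cancel_right]
    rw [hm', hm, map_mul, map_mul, hl, hl]
  have htwA : ∀ (φ : IrrCharacter M), (∀ a ∈ A, Fix a φ) → ∀ (l : M →* ℂˣ),
      (∀ k : K, l (Subgroup.inclusion hKM k) = 1) → ∀ a ∈ A, Fix a (mulLin φ l) := by
    intro φ hφ l hl a ha m m' hm
    rw [show m' = cj (hAM ha) m from Subtype.ext hm, mulLin_apply, mulLin_apply, hlA l hl a ha,
      hφ a ha m _ rfl]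
  have hextA : ∀ φ : IrrCharacter M, IsExt hKM θ φ → ∀ a ∈ A, Fix a φ := by
    intro φ hφ a ha
    have hpull : IsExt hKM θ (irrPull (cj (hAM ha)) φ) := by
      intro k
      rw [irrPull_apply, show cj (hAM ha) (Subgroup.inclusion hKM k) =
        Subgroup.inclusion hKM (cj (hAK ha) k) from Subtype.ext rfl, hφ]
      exact hθA a ha k _ rfl
    obtain ⟨hl1, hl2⟩ := ext_twist hKM hMK habM θ φ hφ
    obtain ⟨l, hl, hle⟩ := hl1 _ hpull
    have hstep : ∀ (n : ℕ) (m : M), (φ : M → ℂ) ((cj (hAM ha))^[n] m) =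
        (φ : M → ℂ) m * ((l ^ n) m : ℂ) := by
      intro n
      induction n with
      | zero => intro m; simp
      | succ n ih =>
        intro m
        rw [Function.iterate_succ_apply, ih, ← irrPull_apply (cj (hAM ha)) φ m, hle, mulLin_apply]
        have h1 : (l ^ n) (cj (hAM ha) m) = (l ^ n) m := by
          rw [MonoidHom.pow_apply, MonoidHom.pow_apply, hlA l hl a ha]
        rw [h1, pow_succ' l n, MonoidHom.mul_apply, Units.val_mul]
        ring
    obtain ⟨e, he⟩ := hA ⟨a, ha⟩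
    have hae : a ^ p ^ e = 1 := congrArg Subtype.val he
    have hiter : ∀ (n : ℕ) (m : M), (((cj (hAM ha))^[n] m : M) : X) = a ^ n * m * (a ^ n)⁻¹ := by
      intro n
      induction n with
      | zero => intro m; simp
      | succ n ih =>
        intro m
        rw [Function.iterate_succ_apply, ih, cj_coe, pow_succ, mul_inv_rev]
        group
    have hle' : l ^ p ^ e = 1 := by
      refine hl2 _ 1 (fun k => by rw [MonoidHom.pow_apply, hl, one_pow]) (fun k => rfl)
        (Subtype.ext (funext fun m => ?_))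
      rw [mulLin_apply, mulLin_apply, ← hstep, MonoidHom.one_apply, Units.val_one, mul_one]
      exact congrArg (φ : M → ℂ) (Subtype.ext (by rw [hiter, hae]; simp))
    have hl0 : l = 1 := by
      refine MonoidHom.ext fun m => ?_
      have h1 : l m ^ p ^ e = 1 := by rw [← MonoidHom.pow_apply, hle', MonoidHom.one_apply]
      have h2 : l m ^ Nat.card M = 1 := by rw [← map_pow, pow_card_eq_one', map_one]
      have hcop : Nat.Coprime (p ^ e) (Nat.card M) :=
        ((Fact.out : p.Prime).coprime_iff_not_dvd.2 hpM).pow_left e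
      have h3 := pow_gcd_eq_one.2 ⟨h1, h2⟩
      rwa [hcop, pow_one] at h3
    intro m m' hm
    rw [show m' = cj (hAM ha) m from Subtype.ext hm, ← irrPull_apply (cj (hAM ha)) φ m, hle,
      mulLin_apply, hl0]
    simp
  have hcmp : ∀ (φ : IrrCharacter M) (β : IrrCharacter M₁) (ξ : IrrCharacter K₁),
      (∀ a ∈ A, Fix a φ) → ¬ p ∣ CfsgLib.Glauberman.mult (Subgroup.inclusion hM₁M) φ β →
      (p ∣ CfsgLib.Glauberman.mult (Subgroup.inclusion (hK₁M₁.trans hM₁M)) φ ξ ↔
        p ∣ CfsgLib.Glauberman.mult (Subgroup.inclusion hK₁M₁) β ξ) := by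
    intro φ β ξ hφ hβ
    obtain ⟨β₀, -, hu⟩ := hg1 φ hφ
    exact dvd_mult_iff hK₁M₁ hM₁M φ β ξ hβ fun η hη => (hu η hη).trans (hu β hβ).symm
  have hzM : z ∈ Subgroup.normalizer (M : Set X) :=
    Subgroup.normalizer_inf_normalizer_le_normalizer_sup _ _ (Subgroup.mem_inf.2 ⟨hzK, hzR⟩)
  have hzM₁ : z ∈ Subgroup.normalizer (M₁ : Set X) := by
    rw [hM₁eq]
    exact Subgroup.inf_normalizer_le_normalizer_inf ⟨hzM,
      CfsgLib.Coprime.le_normalizer_centralizer (A := Subgroup.zpowers z) (Subgroup.zpowers_le.2 hzA)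
        (Subgroup.mem_zpowers z)⟩
  constructor
  · rintro ⟨φ, hφ, hφz⟩
    have hφA := hextA φ hφ
    obtain ⟨β, hβ, -⟩ := hg1 φ hφA
    refine ⟨β, ?_, (glaub_fix_iff hpM hA hAM hM₁eq hM₁M hφA hβ hzM hzM₁ hzA).1 hφz⟩
    have hθ₁R : ∀ m ∈ M₁, Fix m θ₁ := by
      intro m hm
      refine (glaub_fix_iff hpK hA hAK hK₁ hK₁K hθA hθ₁ (hMK (hM₁M hm)) (hM₁N hm) ?_).1 ?_
      · refine Subgroup.mem_normalizer_iff.2 fun g => ?_
        have hc : m ∈ Subgroup.centralizer (A : Set X) := (hM₁eq ▸ hm : _ ∈ M ⊓ _).2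
        constructor
        · intro hg
          rw [← Subgroup.mem_centralizer_iff.1 hc g hg, mul_inv_cancel_right]
          exact hg
        · intro hg
          have := Subgroup.mem_centralizer_iff.1 hc _ hg
          have h2 : m * g * m⁻¹ = g := by
            have h3 : g = m⁻¹ * (m * g * m⁻¹ * m) := by group
            rw [this, inv_mul_cancel_left] at h3
            exact h3.symm
          rwa [h2] at hg
      · obtain ⟨k, hk, r, hr, rfl⟩ := hmemM m (hM₁M hm)
        exact fix_mul θ (hRK hr) (fix_of_mem hk θ) (hθR r hr)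
    have hover : ¬ p ∣ CfsgLib.Glauberman.mult (Subgroup.inclusion hK₁M₁) β θ₁ := by
      rw [← hcmp φ β θ₁ hφA hβ]
      have h1 : CfsgLib.Glauberman.mult (Subgroup.inclusion (hK₁M₁.trans hM₁M)) φ θ₁ =
          CfsgLib.Glauberman.mult (Subgroup.inclusion hK₁K) θ θ₁ := by
        apply mult_eq_of_classInner_eq
        rw [← CfsgLib.Glauberman.classInner_eq_mult]
        simp only [classInner]
        congr 1
        refine Finset.sum_congr rfl fun k _ => ?_
        rw [← hφ (Subgroup.inclusion hK₁K k)]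
        rfl
      rwa [h1]
    refine extends_of_twists hK₁M₁ hM₁N hab₁ θ₁ hθ₁R β (fun h => hover (h ▸ dvd_zero p))
      fun l l' hl hl' he => ?_
    -- every linear character of `M₁ / K₁` is a restriction
    have hsurj : ∀ l : M₁ →* ℂˣ, (∀ k : K₁, l (Subgroup.inclusion hK₁M₁ k) = 1) →
        ∃ L : M →* ℂˣ, (∀ k : K, L (Subgroup.inclusion hKM k) = 1) ∧ res L = l := by
      have hfin : ∀ {M' K' : Subgroup X} (h : K' ≤ M'),
          Finite {l : M' →* ℂˣ // ∀ k : K', l (Subgroup.inclusion h k) = 1} := fun h => inferInstance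
      let f : {l : M →* ℂˣ // ∀ k : K, l (Subgroup.inclusion hKM k) = 1} →
          {l : M₁ →* ℂˣ // ∀ k : K₁, l (Subgroup.inclusion hK₁M₁ k) = 1} :=
        fun l => ⟨res l.1, hres1 l.1 l.2⟩
      have hf : Function.Bijective f := by
        refine (Nat.bijective_iff_injective_and_card f).2 ⟨fun a b h =>
          Subtype.ext (hresinj _ _ a.2 b.2 (congrArg Subtype.val h)), ?_⟩
        rw [card_lin hKM hMK habM, card_lin hK₁M₁ hM₁N hab₁]
        refine le_antisymm ?_ ?_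
        · have hc := Nat.card_le_card_of_injective f (fun a b h =>
            Subtype.ext (hresinj _ _ a.2 b.2 (congrArg Subtype.val h)))
          rwa [card_lin hKM hMK habM, card_lin hK₁M₁ hM₁N hab₁] at hc
        · haveI : (K₁.subgroupOf M₁).Normal := Subgroup.normal_subgroupOf_of_le_normalizer hM₁N
          haveI : (K.subgroupOf M).Normal := Subgroup.normal_subgroupOf_of_le_normalizer hMK
          refine Nat.card_le_card_of_injective (QuotientGroup.map (K₁.subgroupOf M₁) (K.subgroupOf M)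
            (Subgroup.inclusion hM₁M) (fun m hm => hK₁K hm)) ?_
          rw [injective_iff_map_eq_one]
          intro q hq
          obtain ⟨m, rfl⟩ := QuotientGroup.mk_surjective q
          change ((Subgroup.inclusion hM₁M m : M) : M ⧸ K.subgroupOf M) = 1 at hq
          rw [QuotientGroup.eq_one_iff, Subgroup.mem_subgroupOf] at hq
          rw [QuotientGroup.eq_one_iff, Subgroup.mem_subgroupOf, hK₁]
          exact ⟨hq, (hM₁eq ▸ m.2 : (m : X) ∈ M ⊓ Subgroup.centralizer (A : Set X)).2⟩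
      intro l hl
      obtain ⟨⟨L, hL⟩, he⟩ := hf.2 ⟨l, hl⟩
      exact ⟨L, hL, congrArg Subtype.val he⟩
    obtain ⟨L, hL, rfl⟩ := hsurj l hl
    obtain ⟨L', hL', rfl⟩ := hsurj l' hl'
    have heq : mulLin φ L = mulLin φ L' := by
      refine hg2 _ _ (htwA φ hφA L hL) (htwA φ hφA L' hL') (mulLin β (res L)) ?_ ?_
      · rwa [htwistmult]
      · rw [he]; rwa [htwistmult]
    rw [(ext_twist hKM hMK habM θ φ hφ).2 L L' hL hL' heq]
  · rintro ⟨β, hβ, hβz⟩
    obtain ⟨φ, hφA, hφβ⟩ := hg3 β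
    refine ⟨φ, ?_, (glaub_fix_iff hpM hA hAM hM₁eq hM₁M hφA hφβ hzM hzM₁ hzA).2 hβz⟩
    have hover₁ : ¬ p ∣ CfsgLib.Glauberman.mult (Subgroup.inclusion (hK₁M₁.trans hM₁M)) φ θ₁ := by
      rw [hcmp φ β θ₁ hφA hφβ]
      have h1 : CfsgLib.Glauberman.mult (Subgroup.inclusion hK₁M₁) β θ₁ = 1 := by
        apply mult_eq_of_classInner_eq
        rw [Nat.cast_one, ← CfsgLib.Chars.Induced.classInner_irr_self θ₁]
        simp only [classInner]
        congr 1
        exact Finset.sum_congr rfl fun k _ => by rw [hβ k]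
      rw [h1]
      exact (Fact.out : p.Prime).not_dvd_one
    -- every constituent on `K` is `A`-invariant
    have hallA : ∀ η : IrrCharacter K, CfsgLib.Glauberman.mult (Subgroup.inclusion hKM) φ η ≠ 0 →
        ∀ a ∈ A, Fix a η := by
      have := Fintype.ofFinite (K.subgroupOf M)
      haveI : (K.subgroupOf M).Normal := Subgroup.normal_subgroupOf_of_le_normalizer hMK
      obtain ⟨η₀, hη₀⟩ := exists_under (Subgroup.inclusion hKM) φ
      have hconj : ∀ η, CfsgLib.Glauberman.mult (Subgroup.inclusion hKM) φ η ≠ 0 → ∀ η',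
          CfsgLib.Glauberman.mult (Subgroup.inclusion hKM) φ η' ≠ 0 →
          ∃ r, ∃ hr : r ∈ R, η' = irrPull (cj (hRK hr)) η := by
        intro η hη η' hη'
        rw [← mult_toSub hKM] at hη hη'
        obtain ⟨m, hm⟩ := NormalSylow.mem_conjOrbit φ _ _ hη hη'
        obtain ⟨k, hk, r, hr, he⟩ := hmemM (m : X)⁻¹ (M.inv_mem m.2)
        refine ⟨r, hr, Subtype.ext (funext fun n => ?_)⟩
        have h1 := congrFun (congrArg Subtype.val hm) ⟨⟨n, hKM n.2⟩, n.2⟩
        rw [conjIrr_coe, conjFun_apply, toSub, toSub, irrPull_apply, irrPull_apply] at h1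
        rw [irrPull_apply]
        refine (h1.symm.trans ?_)
        refine fix_of_mem hk η (cj (hRK hr) n) _ ?_
        show (m : X)⁻¹ * (n : X) * (m : X) = k * (r * n * r⁻¹) * k⁻¹
        rw [← inv_inv (m : X), ← he]
        group
      let W : Set (IrrCharacter K) := {η | CfsgLib.Glauberman.mult (Subgroup.inclusion hKM) φ η ≠ 0}
      letI : MulDistribMulAction A K := conjSubAction K A
        (fun a ha g hg => (Subgroup.mem_normalizer_iff.1 (hAK ha) g).1 hg)
      have hact : ∀ (a : A), ∀ η ∈ W, a • η ∈ W := by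
        intro a η hη
        show CfsgLib.Glauberman.mult (Subgroup.inclusion hKM) φ
          (irrPull (MulDistribMulAction.toMulAut A K a⁻¹) η) ≠ 0
        have h1 := mult_cj hKM (hAM (A.inv_mem a.2)) (hAK (A.inv_mem a.2)) φ η
        rw [(fix_iff _ φ).1 (hφA _ (A.inv_mem a.2))] at h1
        rw [show irrPull (MulDistribMulAction.toMulAut A K a⁻¹) η =
          irrPull (cj (hAK (A.inv_mem a.2))) η from rfl, h1]
        exact hη
      let T : SubMulAction A (IrrCharacter K) := { carrier := W, smul_mem' := fun a _ h => hact a _ h }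
      have hcard : ¬ p ∣ Nat.card T := by
        have hdeg : CfsgLib.Glauberman.mult (K.subgroupOf M).subtype φ (toSub hKM η₀) ≠ 0 := by
          rwa [mult_toSub]
        have h1 : Nat.card T = Nat.card (conjOrbit (toSub (H := M) hKM η₀)) := by
          refine Nat.card_congr (Equiv.ofBijective (fun η => ⟨toSub (H := M) hKM η.1, ?_⟩) ⟨?_, ?_⟩)
          · exact NormalSylow.mem_conjOrbit φ _ _ hdeg (by rw [mult_toSub]; exact η.2)
          · exact fun a b h => Subtype.ext (toSub_injective hKM (congrArg Subtype.val h))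
          · rintro ⟨_, x, rfl⟩
            let η : IrrCharacter K := irrPull
              ((Subgroup.subgroupOfEquivOfLe hKM).symm) (conjIrr x (toSub (H := M) hKM η₀))
            have he : toSub (H := M) hKM η = conjIrr x (toSub (H := M) hKM η₀) :=
              Subtype.ext (funext fun n => by simp [η, toSub])
            refine ⟨⟨η, ?_⟩, Subtype.ext he⟩
            show CfsgLib.Glauberman.mult (Subgroup.inclusion hKM) φ η ≠ 0
            rw [← mult_toSub hKM, he, NormalSylow.mult_conjIrr]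
            exact hdeg
        rw [h1, card_conjOrbit]
        exact fun hd => hpM (hd.trans (Subgroup.index_dvd_card _))
      obtain ⟨⟨η₁, hη₁W⟩, hη₁⟩ := hA.nonempty_fixed_point_of_prime_not_dvd_card T hcard
      have hη₁A : ∀ a ∈ A, Fix a η₁ := by
        intro a ha
        have h := congrArg Subtype.val (hη₁ (⟨a, ha⟩ : A)⁻¹)
        change irrPull (MulDistribMulAction.toMulAut A K (⟨a, ha⟩ : A)⁻¹⁻¹) η₁ = η₁ at h
        rw [inv_inv] at h
        exact fun k k' hk => by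
          rw [show k' = cj (hAK ha) k from Subtype.ext hk]
          exact congrFun (congrArg Subtype.val h) k
      intro η hη a ha k k' hk
      obtain ⟨r, hr, rfl⟩ := hconj η₁ hη₁W η hη
      rw [irrPull_apply, irrPull_apply]
      refine hη₁A a ha _ _ ?_
      rw [cj_coe, cj_coe, hk]
      rw [show r * (a * k * a⁻¹) * r⁻¹ = (r * a) * k * (r * a)⁻¹ by group, hRA r hr a ha]
      group
    have hover : CfsgLib.Glauberman.mult (Subgroup.inclusion hKM) φ θ ≠ 0 := by
      intro h0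
      apply hover₁
      rw [show Subgroup.inclusion (hK₁M₁.trans hM₁M) = (Subgroup.inclusion hKM).comp
        (Subgroup.inclusion hK₁K) from MonoidHom.ext fun _ => rfl, mult_comp]
      refine Finset.dvd_sum fun η _ => ?_
      by_cases hη : CfsgLib.Glauberman.mult (Subgroup.inclusion hKM) φ η = 0
      · simp [hη]
      · refine dvd_mul_of_dvd_right (not_not.1 fun hn => hη ?_) _
        rwa [hk2 η θ (hallA η hη) hθA θ₁ hn hθ₁]
    have hθM : ∀ m ∈ M, Fix m θ := by
      intro m hm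
      obtain ⟨k, hk, r, hr, rfl⟩ := hmemM m hm
      exact fix_mul θ (hRK hr) (fix_of_mem hk θ) (hθR r hr)
    refine extends_of_twists hKM hMK habM θ hθM φ hover fun L L' hL hL' he => ?_
    refine hresinj L L' hL hL' ((ext_twist hK₁M₁ hM₁N hab₁ θ₁ β hβ).2 _ _ (hres1 L hL)
      (hres1 L' hL') ?_)
    obtain ⟨β₀, -, hu⟩ := hg1 _ (htwA φ hφA L hL)
    have h1 : ¬ p ∣ CfsgLib.Glauberman.mult (Subgroup.inclusion hM₁M) (mulLin φ L) (mulLin β (res L)) := by
      rwa [htwistmult]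
    have h2 : ¬ p ∣ CfsgLib.Glauberman.mult (Subgroup.inclusion hM₁M) (mulLin φ L) (mulLin β (res L')) := by
      rw [he]; rwa [htwistmult]
    exact (hu _ h1).trans (hu _ h2).symm

/-- Extending over a cyclic quotient. -/
theorem extendsTo_cyclic_iff {K M : Subgroup X} [Fintype K] (hKM : K ≤ M) {z : X}
    (hzM : z ∈ Subgroup.normalizer (M : Set X)) (θ : IrrCharacter K) :
    ExtendsTo (M ⊔ Subgroup.zpowers z) θ ↔
      ∃ φ : IrrCharacter M, IsExt hKM θ φ ∧ Fix z φ := by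
  classical
  set M' := M ⊔ Subgroup.zpowers z with hM'
  have hMM' : M ≤ M' := le_sup_left
  have hzM' : z ∈ M' := Subgroup.mem_sup_right (Subgroup.mem_zpowers z)
  have := Fintype.ofFinite M
  have := Fintype.ofFinite M'
  have := Fintype.ofFinite (M.subgroupOf M')
  constructor
  · rintro ⟨hKM', ψ, hψ⟩
    have hirr : IsIrrCharacter M (fun b : M => (ψ : M' → ℂ) (Subgroup.inclusion hMM' b)) :=
      CfsgLib.Glauberman.isIrrCharacter_of_restrict (Subgroup.inclusion hKM)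
        (CfsgLib.Chars.isCharacter_comp (CfsgLib.Chars.isCharacter_coe ψ) (Subgroup.inclusion hMM'))
        θ (fun k => hψ k)
    refine ⟨⟨_, hirr⟩, fun k => hψ k, fun m m' hm => ?_⟩
    show (ψ : M' → ℂ) _ = (ψ : M' → ℂ) _
    rw [show Subgroup.inclusion hMM' m' =
      ⟨z, hzM'⟩ * Subgroup.inclusion hMM' m * (⟨z, hzM'⟩ : M')⁻¹ from Subtype.ext hm]
    exact CfsgLib.Chars.isClassFunction_coe ψ _ _
  · rintro ⟨φ, hφ, hφz⟩
    have hzle : Subgroup.zpowers z ≤ Subgroup.normalizer (M : Set X) := Subgroup.zpowers_le.2 hzM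
    have hM'N : M' ≤ Subgroup.normalizer (M : Set X) := sup_le M.le_normalizer hzle
    haveI : (M.subgroupOf M').Normal := Subgroup.normal_subgroupOf_of_le_normalizer hM'N
    have hmem : ∀ m ∈ M', ∃ a ∈ M, ∃ n : ℤ, a * z ^ n = m := by
      intro m hm
      have h : m ∈ ((M ⊔ Subgroup.zpowers z : Subgroup X) : Set X) := hm
      rw [Subgroup.coe_mul_of_right_le_normalizer_left M _ hzle] at h
      obtain ⟨a, ha, w, hw, rfl⟩ := h
      obtain ⟨n, rfl⟩ := Subgroup.mem_zpowers_iff.1 hw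
      exact ⟨a, ha, n, rfl⟩
    have hcyc : IsCyclic (M' ⧸ M.subgroupOf M') := by
      refine ⟨QuotientGroup.mk ⟨z, hzM'⟩, fun q => ?_⟩
      obtain ⟨⟨m, hm⟩, rfl⟩ := QuotientGroup.mk_surjective q
      obtain ⟨a, ha, n, rfl⟩ := hmem m hm
      refine ⟨n, ?_⟩
      show (QuotientGroup.mk _ : _ ⧸ _) ^ n = QuotientGroup.mk _
      rw [← QuotientGroup.mk_zpow, QuotientGroup.eq, Subgroup.mem_subgroupOf]
      have h := (Subgroup.mem_normalizer_iff.1 (hzle (Subgroup.zpow_mem _ (Subgroup.mem_zpowers z) (-n)))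
        a).1 ha
      simpa [mul_assoc] using h
    have hzn : ∀ n : ℤ, Fix (z ^ n) φ := by
      intro n
      induction n using Int.induction_on with
      | zero => intro k k' hk; rw [show k' = k from Subtype.ext (by simpa using hk)]
      | succ n ih => rw [zpow_add_one]; exact fix_mul φ hzM ih hφz
      | pred n ih =>
        rw [zpow_sub_one]
        exact fix_mul φ ((Subgroup.normalizer _).inv_mem hzM) ih (fix_inv φ hφz)
    obtain ⟨ψ, hψ⟩ := exists_extension_of_isCyclic (toSub hMM' φ) (by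
      intro m
      funext a
      rw [conjFun_apply, toSub, irrPull_apply, irrPull_apply]
      obtain ⟨b, hb, n, he⟩ := hmem (m : X)⁻¹ (M'.inv_mem m.2)
      refine fix_mul φ (hzle (Subgroup.zpow_mem _ (Subgroup.mem_zpowers z) n)) (fix_of_mem hb φ) (hzn n)
        _ _ ?_
      rw [he]
      simp)
    refine ⟨hKM.trans hMM', ψ, fun k => ?_⟩
    have h := hψ ⟨Subgroup.inclusion (hKM.trans hMM') k, hKM k.2⟩
    rw [← hφ k]
    exact h

omit [Fintype X] in
/-- An irreducible abelian group of automorphisms of a finite abelian group is cyclic. -/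
theorem exists_generator_of_irreducible {Q V : Type*} [Group Q] [CommGroup V] [Finite V] [Finite Q]
    [Nontrivial V] (f : Q →* MulAut V) (hcomm : ∀ a b : Q, f (a * b) = f (b * a))
    (hirr : ∀ W : Subgroup V, (∀ q, ∀ w ∈ W, f q w ∈ W) → W = ⊥ ∨ W = ⊤) :
    ∃ z : Q, ∀ q : Q, ∃ n : ℤ, f q = f z ^ n := by
  let ρ : Q →* AddMonoid.End (Additive V) :=
    { toFun := fun q => MonoidHom.toAdditive (f q).toMonoidHom
      map_one' := by ext v; rw [map_one]; rfl
      map_mul' := fun a b => by ext v; rw [map_mul]; rfl }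
  have hρ : ∀ q v, (ρ q) (Additive.ofMul v) = Additive.ofMul (f q v) := fun _ _ => rfl
  let B : Subring (AddMonoid.End (Additive V)) := Subring.closure (Set.range ρ)
  have hBc : ∀ a ∈ B, ∀ b ∈ B, a * b = b * a := by
    have h1 : Set.range ρ ⊆ (Subring.centralizer (Set.range ρ) : Set (AddMonoid.End (Additive V))) := by
      rintro _ ⟨a, rfl⟩
      rw [SetLike.mem_coe, Subring.mem_centralizer_iff]
      rintro _ ⟨b, rfl⟩
      rw [← map_mul, ← map_mul]
      ext v
      exact congrArg Additive.ofMul (DFunLike.congr_fun (hcomm b a) v.toMul)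
    have h2 : B ≤ Subring.centralizer (Set.range ρ) := Subring.closure_le.2 h1
    have h3 : Set.range ρ ⊆ (Subring.centralizer (B : Set (AddMonoid.End (Additive V))) :
        Set (AddMonoid.End (Additive V))) := by
      intro a ha
      rw [SetLike.mem_coe, Subring.mem_centralizer_iff]
      intro b hb
      exact (Subring.mem_centralizer_iff.1 (h2 hb) a ha).symm
    have h4 : B ≤ Subring.centralizer (B : Set (AddMonoid.End (Additive V))) :=
      Subring.closure_le.2 h3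
    intro a ha b hb
    exact (Subring.mem_centralizer_iff.1 (h4 ha) b hb).symm
  letI : CommRing B := { (inferInstance : Ring B) with
    mul_comm := fun a b => Subtype.ext (hBc a a.2 b b.2) }
  haveI : Finite B := Finite.of_injective (fun b : B => ((b : AddMonoid.End (Additive V)) : Additive V → Additive V))
    (fun a b h => Subtype.ext (DFunLike.coe_injective h))
  haveI : Nontrivial B := by
    refine ⟨⟨0, 1, fun h => ?_⟩⟩
    obtain ⟨v, hv⟩ := exists_ne (1 : V)
    have h1 := DFunLike.congr_fun (congrArg Subtype.val h) (Additive.ofMul v)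
    exact hv (congrArg Additive.toMul h1).symm
  haveI : NoZeroDivisors B := by
    refine ⟨fun {r s} hrs => ?_⟩
    by_contra hne
    rw [not_or] at hne
    let W : Subgroup V := (MonoidHom.toAdditive.symm (r : AddMonoid.End (Additive V))).ker
    have hW : ∀ q, ∀ w ∈ W, f q w ∈ W := by
      intro q w hw
      rw [MonoidHom.mem_ker] at hw ⊢
      have h1 := DFunLike.congr_fun (hBc r r.2 (ρ q) (Subring.subset_closure ⟨q, rfl⟩))
        (Additive.ofMul w)
      have h2 : (r : AddMonoid.End (Additive V)) (Additive.ofMul w) = 0 := congrArg Additive.ofMul hw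
      rw [AddMonoid.End.coe_mul, AddMonoid.End.coe_mul, Function.comp_apply, Function.comp_apply, h2,
        map_zero] at h1
      exact congrArg Additive.toMul h1
    rcases hirr W hW with h | h
    · apply hne.2
      apply Subtype.ext
      refine AddMonoidHom.ext fun v => ?_
      have h1 : (r : AddMonoid.End (Additive V)) ((s : AddMonoid.End (Additive V)) v) = 0 := by
        have := DFunLike.congr_fun (congrArg Subtype.val hrs) v
        exact this
      have h2 : ((s : AddMonoid.End (Additive V)) v).toMul ∈ W :=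
        MonoidHom.mem_ker.2 (congrArg Additive.toMul h1)
      rw [h, Subgroup.mem_bot] at h2
      exact congrArg Additive.ofMul h2
    · apply hne.1
      apply Subtype.ext
      refine AddMonoidHom.ext fun v => ?_
      have h2 : v.toMul ∈ W := h ▸ Subgroup.mem_top _
      exact congrArg Additive.ofMul (MonoidHom.mem_ker.1 h2)
  haveI : IsDomain B := NoZeroDivisors.to_isDomain B
  let ρB : Q →* B :=
    { toFun := fun q => ⟨ρ q, Subring.subset_closure ⟨q, rfl⟩⟩
      map_one' := Subtype.ext (map_one ρ)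
      map_mul' := fun a b => Subtype.ext (map_mul ρ a b) }
  let U : Subgroup Bˣ := ρB.toHomUnits.range
  haveI : IsCyclic U := inferInstance
  obtain ⟨⟨_, z, rfl⟩, hz⟩ := IsCyclic.exists_generator (α := U)
  refine ⟨z, fun q => ?_⟩
  obtain ⟨n, hn⟩ := Subgroup.mem_zpowers_iff.1 (hz ⟨_, q, rfl⟩)
  refine ⟨n, ?_⟩
  have h1 : ρB.toHomUnits (z ^ n) = ρB.toHomUnits q := by
    rw [map_zpow]; exact congrArg Subtype.val hn
  have h2 : ρ (z ^ n) = ρ q := congrArg Subtype.val (congrArg Units.val h1)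
  rw [← map_zpow]
  refine MulEquiv.ext fun v => ?_
  exact congrArg Additive.toMul (DFunLike.congr_fun h2.symm (Additive.ofMul v))

/-- **Extendibility is preserved by the Glauberman correspondence.** -/
theorem extendsTo_iff_glauberman {p : ℕ} [Fact p.Prime] (n : ℕ) :
    ∀ (K S Q C : Subgroup X) [Fintype K] [Fintype C], Nat.card K = n → ¬ p ∣ Nat.card K →
      ¬ p ∣ Nat.card Q → IsPGroup p S → S ≤ Subgroup.normalizer (K : Set X) →
      Q ≤ Subgroup.normalizer (K : Set X) → Q ≤ Subgroup.normalizer (S : Set X) →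
      C = K ⊓ Subgroup.centralizer (S : Set X) → ∀ (hCK : C ≤ K), C ≤ Q →
      (∀ a ∈ Q, ∀ b ∈ Q, a * b * a⁻¹ * b⁻¹ ∈ C) → K ⊓ Q ≤ C →
      ∀ (θ : IrrCharacter K) (ξ : IrrCharacter C), (∀ s ∈ S, Fix s θ) → (∀ q ∈ Q, Fix q θ) →
      ¬ p ∣ CfsgLib.Glauberman.mult (Subgroup.inclusion hCK) θ ξ →
      (ExtendsTo (K ⊔ Q) θ ↔ ExtendsTo Q ξ) := by
  induction n using Nat.strong_induction_on with
  | _ n ih =>
  intro K S Q C _ _ hn hpK hpQ hS hSK hQK hQS hC hCK hCQ hQab hKQ θ ξ hθS hθQ hξ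
  classical
  by_cases hcase : S ≤ Subgroup.centralizer (K : Set X)
  · -- trivial action
    have hCeq : C = K := by
      refine le_antisymm hCK fun k hk => hC ▸ ⟨hk, Subgroup.mem_centralizer_iff.2 fun s hs =>
        (Subgroup.mem_centralizer_iff.1 (hcase hs) k hk).symm⟩
    subst hCeq
    obtain ⟨ξ₀, -, hu⟩ := (glaub hpK hS hSK hC hCK).1 θ hθS
    have hθξ : ξ = θ := by
      refine (hu ξ (by convert hξ)).trans (hu θ ?_).symm
      have h1 : CfsgLib.Glauberman.mult (Subgroup.inclusion hCK) θ θ = 1 := by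
        apply mult_eq_of_classInner_eq
        rw [Nat.cast_one, ← CfsgLib.Chars.Induced.classInner_irr_self θ]
        rfl
      rw [h1]
      exact (Fact.out : p.Prime).not_dvd_one
    rw [hθξ, sup_eq_right.2 hCQ]
  -- `S₀ = C_S(K)` and a minimal `V`
  set S₀ := S ⊓ Subgroup.centralizer (K : Set X) with hS₀
  have hS₀S : S₀ ≤ S := inf_le_left
  have hNS₀ : ∀ g, g ∈ Subgroup.normalizer (S : Set X) → g ∈ Subgroup.normalizer (K : Set X) →
      g ∈ Subgroup.normalizer (S₀ : Set X) := fun g hgS hgK =>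
    Subgroup.inf_normalizer_le_normalizer_inf ⟨hgS,
      CfsgLib.Coprime.le_normalizer_centralizer (A := Subgroup.zpowers g) (Subgroup.zpowers_le.2 hgK)
        (Subgroup.mem_zpowers g)⟩
  have hSS₀ : ∀ s ∈ S, s ∈ Subgroup.normalizer (S₀ : Set X) :=
    fun s hs => hNS₀ s (S.le_normalizer hs) (hSK hs)
  have hQS₀ : ∀ q ∈ Q, q ∈ Subgroup.normalizer (S₀ : Set X) :=
    fun q hq => hNS₀ q (hQS hq) (hQK hq)
  let Z1 : Subgroup X :=
    { carrier := {s | s ∈ S ∧ ∀ t ∈ S, t * s * t⁻¹ * s⁻¹ ∈ S₀}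
      one_mem' := ⟨S.one_mem, fun t _ => by simp⟩
      mul_mem' := fun {a b} ha hb => ⟨S.mul_mem ha.1 hb.1, fun t ht => by
        rw [show t * (a * b) * t⁻¹ * (a * b)⁻¹ =
          (t * a * t⁻¹ * a⁻¹) * (a * (t * b * t⁻¹ * b⁻¹) * a⁻¹) by group]
        exact S₀.mul_mem (ha.2 t ht)
          ((Subgroup.mem_normalizer_iff.1 (hSS₀ a ha.1) _).1 (hb.2 t ht))⟩
      inv_mem' := fun {a} ha => ⟨S.inv_mem ha.1, fun t ht => by
        rw [show t * a⁻¹ * t⁻¹ * a⁻¹⁻¹ = a⁻¹ * (t * a * t⁻¹ * a⁻¹)⁻¹ * a⁻¹⁻¹ by group]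
        exact (Subgroup.mem_normalizer_iff.1 (hSS₀ _ (S.inv_mem ha.1)) _).1 (S₀.inv_mem (ha.2 t ht))⟩ }
  have hZ1 : S₀ ≤ Z1 := fun s hs => ⟨hS₀S hs, fun t ht =>
    S₀.mul_mem ((Subgroup.mem_normalizer_iff.1 (hSS₀ t ht) s).1 hs) (S₀.inv_mem hs)⟩
  have hQZ1 : ∀ q ∈ Q, ∀ v ∈ Z1, q * v * q⁻¹ ∈ Z1 := by
    intro q hq v hv
    refine ⟨(Subgroup.mem_normalizer_iff.1 (hQS hq) v).1 hv.1, fun t ht => ?_⟩
    have ht' : q⁻¹ * t * q ∈ S := by
      simpa using (Subgroup.mem_normalizer_iff.1 (hQS (Q.inv_mem hq)) t).1 ht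
    have h := (Subgroup.mem_normalizer_iff.1 (hQS₀ q hq) _).1 (hv.2 _ ht')
    simpa [mul_assoc] using h
  haveI hN₀ : (S₀.subgroupOf S).Normal :=
    Subgroup.normal_subgroupOf_of_le_normalizer fun s hs => hSS₀ s hs
  have hZ1lt : ¬ Z1 ≤ S₀ := by
    intro hle
    haveI : Nontrivial (S ⧸ S₀.subgroupOf S) := by
      refine Finite.one_lt_card_iff_nontrivial.1 ?_
      rw [← Subgroup.index_eq_card]
      refine Subgroup.one_lt_index_of_ne_top fun h => hcase fun s hs => ?_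
      have h1 : (⟨s, hs⟩ : S) ∈ S₀.subgroupOf S := h ▸ Subgroup.mem_top _
      exact (Subgroup.mem_subgroupOf.1 h1).2
    haveI := (hS.to_quotient (S₀.subgroupOf S)).center_nontrivial
    obtain ⟨⟨c, hc⟩, hc1⟩ := exists_ne (1 : Subgroup.center (S ⧸ S₀.subgroupOf S))
    obtain ⟨s, rfl⟩ := QuotientGroup.mk_surjective c
    apply hc1
    apply Subtype.ext
    show (s : S ⧸ S₀.subgroupOf S) = 1
    rw [QuotientGroup.eq_one_iff, Subgroup.mem_subgroupOf]
    refine hle ⟨s.2, fun t ht => ?_⟩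
    have h1 := Subgroup.mem_center_iff.1 hc ((⟨t, ht⟩ : S) : S ⧸ S₀.subgroupOf S)
    have h2 : ((⟨t, ht⟩ * s * (⟨t, ht⟩ : S)⁻¹ * s⁻¹ : S) : S ⧸ S₀.subgroupOf S) = 1 := by
      simp only [QuotientGroup.mk_mul, QuotientGroup.mk_inv, h1]
      group
    exact Subgroup.mem_subgroupOf.1 ((QuotientGroup.eq_one_iff _).1 h2)
  obtain ⟨V, ⟨⟨hS₀V, hVne, hVZ, hQV⟩, hVmin⟩⟩ : ∃ V, Minimal (fun V : Subgroup X => S₀ ≤ V ∧ ¬ V ≤ S₀ ∧
      V ≤ Z1 ∧ ∀ q ∈ Q, ∀ v ∈ V, q * v * q⁻¹ ∈ V) V :=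
    (Set.toFinite _).exists_minimal (s := {V : Subgroup X | S₀ ≤ V ∧ ¬ V ≤ S₀ ∧
      V ≤ Z1 ∧ ∀ q ∈ Q, ∀ v ∈ V, q * v * q⁻¹ ∈ V}) ⟨Z1, hZ1, hZ1lt, le_rfl, hQZ1⟩
  have hVS : V ≤ S := fun v hv => (hVZ hv).1
  have hSV : S ≤ Subgroup.normalizer (V : Set X) := by
    refine CfsgLib.Coprime.le_normalizer_of_conj_mem fun s hs v hv => ?_
    have h := V.mul_mem (hS₀V ((hVZ hv).2 s hs)) hv
    simpa using h
  have hQVn : Q ≤ Subgroup.normalizer (V : Set X) :=
    CfsgLib.Coprime.le_normalizer_of_conj_mem hQV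
  have hV : IsPGroup p V := hS.to_le hVS
  -- `R`, the part of `Q` acting trivially on `V / S₀`
  let R : Subgroup X :=
    { carrier := {q | q ∈ Q ∧ ∀ v ∈ V, q * v * q⁻¹ * v⁻¹ ∈ S₀}
      one_mem' := ⟨Q.one_mem, fun v _ => by simp⟩
      mul_mem' := fun {a b} ha hb => ⟨Q.mul_mem ha.1 hb.1, fun v hv => by
        rw [show a * b * v * (a * b)⁻¹ * v⁻¹ = (a * (b * v * b⁻¹ * v⁻¹) * a⁻¹) * (a * v * a⁻¹ * v⁻¹) by
          group]
        exact S₀.mul_mem ((Subgroup.mem_normalizer_iff.1 (hQS₀ a ha.1) _).1 (hb.2 v hv)) (ha.2 v hv)⟩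
      inv_mem' := fun {a} ha => ⟨Q.inv_mem ha.1, fun v hv => by
        rw [show a⁻¹ * v * a⁻¹⁻¹ * v⁻¹ = a⁻¹ * (a * v * a⁻¹ * v⁻¹)⁻¹ * a⁻¹⁻¹ by group]
        exact (Subgroup.mem_normalizer_iff.1 (hQS₀ _ (Q.inv_mem ha.1)) _).1
          (S₀.inv_mem (ha.2 v hv))⟩ }
  have hRQ : R ≤ Q := fun r hr => hr.1
  have hCR : C ≤ R := fun c hc => ⟨hCQ hc, fun v hv => by
    have h1 := Subgroup.mem_centralizer_iff.1 (hC ▸ hc : c ∈ K ⊓ _).2 v (hVS hv)
    rw [← h1, mul_inv_cancel_right, mul_inv_cancel]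
    exact S₀.one_mem⟩
  have hQRn : Q ≤ Subgroup.normalizer (R : Set X) := by
    refine CfsgLib.Coprime.le_normalizer_of_conj_mem fun q hq r hr => ?_
    have h := R.mul_mem (hCR (hQab q hq r hr.1)) hr
    simpa using h
  have hpR : ¬ p ∣ Nat.card R := fun h => hpQ (h.trans (Subgroup.card_dvd_of_le hRQ))
  -- `A = C_V(R)` covers `V / S₀`
  set A := V ⊓ Subgroup.centralizer (R : Set X) with hA
  have hcov : ∀ v ∈ V, ∃ s ∈ S₀, s * v ∈ A := by
    intro v hv
    have hcop : (Nat.card R).Coprime (Nat.card S₀) := by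
      obtain ⟨e, he⟩ := IsPGroup.iff_card.1 (hS.to_le hS₀S)
      rw [he]
      exact (((Fact.out : p.Prime).coprime_iff_not_dvd.2 hpR).pow_left e).symm
    obtain ⟨s, hs, hsc⟩ := CfsgLib.Coprime.exists_mul_mem_centralizer (A := R) (N := S₀)
      (fun r hr => hQS₀ r (hRQ hr)) hcop
      (Or.inr (CfsgLib.Coprime.isSolvable_of_isPGroup (hS.to_le hS₀S))) (g := v) (fun r hr => by
        have h := S₀.inv_mem (hr.2 v hv)
        rw [show (r * v * r⁻¹ * v⁻¹)⁻¹ = v * r * v⁻¹ * r⁻¹ by group] at h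
        rwa [commutatorElement_def])
    exact ⟨s, hs, V.mul_mem (hS₀V hs) hv, hsc⟩
  have hAV : A ≤ V := inf_le_left
  have hQA : Q ≤ Subgroup.normalizer (A : Set X) :=
    CfsgLib.Coprime.le_normalizer_inf' hQVn (CfsgLib.Coprime.le_normalizer_centralizer hQRn)
  have hAp : IsPGroup p A := hV.to_le hAV
  set K₁ := K ⊓ Subgroup.centralizer (V : Set X) with hK₁
  have hK₁A : K₁ = K ⊓ Subgroup.centralizer (A : Set X) := by
    refine le_antisymm (inf_le_inf_left _ (Subgroup.centralizer_le hAV)) ?_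
    rintro k ⟨hk, hkA⟩
    refine ⟨hk, Subgroup.mem_centralizer_iff.2 fun v hv => ?_⟩
    obtain ⟨s, hs, hsv⟩ := hcov v hv
    have h1 := Subgroup.mem_centralizer_iff.1 hkA _ hsv
    have h2 : k * s = s * k := Subgroup.mem_centralizer_iff.1 hs.2 k hk
    have h3 : s * (v * k) = s * (k * v) := by
      rw [← mul_assoc, h1, ← mul_assoc, h2, mul_assoc]
    exact mul_left_cancel h3
  have hK₁lt : Nat.card K₁ < n := by
    rw [← hn]
    refine lt_of_le_of_ne (Subgroup.card_le_of_le inf_le_left) fun h => hVne fun v hv => ?_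
    have h1 : K₁ = K := Subgroup.eq_of_le_of_card_ge inf_le_left h.ge
    exact ⟨hVS hv, Subgroup.mem_centralizer_iff.2 fun k hk =>
      (Subgroup.mem_centralizer_iff.1 (h1.ge hk).2 v hv).symm⟩
  have := Fintype.ofFinite K₁
  have hQK₁ : Q ≤ Subgroup.normalizer (K₁ : Set X) :=
    CfsgLib.Coprime.le_normalizer_inf' hQK (CfsgLib.Coprime.le_normalizer_centralizer hQVn)
  have hSK₁ : S ≤ Subgroup.normalizer (K₁ : Set X) :=
    CfsgLib.Coprime.le_normalizer_inf' hSK (CfsgLib.Coprime.le_normalizer_centralizer hSV)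
  have hpK₁ : ¬ p ∣ Nat.card K₁ := fun h => hpK (h.trans (Subgroup.card_dvd_of_le inf_le_left))
  have hCK₁ : C ≤ K₁ := le_inf hCK (fun c hc => Subgroup.centralizer_le hVS (hC ▸ hc : c ∈ K ⊓ _).2)
  have hC₁ : C = K₁ ⊓ Subgroup.centralizer (S : Set X) := by
    refine le_antisymm (le_inf hCK₁ (hC ▸ inf_le_right)) ?_
    rw [hC]
    exact inf_le_inf_right _ inf_le_left
  obtain ⟨θ₁, hθ₁, hθ₁u⟩ := (glaub hpK hV (hVS.trans hSK) hK₁ inf_le_left).1 θ fun v hv => hθS v (hVS hv)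
  have hθ₁Q : ∀ q ∈ Q, Fix q θ₁ := fun q hq =>
    (glaub_fix_iff hpK hV (hVS.trans hSK) hK₁ inf_le_left (fun v hv => hθS v (hVS hv)) hθ₁
      (hQK hq) (hQK₁ hq) (hQVn hq)).1 (hθQ q hq)
  have hθ₁S : ∀ s ∈ S, Fix s θ₁ := fun s hs =>
    (glaub_fix_iff hpK hV (hVS.trans hSK) hK₁ inf_le_left (fun v hv => hθS v (hVS hv)) hθ₁
      (hSK hs) (hSK₁ hs) (hSV hs)).1 (hθS s hs)
  have hξ₁ : ¬ p ∣ CfsgLib.Glauberman.mult (Subgroup.inclusion hCK₁) θ₁ ξ := by
    rw [← dvd_mult_iff hCK₁ inf_le_left θ θ₁ ξ hθ₁ hθ₁u]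
    exact hξ
  rw [← ih _ hK₁lt K₁ S Q C rfl hpK₁ hpQ hS hSK₁ hQK₁ hQS hC₁ hCK₁ hCQ hQab
    (le_trans (inf_le_inf_right _ inf_le_left) hKQ) θ₁ ξ hθ₁S hθ₁Q hξ₁]
  -- `Q / R` is cyclic
  obtain ⟨z, hzQ, hQz⟩ : ∃ z ∈ Q, Q = R ⊔ Subgroup.zpowers z := by
    haveI hN : (S₀.subgroupOf V).Normal :=
      Subgroup.normal_subgroupOf_of_le_normalizer fun v hv => hSS₀ v (hVS hv)
    letI : CommGroup (V ⧸ S₀.subgroupOf V) := { (inferInstance : Group (V ⧸ S₀.subgroupOf V)) with
      mul_comm := fun a b => by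
        obtain ⟨v, rfl⟩ := QuotientGroup.mk_surjective a
        obtain ⟨w, rfl⟩ := QuotientGroup.mk_surjective b
        rw [← QuotientGroup.mk_mul, ← QuotientGroup.mk_mul, QuotientGroup.eq, Subgroup.mem_subgroupOf]
        have h := (hVZ (V.inv_mem v.2)).2 _ (hVS (V.inv_mem w.2))
        simpa [mul_assoc] using h }
    haveI : Nontrivial (V ⧸ S₀.subgroupOf V) := by
      refine Finite.one_lt_card_iff_nontrivial.1 ?_
      rw [← Subgroup.index_eq_card]
      refine Subgroup.one_lt_index_of_ne_top fun h => hVne fun v hv => ?_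
      have h1 : (⟨v, hv⟩ : V) ∈ S₀.subgroupOf V := h ▸ Subgroup.mem_top _
      exact Subgroup.mem_subgroupOf.1 h1
    let f : Q →* MulAut (V ⧸ S₀.subgroupOf V) :=
      { toFun := fun q => QuotientGroup.congr _ _ (cj (hQVn q.2)) (by
          ext v
          rw [Subgroup.mem_map, Subgroup.mem_subgroupOf]
          constructor
          · rintro ⟨w, hw, rfl⟩
            exact (Subgroup.mem_normalizer_iff.1 (hQS₀ q q.2) w).1 hw
          · intro hv
            refine ⟨(cj (hQVn q.2)).symm v, ?_, (cj (hQVn q.2)).apply_symm_apply v⟩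
            show (q : X)⁻¹ * v * q ∈ S₀
            simpa using (Subgroup.mem_normalizer_iff.1 (hQS₀ _ (Q.inv_mem q.2)) v).1 hv)
        map_one' := by
          ext a
          obtain ⟨v, rfl⟩ := QuotientGroup.mk_surjective a
          exact congrArg QuotientGroup.mk (Subtype.ext (by simp))
        map_mul' := fun q q' => by
          ext a
          obtain ⟨v, rfl⟩ := QuotientGroup.mk_surjective a
          exact congrArg QuotientGroup.mk (Subtype.ext (by simp [mul_assoc])) }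
    have hfker : ∀ q : Q, f q = 1 ↔ (q : X) ∈ R := by
      intro q
      constructor
      · intro h
        refine ⟨q.2, fun v hv => ?_⟩
        have h1 : ((cj (hQVn q.2) ⟨v, hv⟩ : V) : V ⧸ S₀.subgroupOf V) = ((⟨v, hv⟩ : V) : V ⧸ S₀.subgroupOf V) :=
          DFunLike.congr_fun h ((⟨v, hv⟩ : V) : V ⧸ S₀.subgroupOf V)
        rw [QuotientGroup.eq_iff_div_mem, div_eq_mul_inv] at h1
        exact h1
      · intro h
        ext a
        obtain ⟨v, rfl⟩ := QuotientGroup.mk_surjective a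
        show ((cj (hQVn q.2) v : V) : V ⧸ S₀.subgroupOf V) = (v : V ⧸ S₀.subgroupOf V)
        rw [QuotientGroup.eq_iff_div_mem, div_eq_mul_inv]
        exact h.2 v v.2
    have hcomm : ∀ a b : Q, f (a * b) = f (b * a) := by
      intro a b
      have h1 : f (a * b * a⁻¹ * b⁻¹) = 1 := (hfker _).2 (hCR (hQab a a.2 b b.2))
      have h2 : a * b = (a * b * a⁻¹ * b⁻¹) * (b * a) := by group
      rw [h2, map_mul, h1, one_mul]
    have hirr : ∀ W : Subgroup (V ⧸ S₀.subgroupOf V), (∀ q, ∀ w ∈ W, f q w ∈ W) → W = ⊥ ∨ W = ⊤ := by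
      intro W hW
      by_cases hbot : W = ⊥
      · exact Or.inl hbot
      right
      set U : Subgroup X := (W.comap (QuotientGroup.mk' _)).map V.subtype with hU
      have hUV : U ≤ V := by rintro _ ⟨v, -, rfl⟩; exact v.2
      have hUP : S₀ ≤ U ∧ ¬ U ≤ S₀ ∧ U ≤ Z1 ∧ ∀ q ∈ Q, ∀ u ∈ U, q * u * q⁻¹ ∈ U := by
        refine ⟨fun s hs => ⟨⟨s, hS₀V hs⟩, ?_, rfl⟩, fun hle => hbot ?_, hUV.trans hVZ, ?_⟩
        · show ((⟨s, hS₀V hs⟩ : V) : V ⧸ S₀.subgroupOf V) ∈ W
          rw [(QuotientGroup.eq_one_iff _).2 (Subgroup.mem_subgroupOf.2 hs)]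
          exact W.one_mem
        · rw [Subgroup.eq_bot_iff_forall]
          intro a ha
          obtain ⟨v, rfl⟩ := QuotientGroup.mk_surjective a
          exact (QuotientGroup.eq_one_iff _).2 (hle ⟨v, ha, rfl⟩)
        · rintro q hq _ ⟨v, hv, rfl⟩
          exact ⟨cj (hQVn hq) v, hW ⟨q, hq⟩ _ hv, rfl⟩
      have hle : V ≤ U := hVmin hUP hUV
      rw [eq_top_iff]
      intro a _
      obtain ⟨v, rfl⟩ := QuotientGroup.mk_surjective a
      obtain ⟨w, hw, hwv⟩ := hle v.2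
      rwa [Subtype.ext hwv] at hw
    obtain ⟨z, hz⟩ := exists_generator_of_irreducible f hcomm hirr
    refine ⟨z, z.2, le_antisymm (fun q hq => ?_) (sup_le hRQ (Subgroup.zpowers_le.2 z.2))⟩
    obtain ⟨k, hk⟩ := hz ⟨q, hq⟩
    have h1 : ((⟨q, hq⟩ * (z ^ k)⁻¹ : Q) : X) ∈ R :=
      (hfker _).1 (by rw [map_mul, map_inv, map_zpow, hk, mul_inv_cancel])
    have h2 : q = ((⟨q, hq⟩ * (z ^ k)⁻¹ : Q) : X) * (z : X) ^ k := by simp
    rw [h2]
    exact Subgroup.mul_mem_sup h1 (Subgroup.zpow_mem _ (Subgroup.mem_zpowers _) k)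
  have hzKR : z ∈ Subgroup.normalizer ((K ⊔ R : Subgroup X) : Set X) :=
    Subgroup.normalizer_inf_normalizer_le_normalizer_sup _ _ (Subgroup.mem_inf.2 ⟨hQK hzQ, hQRn hzQ⟩)
  have hzK₁R : z ∈ Subgroup.normalizer ((K₁ ⊔ R : Subgroup X) : Set X) :=
    Subgroup.normalizer_inf_normalizer_le_normalizer_sup _ _ (Subgroup.mem_inf.2 ⟨hQK₁ hzQ, hQRn hzQ⟩)
  rw [hQz, ← sup_assoc, ← sup_assoc, extendsTo_cyclic_iff le_sup_left hzKR,
    extendsTo_cyclic_iff le_sup_left hzK₁R]
  exact ext_step hpK hpR hAp (hAV.trans (hVS.trans hSK)) (hRQ.trans hQK)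
    (fun r hr a ha => Subgroup.mem_centralizer_iff.1 ha.2 r hr)
    (fun a ha b hb => hCK (hQab a (hRQ ha) b (hRQ hb))) hK₁A inf_le_left θ
    (fun a ha => hθS a (hVS (hAV ha))) (fun r hr => hθQ r (hRQ hr)) θ₁ hθ₁ z (hQK hzQ) (hQRn hzQ)
    (hQA hzQ)

end CfsgLib.McKay
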