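import Cfsg.Agent.McKay.Local

/-!
# The case `X = K N(S)`

If `K` is a normal `p'`-subgroup with `K S` normal, the characters of degree prime to `p` over a
central linear character are as many in `X` as in the normaliser of `S`.
-/

set_option autoImplicit false

namespace CfsgLib.McKay

open Cfsg CfsgLib.Glauberman CfsgLib.Chars.Induced
open scoped ComplexConjugate

universe u

variable {X : Type u} [Group X] [Fintype X]

omit [Fintype X] in
theorem extendsTo_subgroupOf {K M D : Subgroup X} (hKD : K ≤ D) (hMD : M ≤ D) (θ : IrrCharacter K) :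
    ExtendsTo (M.subgroupOf D) (toSub (H := D) hKD θ) ↔ ExtendsTo M θ := by
  constructor
  · rintro ⟨h, φ, hφ⟩
    refine ⟨fun x hx => h (show (⟨x, hKD hx⟩ : D) ∈ K.subgroupOf D from hx),
      irrPull (Subgroup.subgroupOfEquivOfLe hMD).symm φ, fun k => ?_⟩
    exact (hφ ⟨⟨(k : X), hKD k.2⟩, k.2⟩).trans (congrArg (θ : K → ℂ) (Subtype.ext rfl))
  · rintro ⟨h, φ, hφ⟩
    refine ⟨fun x hx => h hx, irrPull (Subgroup.subgroupOfEquivOfLe hMD) φ, fun k => ?_⟩
    exact hφ ⟨((k : D) : X), k.2⟩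

omit [Fintype X] in
theorem goodElt_subgroupOf {K D : Subgroup X} (hKD : K ≤ D) (θ : IrrCharacter K) (x : D) :
    GoodElt (toSub (H := D) hKD θ) x ↔
      ∀ y ∈ D, y * x * y⁻¹ * (x : X)⁻¹ ∈ K → ExtendsTo (K ⊔ Subgroup.closure {(x : X), y}) θ := by
  have hle : ∀ y ∈ D, K ⊔ Subgroup.closure {(x : X), y} ≤ D := fun y hy =>
    sup_le hKD ((Subgroup.closure_le _).2 (by rintro g (rfl | rfl); exacts [x.2, hy]))
  have heq : ∀ y : D, K.subgroupOf D ⊔ Subgroup.closure {x, y} =
      (K ⊔ Subgroup.closure {(x : X), (y : X)}).subgroupOf D := by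
    intro y
    apply Subgroup.map_injective D.subtype_injective
    rw [Subgroup.map_sup, Subgroup.subgroupOf_map_subtype, Subgroup.subgroupOf_map_subtype,
      inf_eq_left.2 hKD, inf_eq_left.2 (hle y y.2), MonoidHom.map_closure, Set.image_pair]
    rfl
  constructor
  · intro h y hy hyx
    have h1 := h ⟨y, hy⟩ hyx
    rw [heq] at h1
    exact (extendsTo_subgroupOf hKD (hle y hy) θ).1 h1
  · intro h y hyx
    rw [heq]
    exact (extendsTo_subgroupOf hKD (hle y y.2) θ).2 (h y y.2 hyx)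

omit [Fintype X] in
/-- Central scalars agree along a multiplicity. -/
theorem scalar_eq_of_mult {C K : Subgroup X} [Fintype K] [Fintype C] (hCK : C ≤ K) (θ : IrrCharacter K)
    (ξ : IrrCharacter C) (h : CfsgLib.Glauberman.mult (Subgroup.inclusion hCK) θ ξ ≠ 0) (k : C)
    (hk : (k : X) ∈ Subgroup.center X) :
    (θ : K → ℂ) (Subgroup.inclusion hCK k) / (θ : K → ℂ) 1 = (ξ : C → ℂ) k / (ξ : C → ℂ) 1 := by
  have hkK : Subgroup.inclusion hCK k ∈ Subgroup.center K :=
    Subgroup.mem_center_iff.2 fun g => Subtype.ext (Subgroup.mem_center_iff.1 hk g)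
  have hkC : k ∈ Subgroup.center C :=
    Subgroup.mem_center_iff.2 fun g => Subtype.ext (Subgroup.mem_center_iff.1 hk g)
  set a := (θ : K → ℂ) (Subgroup.inclusion hCK k) / (θ : K → ℂ) 1 with ha
  set b := (ξ : C → ℂ) k / (ξ : C → ℂ) 1 with hb
  have h1 := CfsgLib.Glauberman.classInner_eq_mult (Subgroup.inclusion hCK) θ ξ
  have h2 : classInner (fun c => (θ : K → ℂ) (Subgroup.inclusion hCK c)) (ξ : C → ℂ) =
      a * conj b * classInner (fun c => (θ : K → ℂ) (Subgroup.inclusion hCK c)) (ξ : C → ℂ) := by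
    simp only [classInner]
    conv_lhs => rw [← Equiv.sum_comp (Equiv.mulLeft k)]
    rw [Finset.mul_sum, Finset.mul_sum, Finset.mul_sum]
    refine Finset.sum_congr rfl fun c _ => ?_
    simp only [Equiv.coe_mulLeft, map_mul, CfsgLib.Chars.map_mul_of_mem_center θ hkK,
      CfsgLib.Chars.map_mul_of_mem_center ξ hkC, ← ha, ← hb]
    ring
  rw [h1] at h2
  have h3 : a * conj b = 1 :=
    mul_right_cancel₀ (Nat.cast_ne_zero.2 h) (h2.symm.trans (one_mul _).symm)
  have hnorm : b * conj b = 1 := by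
    rw [hb, map_div₀, div_mul_div_comm, Complex.mul_conj, Complex.mul_conj, div_eq_one_iff_eq
      (by simp [CfsgLib.Chars.map_one_ne_zero ξ]), Complex.normSq_eq_norm_sq,
      Complex.normSq_eq_norm_sq, CfsgLib.Chars.norm_map_of_mem_center ξ hkC]
  calc a = a * (b * conj b) := by rw [hnorm, mul_one]
    _ = b * (a * conj b) := by ring
    _ = b := by rw [h3, mul_one]

/-- Equally many characters over `θ` and over its correspondent. -/
theorem card_over_glauberman {p : ℕ} [Fact p.Prime] {K S C P : Subgroup X} [Fintype K] [Fintype C]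
    (hpK : ¬ p ∣ Nat.card K) (hS : IsPGroup p S) (hSK : S ≤ Subgroup.normalizer (K : Set X))
    (hC : C = K ⊓ Subgroup.centralizer (S : Set X)) (hCK : C ≤ K) (hCP : C ≤ P) (hKP : K ⊓ P ≤ C)
    (hPK : P ≤ Subgroup.normalizer (K : Set X)) (hPS : P ≤ Subgroup.normalizer (S : Set X))
    (hpP : ¬ p ∣ Nat.card P) (θ : IrrCharacter K) (ξ : IrrCharacter C) (hθS : ∀ s ∈ S, Fix s θ)
    (hθP : ∀ x ∈ P, Fix x θ) (hξ : ¬ p ∣ CfsgLib.Glauberman.mult (Subgroup.inclusion hCK) θ ξ) :
    Nat.card {ψ : IrrCharacter (K ⊔ P : Subgroup X) //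
        CfsgLib.Glauberman.mult (Subgroup.inclusion le_sup_left) ψ θ ≠ 0} =
      Nat.card {ψ : IrrCharacter (C ⊔ P : Subgroup X) //
        CfsgLib.Glauberman.mult (Subgroup.inclusion le_sup_left) ψ ξ ≠ 0} := by
  classical
  set D := K ⊔ P with hD
  set E := C ⊔ P with hE
  have hEP : E = P := sup_eq_right.2 hCP
  have hKD : K ≤ D := le_sup_left
  have hCE : C ≤ E := le_sup_left
  have hED : E ≤ D := sup_le_sup_right hCK P
  have := Fintype.ofFinite D
  have := Fintype.ofFinite E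
  have := Fintype.ofFinite (K.subgroupOf D)
  have := Fintype.ofFinite (C.subgroupOf E)
  have hPC : P ≤ Subgroup.normalizer (C : Set X) :=
    hC ▸ CfsgLib.Coprime.le_normalizer_inf' hPK (CfsgLib.Coprime.le_normalizer_centralizer hPS)
  haveI : (K.subgroupOf D).Normal :=
    Subgroup.normal_subgroupOf_of_le_normalizer (sup_le K.le_normalizer hPK)
  haveI : (C.subgroupOf E).Normal :=
    Subgroup.normal_subgroupOf_of_le_normalizer (sup_le C.le_normalizer hPC)
  have hξP : ∀ x ∈ P, Fix x ξ := fun x hx =>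
    (glaub_fix_iff hpK hS hSK hC hCK hθS hξ (hPK hx) (hPC hx) (hPS hx)).1 (hθP x hx)
  have hθD : ∀ g : D, conjIrr g (toSub (H := D) hKD θ) = toSub hKD θ := by
    intro g
    apply Subtype.ext
    rw [conjIrr_coe]
    funext n
    rw [conjFun_apply, toSub, irrPull_apply, irrPull_apply]
    have hg : ((g⁻¹ : D) : X) ∈ ((K ⊔ P : Subgroup X) : Set X) := (g⁻¹).2
    rw [Subgroup.coe_mul_of_right_le_normalizer_left K P hPK] at hg
    obtain ⟨k, hk, x, hx, e⟩ := hg
    refine fix_mul θ (hPK hx) (fix_of_mem hk θ) (hθP x hx) _ _ ?_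
    rw [show k * x = ((g⁻¹ : D) : X) from e]
    simp
  have hξE : ∀ g : E, conjIrr g (toSub (H := E) hCE ξ) = toSub hCE ξ := by
    intro g
    apply Subtype.ext
    rw [conjIrr_coe]
    funext n
    rw [conjFun_apply, toSub, irrPull_apply, irrPull_apply]
    refine fix_inv ξ (hξP _ (hEP.le g.2)) _ _ ?_
    simp
  have hover : ∀ {A B : Subgroup X} [Fintype A] [Fintype B] [Fintype (A.subgroupOf B)] (h : A ≤ B)
      (a : IrrCharacter A),
      Nat.card {ψ : IrrCharacter B // CfsgLib.Glauberman.mult (Subgroup.inclusion h) ψ a ≠ 0} =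
        Nat.card {ψ : IrrCharacter B //
          CfsgLib.Glauberman.mult (A.subgroupOf B).subtype ψ (toSub h a) ≠ 0} := by
    intro A B _ _ _ h a
    exact Nat.card_congr (Equiv.subtypeEquivRight fun ψ => by rw [mult_toSub])
  rw [hover hKD θ, hover hCE ξ, card_over_eq_card_good _ hθD, card_over_eq_card_good _ hξE]
  -- good elements
  have hgood : ∀ x : E, GoodElt (toSub (H := E) hCE ξ) x ↔
      GoodElt (toSub (H := D) hKD θ) (Subgroup.inclusion hED x) := by
    intro x
    rw [goodElt_subgroupOf, goodElt_subgroupOf]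
    have hxP : (x : X) ∈ P := hEP ▸ x.2
    have key : ∀ y ∈ P, y * x * y⁻¹ * (x : X)⁻¹ ∈ C →
        (ExtendsTo (K ⊔ Subgroup.closure {(x : X), y}) θ ↔
          ExtendsTo (C ⊔ Subgroup.closure {(x : X), y}) ξ) := by
      intro y hy hyx
      set Q := C ⊔ Subgroup.closure {(x : X), y} with hQ
      have hQP : Q ≤ P := sup_le hCP
        ((Subgroup.closure_le _).2 (by rintro g (rfl | rfl); exacts [hxP, hy]))
      haveI : (C.subgroupOf Q).Normal :=
        Subgroup.normal_subgroupOf_of_le_normalizer (hQP.trans hPC)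
      have hgenx : (x : X) ∈ Q := Subgroup.mem_sup_right (Subgroup.subset_closure (Or.inl rfl))
      have hgeny : y ∈ Q := Subgroup.mem_sup_right (Subgroup.subset_closure (Or.inr rfl))
      have hab : ∀ a ∈ Q, ∀ b ∈ Q, a * b * a⁻¹ * b⁻¹ ∈ C := by
        let q := QuotientGroup.mk' (C.subgroupOf Q)
        have hxy : q ⟨y, hgeny⟩ * q ⟨x, hgenx⟩ = q ⟨x, hgenx⟩ * q ⟨y, hgeny⟩ := by
          have h : q (⟨y, hgeny⟩ * ⟨x, hgenx⟩ * ⟨y, hgeny⟩⁻¹ * ⟨x, hgenx⟩⁻¹) = 1 :=
            (QuotientGroup.eq_one_iff _).2 hyx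
          rwa [map_mul, map_mul, map_mul, map_inv, map_inv, mul_inv_eq_one, mul_inv_eq_iff_eq_mul] at h
        have hcen : ∀ b : Q, q ⟨x, hgenx⟩ * q b = q b * q ⟨x, hgenx⟩ ∧
            q ⟨y, hgeny⟩ * q b = q b * q ⟨y, hgeny⟩ := by
          let F : Subgroup Q := (Subgroup.centralizer
            ({q ⟨x, hgenx⟩, q ⟨y, hgeny⟩} : Set (Q ⧸ C.subgroupOf Q))).comap q
          have hFtop : F = ⊤ := by
            rw [eq_top_iff]
            intro b _
            have hle : Q ≤ F.map Q.subtype := by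
              refine sup_le (fun c hc => ⟨⟨c, Subgroup.mem_sup_left hc⟩, ?_, rfl⟩)
                ((Subgroup.closure_le _).2 ?_)
              · show q _ ∈ Subgroup.centralizer _
                rw [show q ⟨c, Subgroup.mem_sup_left hc⟩ = 1 from
                  (QuotientGroup.eq_one_iff _).2 (Subgroup.mem_subgroupOf.2 hc)]
                exact Subgroup.one_mem _
              · rintro g (rfl | rfl)
                · refine ⟨⟨_, hgenx⟩, Subgroup.mem_centralizer_iff.2 ?_, rfl⟩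
                  rintro h (rfl | rfl)
                  · rfl
                  · exact hxy
                · refine ⟨⟨_, hgeny⟩, Subgroup.mem_centralizer_iff.2 ?_, rfl⟩
                  rintro h (rfl | rfl)
                  · exact hxy.symm
                  · rfl
            obtain ⟨b', hb', he⟩ := hle b.2
            rwa [Subtype.ext he] at hb'
          intro b
          have h := Subgroup.mem_centralizer_iff.1 (show q b ∈ _ from (hFtop ▸ Subgroup.mem_top b : b ∈ F))
          exact ⟨h _ (Or.inl rfl), h _ (Or.inr rfl)⟩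
        have hcen2 : ∀ a b : Q, q a * q b = q b * q a := by
          intro a b
          let F : Subgroup Q := (Subgroup.centralizer ({q b} : Set (Q ⧸ C.subgroupOf Q))).comap q
          have hle : Q ≤ F.map Q.subtype := by
            refine sup_le (fun c hc => ⟨⟨c, Subgroup.mem_sup_left hc⟩, ?_, rfl⟩)
              ((Subgroup.closure_le _).2 ?_)
            · show q _ ∈ Subgroup.centralizer _
              rw [show q ⟨c, Subgroup.mem_sup_left hc⟩ = 1 from
                (QuotientGroup.eq_one_iff _).2 (Subgroup.mem_subgroupOf.2 hc)]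
              exact Subgroup.one_mem _
            · rintro g (rfl | rfl)
              · refine ⟨⟨_, hgenx⟩, Subgroup.mem_centralizer_iff.2 ?_, rfl⟩
                rintro h rfl
                exact (hcen b).1.symm
              · refine ⟨⟨_, hgeny⟩, Subgroup.mem_centralizer_iff.2 ?_, rfl⟩
                rintro h rfl
                exact (hcen b).2.symm
          obtain ⟨a', ha', he⟩ := hle a.2
          rw [← Subtype.ext (p := fun g => g ∈ Q) he]
          exact (Subgroup.mem_centralizer_iff.1 ha' _ rfl).symm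
        intro a ha b hb
        have h : q (⟨a, ha⟩ * ⟨b, hb⟩ * ⟨a, ha⟩⁻¹ * ⟨b, hb⟩⁻¹) = 1 := by
          rw [map_mul, map_mul, map_mul, map_inv, map_inv, hcen2 ⟨a, ha⟩ ⟨b, hb⟩]
          group
        exact Subgroup.mem_subgroupOf.1 ((QuotientGroup.eq_one_iff _).1 h)
      have h := extendsTo_iff_glauberman (p := p) _ K S Q C rfl hpK
        (fun h => hpP (h.trans (Subgroup.card_dvd_of_le hQP))) hS hSK (hQP.trans hPK) (hQP.trans hPS)
        hC hCK le_sup_left hab ((inf_le_inf_left K hQP).trans hKP) θ ξ hθS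
        (fun g hg => hθP g (hQP hg)) hξ
      rwa [hQ, ← sup_assoc, sup_eq_left.2 hCK] at h
    constructor
    · intro h y hy hyx
      have hy' : y ∈ ((K ⊔ P : Subgroup X) : Set X) := hy
      rw [Subgroup.coe_mul_of_right_le_normalizer_left K P hPK] at hy'
      obtain ⟨k, hk, t, ht, rfl⟩ := hy'
      have htx : t * x * t⁻¹ * (x : X)⁻¹ ∈ K := by
        have hu : t * x * t⁻¹ ∈ P := P.mul_mem (P.mul_mem ht hxP) (P.inv_mem ht)
        have h2 : (k : X) * (t * x * t⁻¹) * k⁻¹ * (x : X)⁻¹ ∈ K := by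
          have h3 : k * t * x * (k * t)⁻¹ * (x : X)⁻¹ =
            k * (t * x * t⁻¹) * k⁻¹ * (x : X)⁻¹ := by group
          rw [← h3]
          exact hyx
        have h4 : (t * x * t⁻¹) * k * (t * x * t⁻¹)⁻¹ ∈ K :=
          (Subgroup.mem_normalizer_iff.1 (hPK hu) k).1 hk
        have h5 := K.mul_mem h4 (K.mul_mem (K.inv_mem hk) h2)
        have h6 : (t * x * t⁻¹) * k * (t * x * t⁻¹)⁻¹ *
            (k⁻¹ * (k * (t * x * t⁻¹) * k⁻¹ * (x : X)⁻¹)) = t * x * t⁻¹ * (x : X)⁻¹ := by group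
        rwa [h6] at h5
      have htxC : t * x * t⁻¹ * (x : X)⁻¹ ∈ C :=
        hKP ⟨htx, P.mul_mem (P.mul_mem (P.mul_mem ht hxP) (P.inv_mem ht)) (P.inv_mem hxP)⟩
      have h1 := (key t ht htxC).2 (h t (hEP.symm ▸ ht) htxC)
      have heq : K ⊔ Subgroup.closure {(x : X), k * t} = K ⊔ Subgroup.closure {(x : X), t} := by
        apply le_antisymm <;> refine sup_le le_sup_left ((Subgroup.closure_le _).2 ?_) <;>
          rintro g (rfl | rfl)
        · exact Subgroup.mem_sup_right (Subgroup.subset_closure (Or.inl rfl))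
        · exact Subgroup.mul_mem _ (Subgroup.mem_sup_left hk)
            (Subgroup.mem_sup_right (Subgroup.subset_closure (Or.inr rfl)))
        · exact Subgroup.mem_sup_right (Subgroup.subset_closure (Or.inl rfl))
        · have h7 := Subgroup.mul_mem (K ⊔ Subgroup.closure {(x : X), k * g})
            (Subgroup.mem_sup_left (K.inv_mem hk))
            (Subgroup.mem_sup_right (Subgroup.subset_closure (Or.inr rfl)))
          rwa [inv_mul_cancel_left] at h7
      show ExtendsTo (K ⊔ Subgroup.closure {(x : X), k * t}) θ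
      rw [heq]
      exact h1
    · intro h y hy hyx
      have hyP : y ∈ P := hEP ▸ hy
      exact (key y hyP hyx).1 (h y (hED hy) (hCK hyx))
  -- the classes
  let f : E ⧸ C.subgroupOf E →* D ⧸ K.subgroupOf D :=
    QuotientGroup.map _ _ (Subgroup.inclusion hED) (fun e he => hCK he)
  have hf : Function.Bijective f := by
    constructor
    · rw [injective_iff_map_eq_one]
      intro q hq
      obtain ⟨e, rfl⟩ := QuotientGroup.mk_surjective q
      change ((Subgroup.inclusion hED e : D) : D ⧸ K.subgroupOf D) = 1 at hq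
      rw [QuotientGroup.eq_one_iff, Subgroup.mem_subgroupOf] at hq ⊢
      exact hKP ⟨hq, hEP ▸ e.2⟩
    · intro q
      obtain ⟨d, rfl⟩ := QuotientGroup.mk_surjective q
      have hd : (d : X) ∈ ((K ⊔ P : Subgroup X) : Set X) := d.2
      rw [Subgroup.coe_mul_of_right_le_normalizer_left K P hPK] at hd
      obtain ⟨k, hk, t, ht, e⟩ := hd
      refine ⟨((⟨t, hEP.symm ▸ ht⟩ : E) : E ⧸ C.subgroupOf E), ?_⟩
      show ((Subgroup.inclusion hED ⟨t, _⟩ : D) : D ⧸ K.subgroupOf D) = (d : D ⧸ K.subgroupOf D)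
      rw [show d = Subgroup.inclusion hKD ⟨k, hk⟩ * Subgroup.inclusion hED ⟨t, hEP.symm ▸ ht⟩ from
        Subtype.ext e.symm, QuotientGroup.mk_mul,
        (QuotientGroup.eq_one_iff (Subgroup.inclusion hKD ⟨k, hk⟩)).2 (Subgroup.mem_subgroupOf.2 hk),
        one_mul]
  let Φ := MulEquiv.ofBijective f hf
  have hconj : ∀ {A : Subgroup X} {L : Subgroup A} [L.Normal] [Fintype A] [Fintype L]
      (a : IrrCharacter L), (∀ g : A, conjIrr g a = a) → ∀ g g' : A,
      ConjClasses.mk (g : A ⧸ L) = ConjClasses.mk (g' : A ⧸ L) → GoodElt a g → GoodElt a g' := by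
    intro A L _ _ _ a ha g g' h hg
    obtain ⟨c, hc⟩ := isConj_iff.1 (ConjClasses.mk_eq_mk_iff_isConj.1 h)
    obtain ⟨y, rfl⟩ := QuotientGroup.mk_surjective c
    rw [← QuotientGroup.mk_inv, ← QuotientGroup.mk_mul, ← QuotientGroup.mk_mul, QuotientGroup.eq] at hc
    have hk : g' * (y * g * y⁻¹)⁻¹ ∈ L := by
      have h1 := ‹L.Normal›.conj_mem _ hc (y * g * y⁻¹)
      simpa [mul_assoc] using h1
    have h2 := goodElt_conj a ha hg ⟨_, hk⟩ y
    rwa [inv_mul_cancel_right] at h2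
  let Ψ : ConjClasses (E ⧸ C.subgroupOf E) ≃ ConjClasses (D ⧸ K.subgroupOf D) :=
    { toFun := ConjClasses.map Φ.toMonoidHom
      invFun := ConjClasses.map Φ.symm.toMonoidHom
      left_inv := fun c => by
        obtain ⟨a, rfl⟩ := ConjClasses.mk_surjective c
        exact congrArg ConjClasses.mk (Φ.symm_apply_apply a)
      right_inv := fun c => by
        obtain ⟨a, rfl⟩ := ConjClasses.mk_surjective c
        exact congrArg ConjClasses.mk (Φ.apply_symm_apply a) }
  refine (Nat.card_congr (Ψ.subtypeEquiv fun c => ?_)).symm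
  constructor
  · rintro ⟨x, rfl, hx⟩
    exact ⟨Subgroup.inclusion hED x, rfl, (hgood x).1 hx⟩
  · rintro ⟨d, hd, hdg⟩
    obtain ⟨q, rfl⟩ := ConjClasses.mk_surjective c
    obtain ⟨e, rfl⟩ := QuotientGroup.mk_surjective q
    exact ⟨e, rfl, (hgood e).2 (hconj _ hθD d (Subgroup.inclusion hED e) hd hdg)⟩

/-- **The case `X = K N(S)`.** -/
theorem final_case {p : ℕ} [Fact p.Prime] {K Z : Subgroup X} [K.Normal] [Fintype Z]
    (hpK : ¬ p ∣ Nat.card K) (S : Sylow p X) (hM : (K ⊔ (S : Subgroup X)).Normal)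
    (hZM : Z ≤ K ⊔ (S : Subgroup X)) (hZc : Z ≤ Subgroup.center X) (lam : Z →* ℂˣ)
    (hZN : Z ≤ Subgroup.normalizer ((S : Subgroup X) : Set X)) :
    cnt p Z.subtype (CfsgLib.Chars.linChar lam) =
      cnt p (Subgroup.inclusion hZN) (CfsgLib.Chars.linChar lam) := by
  classical
  have hp : p.Prime := Fact.out
  set Ss : Subgroup X := (S : Subgroup X) with hSs
  set N := Subgroup.normalizer (Ss : Set X) with hN
  have hS : IsPGroup p Ss := S.isPGroup'
  set C := K ⊓ Subgroup.centralizer (Ss : Set X) with hC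
  have := Fintype.ofFinite K
  have := Fintype.ofFinite C
  have := Fintype.ofFinite (Ss →* ℂˣ)
  have hKX : ∀ A : Subgroup X, A ≤ Subgroup.normalizer (K : Set X) := fun A => by
    rw [Subgroup.normalizer_eq_top]; exact le_top
  have hCK : C ≤ K := inf_le_left
  have hbot := inf_eq_bot_of_data hpK hS
  rw [Subgroup.eq_bot_iff_forall] at hbot
  have hKN : K ⊓ N ≤ C := by
    rintro k ⟨hk, hkN⟩
    refine ⟨hk, Subgroup.mem_centralizer_iff.2 fun s hs => ?_⟩
    have h1 : k * s * k⁻¹ * s⁻¹ ∈ Ss :=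
      Ss.mul_mem ((Subgroup.mem_normalizer_iff.1 hkN s).1 hs) (Ss.inv_mem hs)
    have h2 : k * s * k⁻¹ * s⁻¹ ∈ K := by
      rw [show k * s * k⁻¹ * s⁻¹ = k * (s * k⁻¹ * s⁻¹) by group]
      exact K.mul_mem hk (‹K.Normal›.conj_mem _ (K.inv_mem hk) s)
    have h3 := hbot _ ⟨h2, h1⟩
    rw [mul_inv_eq_one, mul_inv_eq_iff_eq_mul] at h3
    exact h3.symm
  have hCN : C ≤ N := fun c hc => Subgroup.mem_normalizer_iff.2 fun g => by
    have hcc := Subgroup.mem_centralizer_iff.1 hc.2
    constructor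
    · intro hg
      rw [← hcc g hg, mul_inv_cancel_right]
      exact hg
    · intro hg
      have h1 := hcc _ hg
      have h2 : c * g * c⁻¹ = g := by
        have h3 : g = c⁻¹ * (c * g * c⁻¹ * c) := by group
        rw [h1, inv_mul_cancel_left] at h3
        exact h3.symm
      rwa [h2] at hg
  -- a complement of `S` in `N`
  have hSN : Ss ≤ N := Ss.le_normalizer
  haveI hSnorm : (Ss.subgroupOf N).Normal := Subgroup.normal_in_normalizer
  have hidx : ¬ p ∣ Ss.relIndex N := fun h =>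
    S.not_dvd_index' (Subgroup.index_ne_zero_of_finite)
      (h.trans (Subgroup.relIndex_dvd_index_of_le hSN))
  obtain ⟨n, hn⟩ := IsPGroup.iff_card.1 hS
  have hcardS : Nat.card (Ss.subgroupOf N) = p ^ n := by
    rw [Nat.card_congr (Subgroup.subgroupOfEquivOfLe hSN).toEquiv, hn]
  have hcop : Nat.Coprime (Nat.card (Ss.subgroupOf N)) (Ss.subgroupOf N).index := by
    rw [hcardS]
    exact (hp.coprime_iff_not_dvd.2 hidx).pow_left n
  obtain ⟨H', hH'⟩ := Subgroup.exists_right_complement'_of_coprime hcop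
  set H : Subgroup X := H'.map N.subtype with hH
  have hHN : H ≤ N := by rintro _ ⟨x, -, rfl⟩; exact x.2
  have hcardH : Nat.card H = Ss.relIndex N := by
    rw [hH, Subgroup.card_map_of_injective N.subtype_injective]
    exact Subgroup.IsComplement'.index_eq_card hH'.symm |>.symm
  have hpH : ¬ p ∣ Nat.card H := hcardH ▸ hidx
  have hNSH : N = Ss ⊔ H := by
    have h1 := congrArg (Subgroup.map N.subtype) hH'.sup_eq_top
    rw [Subgroup.map_sup, Subgroup.subgroupOf_map_subtype, inf_eq_left.2 hSN,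
      ← MonoidHom.range_eq_map, Subgroup.range_subtype, ← hH] at h1
    exact h1.symm
  have hCH : C ≤ H := by
    have hHC : H ≤ Subgroup.normalizer (C : Set X) :=
      CfsgLib.Coprime.le_normalizer_inf' (hKX H) (CfsgLib.Coprime.le_normalizer_centralizer hHN)
    have h1 : Nat.card (C ⊔ H : Subgroup X) ∣ Nat.card C * Nat.card H := card_sup_dvd hHC
    have h2 : Nat.card (C ⊔ H : Subgroup X) ∣ Nat.card N := Subgroup.card_dvd_of_le (sup_le hCN hHN)
    have h3 : Nat.card N = p ^ n * Nat.card H := by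
      rw [hcardH, ← hcardS]
      exact (Subgroup.card_mul_index _).symm
    have h4 : Nat.Coprime (Nat.card (C ⊔ H : Subgroup X)) (p ^ n) := by
      refine ((hp.coprime_iff_not_dvd.2 fun h => ?_).pow_left n).symm
      rcases hp.dvd_mul.1 (h.trans h1) with h5 | h5
      · exact hpK (h5.trans (Subgroup.card_dvd_of_le hCK))
      · exact hpH h5
    have h5 : Nat.card (C ⊔ H : Subgroup X) ∣ Nat.card H := h4.dvd_of_dvd_mul_left (h3 ▸ h2)
    have h6 : C ⊔ H = H := (Subgroup.eq_of_le_of_card_ge le_sup_right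
      (Nat.le_of_dvd Nat.card_pos h5)).symm
    exact h6 ▸ le_sup_left
  -- Frattini
  set M := K ⊔ Ss with hMdef
  haveI := hM
  have hSM : Ss ≤ M := le_sup_right
  have hfrat : N ⊔ M = ⊤ := by
    have h := Sylow.normalizer_sup_eq_top (S.subtype hSM)
    rwa [show ((S.subtype hSM : Sylow p M) : Subgroup M).map M.subtype = Ss from by
      rw [Sylow.coe_subtype, Subgroup.subgroupOf_map_subtype, inf_eq_left.2 hSM]] at h
  have hY : (⊤ : Subgroup X) = M ⊔ H := by
    refine (eq_top_iff.2 ?_).symm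
    rw [← hfrat, hNSH]
    exact sup_le (sup_le (hSM.trans le_sup_left) le_sup_right) le_sup_left
  -- decomposition of central elements
  have hZ : ∀ z ∈ Z, ∃ k ∈ K ⊓ Z, ∃ s ∈ Ss ⊓ Z, k * s = z := by
    intro z hz
    have hz' : z ∈ ((K ⊔ Ss : Subgroup X) : Set X) := hZM hz
    rw [Subgroup.coe_mul_of_right_le_normalizer_left K Ss (hKX _)] at hz'
    obtain ⟨k, hk, s, hs, e⟩ := hz'
    obtain ⟨i, hi⟩ := hS ⟨s, hs⟩
    have hzc := Subgroup.mem_center_iff.1 (hZc hz)
    have hks : k * s = s * k := by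
      have h1 := hzc k
      rw [← e] at h1
      have h2 : k * (k * s) = k * (s * k) := by rw [h1, mul_assoc]
      exact mul_left_cancel h2
    have hsi : s ^ p ^ i = 1 := congrArg Subtype.val hi
    have hki : k ^ Nat.card K = 1 := congrArg Subtype.val (pow_card_eq_one' (x := (⟨k, hk⟩ : K)))
    obtain ⟨j, hj⟩ := CfsgLib.Coprime.exists_mul_modEq_one (n := Nat.card K) (k := p ^ i)
      (((hp.coprime_iff_not_dvd.2 hpK).pow_left i).symm)
    have hsz : z ^ (j * Nat.card K) = s := by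
      rw [← e, (show Commute k s from hks).mul_pow, mul_comm j, pow_mul k, hki, one_pow, one_mul]
      conv_rhs => rw [← pow_one s]
      rw [mul_comm, pow_eq_pow_iff_modEq]
      exact Nat.ModEq.of_dvd (orderOf_dvd_of_pow_eq_one hsi) hj
    have hsZ : s ∈ Z := hsz ▸ Z.pow_mem hz _
    have hkZ : k ∈ Z := by
      have h := Z.mul_mem hz (Z.inv_mem hsZ)
      rw [← e] at h
      simpa using h
    exact ⟨k, ⟨hk, hkZ⟩, s, ⟨hs, hsZ⟩, e⟩
  have hidxX : ¬ p ∣ Ss.relIndex ⊤ := by
    rw [Subgroup.relIndex_top_right]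
    exact S.not_dvd_index' (Subgroup.index_ne_zero_of_finite)
  have hNMC : N ≤ Subgroup.normalizer ((C ⊔ Ss : Subgroup X) : Set X) := by
    have hNC : N ≤ Subgroup.normalizer (C : Set X) :=
      CfsgLib.Coprime.le_normalizer_inf' (hKX N) (CfsgLib.Coprime.le_normalizer_centralizer le_rfl)
    exact (le_inf hNC le_rfl).trans (Subgroup.normalizer_inf_normalizer_le_normalizer_sup _ _)
  have hNC : N ≤ Subgroup.normalizer (C : Set X) :=
    CfsgLib.Coprime.le_normalizer_inf' (hKX N) (CfsgLib.Coprime.le_normalizer_centralizer le_rfl)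
  have hpC : ¬ p ∣ Nat.card C := fun h => hpK (h.trans (Subgroup.card_dvd_of_le hCK))
  have hZC : ∀ z ∈ Z, ∃ k ∈ C ⊓ Z, ∃ s ∈ Ss ⊓ Z, k * s = z := by
    intro z hz
    obtain ⟨k, hk, s, hs, e⟩ := hZ z hz
    exact ⟨k, ⟨⟨hk.1, Subgroup.mem_centralizer_iff.2 fun g _ =>
      Subgroup.mem_center_iff.1 (hZc hk.2) g⟩, hk.2⟩, s, hs, e⟩
  have hZMC : Z ≤ C ⊔ Ss := by
    intro z hz
    obtain ⟨k, hk, s, hs, rfl⟩ := hZC z hz
    exact Subgroup.mul_mem_sup hk.1 hs.1
  have f1 := local_formula (Y := ⊤) (K := K) (S := Ss) (M := M) (H := H) le_top (hKX ⊤) hpK hS hidxX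
    rfl le_sup_left hSM (by rw [Subgroup.normalizer_eq_top]) le_top hHN hpH hY hZM hZc hZ lam le_top
  have f2 := local_formula (Y := N) (K := C) (S := Ss) (M := C ⊔ Ss) (H := H) hCN hNC hpC hS hidx
    rfl le_sup_left le_sup_right hNMC hHN hHN hpH
    (le_antisymm (hNSH.le.trans (sup_le (le_sup_right.trans le_sup_left) le_sup_right))
      (sup_le (sup_le hCN hSN) hHN)) hZMC hZc hZC lam hZN
  have e0 : cnt p Z.subtype (CfsgLib.Chars.linChar lam) =
      cnt p (Subgroup.inclusion (le_top : Z ≤ ⊤)) (CfsgLib.Chars.linChar lam) := by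
    rw [cnt_congr p (Subgroup.inclusion (le_top : Z ≤ ⊤)) Z.subtype Subgroup.topEquiv
      (MulEquiv.refl Z) (fun _ => rfl),
      show irrPull (MulEquiv.refl Z).symm (CfsgLib.Chars.linChar lam) = CfsgLib.Chars.linChar lam from
        Subtype.ext (funext fun _ => rfl)]
  apply Nat.cast_injective (R := ℚ)
  rw [e0, f1, f2, top_inf_eq, inf_idem]
  -- the map of parameters
  obtain ⟨g1, g2, g3⟩ := glaub hpK hS (hKX Ss) hC hCK
  have hg : ∀ θ : IrrCharacter K, ∃ ξ : IrrCharacter C, (∀ s ∈ Ss, Fix s θ) →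
      ¬ p ∣ CfsgLib.Glauberman.mult (Subgroup.inclusion hCK) θ ξ := by
    intro θ
    by_cases h : ∀ s ∈ Ss, Fix s θ
    · obtain ⟨ξ, hξ, -⟩ := g1 θ h
      exact ⟨ξ, fun _ => hξ⟩
    · exact ⟨CfsgLib.Chars.oneChar C, fun h' => absurd h' h⟩
  choose gl hgl using hg
  have hne : ∀ θ : IrrCharacter K, (∀ s ∈ Ss, Fix s θ) →
      CfsgLib.Glauberman.mult (Subgroup.inclusion hCK) θ (gl θ) ≠ 0 :=
    fun θ h h0 => hgl θ h (h0 ▸ dvd_zero p)
  have hok : ∀ (θ : IrrCharacter K) (μ : Ss →* ℂˣ), (∀ s ∈ Ss, Fix s θ) →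
      (OkParam lam (θ, μ) ↔ OkParam lam (gl θ, μ)) := by
    intro θ μ hθ
    have hsc : ∀ (k : C) (hk : (k : X) ∈ Z),
        ((θ : K → ℂ) (Subgroup.inclusion hCK k) = (θ : K → ℂ) 1 * (lam ⟨k, hk⟩ : ℂ) ↔
          (gl θ : C → ℂ) k = (gl θ : C → ℂ) 1 * (lam ⟨k, hk⟩ : ℂ)) := by
      intro k hk
      have h := scalar_eq_of_mult hCK θ (gl θ) (hne θ hθ) k (hZc hk)
      rw [mul_comm ((θ : K → ℂ) 1), mul_comm ((gl θ : C → ℂ) 1),
        ← div_eq_iff (CfsgLib.Chars.map_one_ne_zero θ),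
        ← div_eq_iff (CfsgLib.Chars.map_one_ne_zero (gl θ)), h]
    constructor
    · rintro ⟨-, h1, h2⟩
      refine ⟨fun s hs k k' hk => ?_, fun k hk => (hsc k hk).1 (h1 (Subgroup.inclusion hCK k) hk), h2⟩
      have he : (k' : X) = k := by
        rw [hk, Subgroup.mem_centralizer_iff.1 k.2.2 s hs, mul_inv_cancel_right]
      rw [Subtype.ext he]
    · rintro ⟨-, h1, h2⟩
      refine ⟨hθ, fun k hk => ?_, h2⟩
      have hkC : (k : X) ∈ C := ⟨k.2, Subgroup.mem_centralizer_iff.2 fun g _ =>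
        Subgroup.mem_center_iff.1 (hZc hk) g⟩
      exact (hsc ⟨k, hkC⟩ hk).2 (h1 ⟨k, hkC⟩ hk)
  refine Finset.sum_bij (fun q _ => (gl q.1, q.2)) ?_ ?_ ?_ ?_
  · intro q hq
    have hq' := (Finset.mem_filter.1 hq).2
    exact Finset.mem_filter.2 ⟨Finset.mem_univ _, (hok q.1 q.2 hq'.1).1 hq'⟩
  · intro a ha b hb he
    obtain ⟨he1, he2⟩ := Prod.mk.inj he
    refine Prod.ext (g2 _ _ (Finset.mem_filter.1 ha).2.1 (Finset.mem_filter.1 hb).2.1 (gl a.1)
      (hgl _ (Finset.mem_filter.1 ha).2.1) ?_) he2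
    rw [he1]
    exact hgl _ (Finset.mem_filter.1 hb).2.1
  · intro q hq
    obtain ⟨θ, hθ, hθq⟩ := g3 q.1
    obtain ⟨ξ, -, hu⟩ := g1 θ hθ
    have he : gl θ = q.1 := (hu _ (hgl θ hθ)).trans (hu _ hθq).symm
    refine ⟨(θ, q.2), Finset.mem_filter.2 ⟨Finset.mem_univ _, (hok θ q.2 hθ).2 ?_⟩, Prod.ext he rfl⟩
    rw [he]
    exact (Finset.mem_filter.1 hq).2
  · intro q hq
    have hθ := (Finset.mem_filter.1 hq).2.1
    have hfix : ∀ x ∈ N, (Fix x q.1 ↔ Fix x (gl q.1)) := fun x hx =>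
      glaub_fix_iff hpK hS (hKX Ss) hC hCK hθ (hgl _ hθ) (hKX N hx) (hNC hx) hx
    have hps : ∀ W : Subgroup X, W ≤ N → pstab W q.1 q.2 = pstab W (gl q.1) q.2 := by
      intro W hW
      ext x
      rw [mem_pstab (hKX W) hW, mem_pstab (hW.trans hNC) hW]
      exact ⟨fun h => ⟨h.1, (hfix x (hW h.1)).1 h.2.1, h.2.2⟩,
        fun h => ⟨h.1, (hfix x (hW h.1)).2 h.2.1, h.2.2⟩⟩
    rw [hps N le_rfl]
    congr 1
    norm_cast
    have hP : ∀ x, x ∈ pstab H q.1 q.2 ↔ x ∈ H ∧ Fix x q.1 ∧ FixLin x q.2 :=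
      fun x => mem_pstab (hKX H) hHN _ _
    have hPH : pstab H q.1 q.2 ≤ H := fun x hx => ((hP x).1 hx).1
    have hCP : C ≤ pstab H q.1 q.2 := fun c hc => (hP c).2 ⟨hCH hc, fix_of_mem hc.1 _, fun s s' hs => by
      rw [show s' = s from Subtype.ext (by
        rw [hs, ← Subgroup.mem_centralizer_iff.1 hc.2 s s.2, mul_inv_cancel_right])]⟩
    rw [← hps H hHN]
    exact card_over_glauberman hpK hS (hKX Ss) hC hCK hCP
      ((inf_le_inf_left K (hPH.trans hHN)).trans hKN) (hKX _) (hPH.trans hHN)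
      (fun h => hpH (h.trans (Subgroup.card_dvd_of_le hPH))) q.1 (gl q.1) hθ
      (fun x hx => ((hP x).1 hx).2.1) (hgl _ hθ)

end CfsgLib.McKay
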