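import Cfsg.Agent.McKay.ExtEquiv
import Cfsg.Agent.McKay.Cover
import Cfsg.Agent.Chars.Induced.Det

/-!
# The characters of degree prime to `p` of `K S`

`K` is a normal `p'`-subgroup and `S` a `p`-group. Such a character is given by its restriction `θ`
to `K` and by the linear character `μ` of `S` whose `θ(1)`-th power is its determinant on `S`.
-/

set_option autoImplicit false

namespace CfsgLib.McKay

open Cfsg CfsgLib.Glauberman CfsgLib.Chars.Induced

universe u

variable {X : Type u} [Group X]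

/-- `η` has parameters `θ`, `μ`. -/
def Param {K S M : Subgroup X} (hKM : K ≤ M) (hSM : S ≤ M) (η : IrrCharacter M) (θ : IrrCharacter K)
    (μ : S →* ℂˣ) : Prop :=
  IsExt hKM θ η ∧ ∀ s : S, (μ s) ^ Cfsg.charDegree (θ : K → ℂ) =
    detHom (CfsgLib.Chars.isCharacter_coe η) (Subgroup.inclusion hSM s)

/-- `μ` is invariant under `x`. -/
def FixLin {S : Subgroup X} (x : X) (μ : S →* ℂˣ) : Prop :=
  ∀ s s' : S, (s' : X) = x * s * x⁻¹ → μ s' = μ s

/-- Determinants and pull-backs. -/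
theorem detHom_irrPull {A B : Type u} [Group A] [Group B] [Finite A] [Finite B] (σ : A ≃* B) (χ : IrrCharacter B) (a : A) :
    detHom (CfsgLib.Chars.isCharacter_coe (irrPull σ χ)) a =
      detHom (CfsgLib.Chars.isCharacter_coe χ) (σ a) := by
  obtain ⟨n, ρ, hρ, hχ⟩ := id χ.2
  refine Units.ext ?_
  rw [detHom_apply, detHom_apply, detChar_eq_of_rep χ.2 ρ hχ,
    detChar_eq_of_rep (irrPull σ χ).2 (ρ.comp σ.toMonoidHom) (funext fun y => by
      show ρ.character (σ y) = _
      rw [hχ]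
      rfl)]
  rfl

theorem charDegree_eq_of_isExt {K M : Subgroup X} {hKM : K ≤ M} {θ : IrrCharacter K}
    {η : IrrCharacter M} (h : IsExt hKM θ η) :
    Cfsg.charDegree (η : M → ℂ) = Cfsg.charDegree (θ : K → ℂ) := by
  apply Nat.cast_injective (R := ℂ)
  rw [CfsgLib.Chars.coe_charDegree, CfsgLib.Chars.coe_charDegree, ← h 1, map_one]

variable [Fintype X]

/-- The degree of an irreducible character is prime to `p` when the order is. -/
theorem not_dvd_charDegree {p : ℕ} {K : Subgroup X} (hpK : ¬ p ∣ Nat.card K) (θ : IrrCharacter K) :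
    ¬ p ∣ Cfsg.charDegree (θ : K → ℂ) := by
  classical
  have := Fintype.ofFinite K
  exact fun h => hpK (h.trans (CfsgLib.Chars.charDegree_dvd_card θ))

section Data

variable {p : ℕ} [hp : Fact p.Prime] {K S M : Subgroup X}
  (hpK : ¬ p ∣ Nat.card K) (hS : IsPGroup p S) (hSK : S ≤ Subgroup.normalizer (K : Set X))
  (hM : M = K ⊔ S) (hKM : K ≤ M) (hSM : S ≤ M)

include hSK hM in
theorem M_le_normalizer : M ≤ Subgroup.normalizer (K : Set X) :=
  hM ▸ sup_le K.le_normalizer hSK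

include hpK hS in
theorem inf_eq_bot_of_data : K ⊓ S = ⊥ := by
  rw [Subgroup.eq_bot_iff_forall]
  rintro x ⟨hxK, hxS⟩
  obtain ⟨e, he⟩ := hS ⟨x, hxS⟩
  have h1 : x ^ p ^ e = 1 := congrArg Subtype.val he
  have h2 : x ^ Nat.card K = 1 :=
    congrArg Subtype.val (pow_card_eq_one' (x := (⟨x, hxK⟩ : K)))
  have h3 := pow_gcd_eq_one.2 ⟨h1, h2⟩
  rwa [((hp.out.coprime_iff_not_dvd.2 hpK).pow_left e), pow_one] at h3

include hS hSK hM in
theorem exists_index_pow : ∃ e : ℕ, K.relIndex M = p ^ e := by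
  obtain ⟨n, hn⟩ := IsPGroup.iff_card.1 hS
  have h1 : K.relIndex M ∣ p ^ n := by
    rw [hM, ← hn]
    have h2 : K.relIndex (K ⊔ S) = K.relIndex S := by
      have hKN : K ≤ Subgroup.normalizer (K : Set X) := K.le_normalizer
      rw [← Subgroup.relIndex_subgroupOf (sup_le hKN hSK), ← Subgroup.relIndex_subgroupOf hSK,
        Subgroup.subgroupOf_sup hKN hSK, sup_comm, Subgroup.relIndex_sup_right]
    rw [h2]
    exact Subgroup.index_dvd_card _
  obtain ⟨e, -, he⟩ := (Nat.dvd_prime_pow hp.out).1 h1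
  exact ⟨e, he⟩

include hS in
/-- Roots of linear characters of `S` of order prime to `p` are unique. -/
theorem lin_eq_of_pow_eq {d : ℕ} (hd : ¬ p ∣ d) (μ μ' : S →* ℂˣ) (h : ∀ s, μ s ^ d = μ' s ^ d) :
    μ = μ' := by
  refine MonoidHom.ext fun s => ?_
  obtain ⟨e, he⟩ := hS s
  have h1 : (μ s / μ' s) ^ d = 1 := by rw [div_pow, h s, div_self']
  have h2 : (μ s / μ' s) ^ p ^ e = 1 := by
    rw [div_pow, ← map_pow, ← map_pow, he, map_one, map_one, div_self']
  have h3 := pow_gcd_eq_one.2 ⟨h2, h1⟩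
  rw [((hp.out.coprime_iff_not_dvd.2 hd).pow_left e), pow_one] at h3
  exact div_eq_one.1 h3

include hpK hS hSK hM in
/-- A character of degree prime to `p` restricts irreducibly and has parameters. -/
theorem exists_param (η : IrrCharacter M) (hη : ¬ p ∣ Cfsg.charDegree (η : M → ℂ)) :
    ∃ θ : IrrCharacter K, ∃ μ : S →* ℂˣ, (∀ s ∈ S, Fix s θ) ∧ Param hKM hSM η θ μ := by
  classical
  have := Fintype.ofFinite K
  have := Fintype.ofFinite M
  have := Fintype.ofFinite (K.subgroupOf M)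
  haveI : (K.subgroupOf M).Normal :=
    Subgroup.normal_subgroupOf_of_le_normalizer (M_le_normalizer hSK hM)
  obtain ⟨θ, hθ⟩ := exists_under (Subgroup.inclusion hKM) η
  have hθ' : CfsgLib.Glauberman.mult (K.subgroupOf M).subtype η (toSub hKM θ) ≠ 0 := by
    rwa [mult_toSub]
  have hdeg := exists_degree_eq η (toSub hKM θ) hθ'
  rw [hdeg] at hη
  obtain ⟨e, he⟩ := exists_index_pow hS hSK hM
  have hnp : ∀ m, m ∣ p ^ e → ¬ p ∣ m → m = 1 := by
    intro m hm hpm
    obtain ⟨i, -, rfl⟩ := (Nat.dvd_prime_pow hp.out).1 hm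
    cases i with
    | zero => rfl
    | succ i => exact absurd (dvd_pow_self p i.succ_ne_zero) hpm
  have hI : inertia (K.subgroupOf M) (toSub hKM θ : K.subgroupOf M → ℂ) = ⊤ := by
    rw [← Subgroup.index_eq_one]
    refine hnp _ ?_ fun h => hη (dvd_mul_of_dvd_left (dvd_mul_of_dvd_right h _) _)
    rw [← he]
    exact Subgroup.index_dvd_of_le (le_inertia (CfsgLib.Chars.isClassFunction_coe _))
  have hinv : ∀ m : M, conjFun (K.subgroupOf M) m (toSub hKM θ : K.subgroupOf M → ℂ) = toSub hKM θ :=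
    fun m => mem_inertia.1 (hI ▸ Subgroup.mem_top m)
  have hmm : CfsgLib.Chars.Induced.mult (fun n : K.subgroupOf M => (η : M → ℂ) n) (toSub hKM θ) =
      CfsgLib.Glauberman.mult (K.subgroupOf M).subtype η (toSub hKM θ) := by
    have h3 := NormalSylow.mult_eq_induced (K.subgroupOf M).subtype η (toSub hKM θ)
    simpa only [Subgroup.coe_subtype] using h3
  have hne := hθ'
  rw [← hmm] at hne
  have h1 : CfsgLib.Chars.Induced.mult
      (fun n : K.subgroupOf M => (η : M → ℂ) n) (toSub hKM θ) = 1 := by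
    refine hnp _ ?_ fun h => hη (dvd_mul_of_dvd_left (dvd_mul_of_dvd_left (hmm ▸ h) _) _)
    rw [← he]
    exact mult_dvd_index_of_invariant (toSub hKM θ) hinv η hne
  have hext : IsExt hKM θ η := by
    intro k
    have h := congrFun (restrict_eq_of_invariant η (toSub hKM θ) hinv hne) ⟨Subgroup.inclusion hKM k, k.2⟩
    rw [h1, Nat.cast_one, one_smul] at h
    exact h
  set d := Cfsg.charDegree (θ : K → ℂ) with hd
  have hdp : ¬ p ∣ d := not_dvd_charDegree hpK θ
  obtain ⟨n, hn⟩ := IsPGroup.iff_card.1 hS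
  have hcop : Nat.Coprime d (Nat.card S) := by
    rw [hn]; exact ((hp.out.coprime_iff_not_dvd.2 hdp).pow_left n).symm
  obtain ⟨k, hk⟩ := CfsgLib.Coprime.exists_mul_modEq_one hcop
  refine ⟨θ, ((detHom (CfsgLib.Chars.isCharacter_coe η)).comp (Subgroup.inclusion hSM)) ^ k, ?_, hext,
    fun s => ?_⟩
  · intro s hs a a' ha
    rw [← hext, ← hext, show Subgroup.inclusion hKM a' =
      ⟨s, hSM hs⟩ * Subgroup.inclusion hKM a * (⟨s, hSM hs⟩ : M)⁻¹ from Subtype.ext ha]
    exact CfsgLib.Chars.isClassFunction_coe η _ _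
  · rw [MonoidHom.pow_apply, ← pow_mul, MonoidHom.comp_apply, ← map_pow, ← map_pow]
    congr 2
    have hord : orderOf s ∣ Nat.card S := orderOf_dvd_natCard s
    rw [← pow_one s, ← pow_mul, one_mul, pow_eq_pow_iff_modEq]
    exact Nat.ModEq.of_dvd hord hk

include hpK hS hSK hM in
/-- The parameters determine the character. -/
theorem param_unique {η η' : IrrCharacter M} {θ : IrrCharacter K} {μ : S →* ℂˣ}
    (h : Param hKM hSM η θ μ) (h' : Param hKM hSM η' θ μ) : η = η' := by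
  classical
  haveI : (K.subgroupOf M).Normal :=
    Subgroup.normal_subgroupOf_of_le_normalizer (M_le_normalizer hSK hM)
  set d := Cfsg.charDegree (θ : K → ℂ) with hd
  obtain ⟨e, he⟩ := exists_index_pow hS hSK hM
  refine extension_unique (toSub hKM θ) (d := d) ?_ ?_ η η' (fun n => h.1 ⟨(n : M), n.2⟩)
    (fun n => h'.1 ⟨(n : M), n.2⟩) ?_
  · rw [toSub, irrPull_apply, map_one, hd, CfsgLib.Chars.coe_charDegree]
  · change Nat.Coprime (K.relIndex M) d
    rw [he]
    exact (hp.out.coprime_iff_not_dvd.2 (not_dvd_charDegree hpK θ)).pow_left e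
  · funext m
    obtain ⟨k, hk, s, hs, hks⟩ : ∃ k ∈ K, ∃ s ∈ S, k * s = (m : X) := by
      have hm : (m : X) ∈ ((K ⊔ S : Subgroup X) : Set X) := hM ▸ m.2
      rw [Subgroup.coe_mul_of_right_le_normalizer_left K S hSK] at hm
      obtain ⟨k, hk, s, hs, e⟩ := hm
      exact ⟨k, hk, s, hs, e⟩
    have hm : m = Subgroup.inclusion hKM ⟨k, hk⟩ * Subgroup.inclusion hSM ⟨s, hs⟩ :=
      Subtype.ext hks.symm
    rw [← detHom_apply (CfsgLib.Chars.isCharacter_coe η),
      ← detHom_apply (CfsgLib.Chars.isCharacter_coe η'), hm, map_mul, map_mul, ← h.2, ← h'.2]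
    congr 2
    refine Units.ext ?_
    rw [detHom_apply, detHom_apply,
      show (Subgroup.inclusion hKM ⟨k, hk⟩ : M) =
        ((⟨Subgroup.inclusion hKM ⟨k, hk⟩, hk⟩ : K.subgroupOf M) : M) from rfl,
      ← detChar_restrict η.2 (toSub hKM θ).2 (fun n => h.1 ⟨(n : M), n.2⟩),
      ← detChar_restrict η'.2 (toSub hKM θ).2 (fun n => h'.1 ⟨(n : M), n.2⟩)]

include hpK hS hSK hM in
/-- Every pair of parameters occurs. -/
theorem exists_of_param (θ : IrrCharacter K) (hθ : ∀ s ∈ S, Fix s θ) (μ : S →* ℂˣ) :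
    ∃ η : IrrCharacter M, Param hKM hSM η θ μ := by
  classical
  have := Fintype.ofFinite K
  have := Fintype.ofFinite M
  haveI : (K.subgroupOf M).Normal :=
    Subgroup.normal_subgroupOf_of_le_normalizer (M_le_normalizer hSK hM)
  have hmemM : ∀ m : M, ∃ k ∈ K, ∃ s ∈ S, k * s = (m : X) := by
    intro m
    have hm : (m : X) ∈ ((K ⊔ S : Subgroup X) : Set X) := hM ▸ m.2
    rw [Subgroup.coe_mul_of_right_le_normalizer_left K S hSK] at hm
    obtain ⟨k, hk, s, hs, e⟩ := hm
    exact ⟨k, hk, s, hs, e⟩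
  have hinv : ∀ m : M, conjFun (K.subgroupOf M) m (toSub hKM θ : K.subgroupOf M → ℂ) = toSub hKM θ := by
    intro m
    funext n
    rw [conjFun_apply, toSub, irrPull_apply, irrPull_apply]
    obtain ⟨k, hk, s, hs, e⟩ := hmemM m⁻¹
    refine fix_mul θ (hSK hs) (fix_of_mem hk θ) (hθ s hs) _ _ ?_
    rw [e]
    simp
  set d := Cfsg.charDegree (θ : K → ℂ) with hd
  have hd1 : (toSub hKM θ : K.subgroupOf M → ℂ) 1 = (d : ℂ) := by
    rw [toSub, irrPull_apply, map_one, hd, CfsgLib.Chars.coe_charDegree]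
  obtain ⟨e, he⟩ := exists_index_pow hS hSK hM
  have hdet : ¬ p ∣ detOrder (toSub hKM θ : K.subgroupOf M → ℂ) := fun h => hpK (by
    have h1 := h.trans (detOrder_dvd_card (CfsgLib.Chars.isCharacter_coe (toSub (H := M) hKM θ)))
    rwa [Nat.card_congr (Subgroup.subgroupOfEquivOfLe hKM).toEquiv] at h1)
  obtain ⟨φ, hφ, hφd, -⟩ := exists_canonical_extension (toSub hKM θ) hinv hd1 (by
    change Nat.Coprime (K.relIndex M) _
    rw [he]
    exact (hp.out.coprime_iff_not_dvd.2 fun h => (hp.out.dvd_mul.1 h).elim hdet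
      (not_dvd_charDegree hpK θ)).pow_left e)
  -- the projection to `S`
  let g : S →* M ⧸ K.subgroupOf M :=
    (QuotientGroup.mk' (K.subgroupOf M)).comp (Subgroup.inclusion hSM)
  have hginj : Function.Injective g := by
    rw [injective_iff_map_eq_one]
    intro s hs
    rw [MonoidHom.comp_apply, QuotientGroup.mk'_apply, QuotientGroup.eq_one_iff,
      Subgroup.mem_subgroupOf] at hs
    have h := inf_eq_bot_of_data hpK hS
    rw [Subgroup.eq_bot_iff_forall] at h
    exact Subtype.ext (h _ ⟨hs, s.2⟩)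
  have hgsurj : Function.Surjective g := by
    intro q
    obtain ⟨m, rfl⟩ := QuotientGroup.mk_surjective q
    obtain ⟨k, hk, s, hs, e⟩ := hmemM m
    refine ⟨⟨s, hs⟩, ?_⟩
    show ((Subgroup.inclusion hSM ⟨s, hs⟩ : M) : M ⧸ K.subgroupOf M) = (m : M ⧸ K.subgroupOf M)
    rw [show m = Subgroup.inclusion hKM ⟨k, hk⟩ * Subgroup.inclusion hSM ⟨s, hs⟩ from Subtype.ext e.symm,
      QuotientGroup.mk_mul, (QuotientGroup.eq_one_iff (Subgroup.inclusion hKM ⟨k, hk⟩)).2
        (Subgroup.mem_subgroupOf.2 hk), one_mul]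
  let eg := MulEquiv.ofBijective g ⟨hginj, hgsurj⟩
  let l : M →* ℂˣ := (μ.comp eg.symm.toMonoidHom).comp (QuotientGroup.mk' (K.subgroupOf M))
  have hlS : ∀ s : S, l (Subgroup.inclusion hSM s) = μ s := fun s => by
    show μ (eg.symm (eg s)) = μ s
    rw [eg.symm_apply_apply]
  have hlK : ∀ k : K, l (Subgroup.inclusion hKM k) = 1 := fun k => by
    show μ (eg.symm ((Subgroup.inclusion hKM k : M) : M ⧸ K.subgroupOf M)) = 1
    rw [(QuotientGroup.eq_one_iff (Subgroup.inclusion hKM k)).2 (Subgroup.mem_subgroupOf.2 k.2),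
      map_one, map_one]
  refine ⟨mulLin φ l, fun k => ?_, fun s => ?_⟩
  · rw [mulLin_apply, hlK, Units.val_one, mul_one]
    exact (hφ ⟨Subgroup.inclusion hKM k, k.2⟩).trans (congrArg (θ : K → ℂ) (Subtype.ext rfl))
  · have hφ1 : (φ : M → ℂ) 1 = (d : ℂ) := by
      rw [← hd1, ← OneMemClass.coe_one (K.subgroupOf M), hφ]
    have hdets : detHom (CfsgLib.Chars.isCharacter_coe φ) (Subgroup.inclusion hSM s) = 1 := by
      obtain ⟨i, hi⟩ := hS s
      have h1 : detHom (CfsgLib.Chars.isCharacter_coe φ) (Subgroup.inclusion hSM s) ^ p ^ i = 1 := by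
        rw [← map_pow, ← map_pow, hi, map_one, map_one]
      have h2 : detHom (CfsgLib.Chars.isCharacter_coe φ) (Subgroup.inclusion hSM s) ^
          detOrder (φ : M → ℂ) = 1 := by
        rw [detOrder_eq (CfsgLib.Chars.isCharacter_coe φ), ← MonoidHom.pow_apply, pow_orderOf_eq_one,
          MonoidHom.one_apply]
      have h3 := pow_gcd_eq_one.2 ⟨h1, h2⟩
      rwa [((hp.out.coprime_iff_not_dvd.2 (hφd ▸ hdet)).pow_left i), pow_one] at h3
    refine Units.ext ?_
    rw [detHom_apply, show (mulLin φ l : M → ℂ) = fun x => (l x : ℂ) * (φ : M → ℂ) x from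
        funext fun x => by rw [mulLin_apply, mul_comm],
      detChar_linear_mul φ.2 l hφ1, ← detHom_apply (CfsgLib.Chars.isCharacter_coe φ), hdets,
      Units.val_one, mul_one, hlS, Units.val_pow_eq_pow_val]

include hpK hS hSK hM in
/-- Invariance in parameters. -/
theorem param_fix_iff {η : IrrCharacter M} {θ : IrrCharacter K} {μ : S →* ℂˣ}
    (h : Param hKM hSM η θ μ) {x : X} (hxM : x ∈ Subgroup.normalizer (M : Set X))
    (hxK : x ∈ Subgroup.normalizer (K : Set X)) (hxS : x ∈ Subgroup.normalizer (S : Set X)) :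
    Fix x η ↔ Fix x θ ∧ FixLin x μ := by
  have hK' : ∀ k : K, cj hxM (Subgroup.inclusion hKM k) = Subgroup.inclusion hKM (cj hxK k) :=
    fun k => Subtype.ext rfl
  have hS' : ∀ s : S, cj hxM (Subgroup.inclusion hSM s) = Subgroup.inclusion hSM (cj hxS s) :=
    fun s => Subtype.ext rfl
  constructor
  · intro hf
    refine ⟨fun k k' hk => ?_, ?_⟩
    · rw [show k' = cj hxK k from Subtype.ext hk, ← h.1, ← h.1, ← hK']
      exact hf _ _ rfl
    · intro s s' hs
      have e : μ.comp (cj hxS).toMonoidHom = μ := by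
        refine lin_eq_of_pow_eq hS (not_dvd_charDegree hpK θ) _ _ fun t => ?_
        rw [MonoidHom.comp_apply]
        show μ (cj hxS t) ^ _ = _
        rw [h.2, h.2, ← hS', ← detHom_irrPull]
        refine Units.ext ?_
        rw [detHom_apply, detHom_apply, (fix_iff hxM η).1 hf]
      rw [show s' = cj hxS s from Subtype.ext hs]
      exact DFunLike.congr_fun e s
  · rintro ⟨hθ, hμ⟩
    refine (fix_iff hxM η).2 (param_unique hpK hS hSK hM hKM hSM (θ := θ) (μ := μ) ⟨fun k => ?_,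
      fun s => ?_⟩ h)
    · rw [irrPull_apply, hK', h.1]
      exact hθ k _ rfl
    · rw [detHom_irrPull, hS', ← h.2, hμ s (cj hxS s) rfl]

include hpK hS hM in
/-- Lying over a central character in parameters. -/
theorem param_over_iff {η : IrrCharacter M} {θ : IrrCharacter K} {μ : S →* ℂˣ}
    (h : Param hKM hSM η θ μ) {Z : Subgroup X} [Fintype Z] (hZM : Z ≤ M)
    (hZc : Z ≤ Subgroup.center X)
    (hZ : ∀ z ∈ Z, ∃ k ∈ K ⊓ Z, ∃ s ∈ S ⊓ Z, k * s = z) (lam : Z →* ℂˣ) :
    CfsgLib.Glauberman.mult (Subgroup.inclusion hZM) η (CfsgLib.Chars.linChar lam) ≠ 0 ↔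
      (∀ (k : K) (hk : (k : X) ∈ Z),
        (θ : K → ℂ) k = (θ : K → ℂ) 1 * (lam ⟨k, hk⟩ : ℂ)) ∧
      ∀ (s : S) (hs : (s : X) ∈ Z), μ s = lam ⟨s, hs⟩ := by
  classical
  have := Fintype.ofFinite M
  have := Fintype.ofFinite (Z.subgroupOf M)
  have hZc' : Z.subgroupOf M ≤ Subgroup.center M := fun z hz =>
    Subgroup.mem_center_iff.2 fun g => Subtype.ext (Subgroup.mem_center_iff.1 (hZc hz) g)
  have he : toSub (H := M) hZM (CfsgLib.Chars.linChar lam) =
      CfsgLib.Chars.linChar (lam.comp (Subgroup.subgroupOfEquivOfLe hZM).toMonoidHom) :=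
    Subtype.ext (funext fun z => by simp [toSub])
  rw [← mult_toSub hZM, he, over_central_iff hZc']
  have hd : Cfsg.charDegree (θ : K → ℂ) = Cfsg.charDegree (η : M → ℂ) :=
    (charDegree_eq_of_isExt h.1).symm
  have hone : (η : M → ℂ) 1 = (θ : K → ℂ) 1 := by
    rw [← h.1 1, map_one]
  -- values at central `p`-elements
  have hval : ∀ (g : M) (s : S), (s : X) ∈ Z →
      (η : M → ℂ) (g * Subgroup.inclusion hSM s) = (η : M → ℂ) g * (μ s : ℂ) := by
    intro g s hs
    obtain ⟨n, ρ, hρ, hχ⟩ := id η.2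
    have hc : Subgroup.inclusion hSM s ∈ Subgroup.center M :=
      Subgroup.mem_center_iff.2 fun a => Subtype.ext (Subgroup.mem_center_iff.1 (hZc hs) a)
    obtain ⟨c, hc'⟩ := exists_eq_smul_one_of_commute ρ hρ (ρ (Subgroup.inclusion hSM s)) fun a => by
      rw [← map_mul, ← map_mul, Subgroup.mem_center_iff.1 hc a]
    have hn : (n : ℂ) = (η : M → ℂ) 1 := by rw [← hχ]; simp
    have hdet : (detHom (CfsgLib.Chars.isCharacter_coe η) (Subgroup.inclusion hSM s) : ℂ) = c ^ n := by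
      rw [detHom_apply, detChar_eq_of_rep η.2 ρ hχ, hc', LinearMap.det_smul, map_one, mul_one,
        Module.finrank_fin_fun]
    have hn' : n = Cfsg.charDegree (θ : K → ℂ) := by
      apply Nat.cast_injective (R := ℂ)
      rw [hn, hd, CfsgLib.Chars.coe_charDegree]
    obtain ⟨i, hi⟩ := hS s
    have hnpos : 0 < n := hn' ▸ CfsgLib.Chars.charDegree_pos θ
    have hcpow : c ^ p ^ i = 1 := by
      have h1 : ρ (Subgroup.inclusion hSM s) ^ p ^ i = 1 := by
        rw [← map_pow, ← map_pow, hi, map_one, map_one]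
      rw [hc', smul_pow, one_pow] at h1
      have h2 := congrArg (fun f : Module.End ℂ (Fin n → ℂ) => f (fun _ => 1) ⟨0, hnpos⟩) h1
      simpa using h2
    have hc0 : c ≠ 0 := fun h0 => by
      rw [h0, zero_pow (pow_ne_zero i hp.out.ne_zero)] at hcpow
      exact zero_ne_one hcpow
    have hμc : (μ s : ℂ) = c := by
      have h1 : (μ s / Units.mk0 c hc0) ^ n = 1 := by
        rw [div_pow, div_eq_one]
        refine Units.ext ?_
        rw [hn', h.2 s, Units.val_pow_eq_pow_val, Units.val_mk0, ← hn', hdet]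
      have h2 : (μ s / Units.mk0 c hc0) ^ p ^ i = 1 := by
        rw [div_pow, ← map_pow, hi, map_one, one_div, inv_eq_one]
        exact Units.ext (by simpa using hcpow)
      have h3 := pow_gcd_eq_one.2 ⟨h2, h1⟩
      rw [((hp.out.coprime_iff_not_dvd.2 (hn' ▸ not_dvd_charDegree hpK θ)).pow_left i), pow_one,
        div_eq_one] at h3
      rw [h3, Units.val_mk0]
    rw [← hχ, hμc]
    show LinearMap.trace ℂ _ (ρ (g * Subgroup.inclusion hSM s)) = LinearMap.trace ℂ _ (ρ g) * c
    rw [map_mul, hc', mul_smul_comm, mul_one, map_smul, smul_eq_mul, mul_comm]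
  constructor
  · intro hz
    refine ⟨fun k hk => ?_, fun s hs => ?_⟩
    · have h1 := hz ⟨Subgroup.inclusion hKM k, hk⟩
      rw [h.1, hone] at h1
      exact h1
    · have h1 := hz ⟨Subgroup.inclusion hSM s, hs⟩
      have h2 := hval 1 s hs
      rw [one_mul] at h2
      rw [h2] at h1
      exact Units.ext (mul_left_cancel₀ (CfsgLib.Chars.map_one_ne_zero η) h1)
  · rintro ⟨hk', hs'⟩ ⟨z, hz⟩
    obtain ⟨k, ⟨hkK, hkZ⟩, s, ⟨hsS, hsZ⟩, e⟩ := hZ (z : X) hz
    show (η : M → ℂ) z = _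
    refine (congrArg (η : M → ℂ) (show z = Subgroup.inclusion hKM ⟨k, hkK⟩ *
      Subgroup.inclusion hSM ⟨s, hsS⟩ from Subtype.ext e.symm)).trans ?_
    rw [hval _ ⟨s, hsS⟩ hsZ, h.1, hk' ⟨k, hkK⟩ hkZ, hs' ⟨s, hsS⟩ hsZ, hone, mul_assoc,
      ← Units.val_mul, ← map_mul]
    exact congrArg (fun w : Z => (θ : K → ℂ) 1 * (lam w : ℂ)) (Subtype.ext e)

end Data

end CfsgLib.McKay
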