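import Cfsg.Agent.McKay.Basic

/-!
# Restriction to a supplement

If `η` is an invariant character of a normal subgroup `M` of `Y = M D` and restricts irreducibly to
`θ` on `M ∩ D`, restriction is a bijection from the characters of `Y` over `η` to those of `D`
over `θ`.
-/

set_option autoImplicit false

namespace CfsgLib.McKay

open Cfsg CfsgLib.Glauberman CfsgLib.Chars.Induced
open scoped ComplexConjugate

universe u

variable {G : Type u} [Group G] [Fintype G]

/-- Restriction gives as many characters over `η` as over its restriction. -/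
theorem card_over_supplement {M D K : Subgroup G} [M.Normal] [Fintype M] [Fintype D] [Fintype K]
    (hsup : M ⊔ D = ⊤) (hK : K = M ⊓ D) (hKM : K ≤ M) (hKD : K ≤ D) (η : IrrCharacter M)
    (θ : IrrCharacter K) (hη : ∀ g : G, conjIrr g η = η)
    (hres : ∀ k : K, (η : M → ℂ) (Subgroup.inclusion hKM k) = (θ : K → ℂ) k) :
    Nat.card {χ : IrrCharacter G // CfsgLib.Glauberman.mult M.subtype χ η ≠ 0} =
      Nat.card {ψ : IrrCharacter D // CfsgLib.Glauberman.mult (Subgroup.inclusion hKD) ψ θ ≠ 0} := by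
  classical
  let e : IrrCharacter G → ℕ := fun χ => CfsgLib.Glauberman.mult M.subtype χ η
  let f : IrrCharacter D → ℕ := fun ψ => CfsgLib.Glauberman.mult (Subgroup.inclusion hKD) ψ θ
  let a : IrrCharacter G → IrrCharacter D → ℕ := fun χ ψ => CfsgLib.Glauberman.mult D.subtype χ ψ
  -- only `θ` below a character over `η`
  have hMK : ∀ β : IrrCharacter K, CfsgLib.Glauberman.mult (Subgroup.inclusion hKM) η β =
      if β = θ then 1 else 0 := by
    intro β
    apply mult_eq_of_classInner_eq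
    rw [show (fun k => (η : M → ℂ) (Subgroup.inclusion hKM k)) = (θ : K → ℂ) from funext hres]
    by_cases h : β = θ
    · rw [if_pos h, h, CfsgLib.Chars.Induced.classInner_irr_self, Nat.cast_one]
    · rw [if_neg h, CfsgLib.Chars.Induced.classInner_irr_of_ne (Ne.symm h), Nat.cast_zero]
  have hover : ∀ χ, e χ ≠ 0 → ∀ β, CfsgLib.Glauberman.mult M.subtype χ β ≠ 0 → β = η := by
    intro χ hχ β hβ
    obtain ⟨g, hg⟩ := NormalSylow.mem_conjOrbit χ η β hχ hβ
    exact hg ▸ hη g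
  have hrow : ∀ χ, e χ ≠ 0 → ∑ ψ, a χ ψ * f ψ = e χ := by
    intro χ hχ
    have h1 : CfsgLib.Glauberman.mult (D.subtype.comp (Subgroup.inclusion hKD)) χ θ =
        CfsgLib.Glauberman.mult (M.subtype.comp (Subgroup.inclusion hKM)) χ θ := rfl
    rw [mult_comp, mult_comp] at h1
    refine h1.trans (Finset.sum_eq_single η (fun β _ hne => ?_) (fun h => absurd (Finset.mem_univ _) h)
      |>.trans ?_)
    · rw [not_not.1 fun h => hne (hover χ hχ β h), zero_mul]
    · rw [hMK, if_pos rfl, mul_one]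
  have hfa : ∀ χ, e χ ≠ 0 → ∀ ψ, a χ ψ ≠ 0 → f ψ ≠ 0 := by
    intro χ hχ ψ hψ
    obtain ⟨β, hβ⟩ := exists_under (Subgroup.inclusion hKD) ψ
    have h1 : CfsgLib.Glauberman.mult (M.subtype.comp (Subgroup.inclusion hKM)) χ β ≠ 0 :=
      over_trans D.subtype (Subgroup.inclusion hKD) χ ψ β hψ hβ
    obtain ⟨γ, hγ, hγβ⟩ := exists_between M.subtype (Subgroup.inclusion hKM) χ β h1
    rw [hover χ hχ γ hγ, hMK] at hγβ
    have hβθ : β = θ := by by_contra h; exact hγβ (if_neg h)
    subst hβθ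
    exact hβ
  have hcard : (Nat.card G : ℂ) * Nat.card K = Nat.card M * Nat.card D := by
    have h1 := Subgroup.card_mul_index M
    have h2 : M.index = M.relIndex D := by
      rw [← Subgroup.relIndex_top_right, ← hsup, sup_comm, Subgroup.relIndex_sup_right]
    have h3 : Nat.card (M.subgroupOf D) * M.relIndex D = Nat.card D := Subgroup.card_mul_index _
    have h4 : Nat.card (M.subgroupOf D) = Nat.card K := by
      rw [← Subgroup.inf_subgroupOf_right, ← hK]
      exact Nat.card_congr (Subgroup.subgroupOfEquivOfLe hKD).toEquiv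
    rw [h4, ← h2] at h3
    rw [← h1, ← h3]
    push_cast
    ring
  have hcol : ∀ ψ, ∑ χ, a χ ψ * e χ = f ψ := by
    intro ψ
    apply Nat.cast_injective (R := ℂ)
    have hind := CfsgLib.Chars.eq_sum_classInner_mul (indFun_isClassFunction D (ψ : D → ℂ))
    have hval : ∀ m : M, indFun D (ψ : D → ℂ) m = ∑ χ, (a χ ψ : ℂ) * (χ : G → ℂ) m := by
      intro m
      rw [hind]
      refine Finset.sum_congr rfl fun χ _ => ?_
      rw [classInner_indFun D (ψ : D → ℂ) (CfsgLib.Chars.isClassFunction_coe χ)]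
      congr 1
      rw [classInner_comm_conj]
      show conj (classInner (fun d : D => (χ : G → ℂ) (D.subtype d)) (ψ : D → ℂ)) = _
      rw [CfsgLib.Glauberman.classInner_eq_mult, map_natCast]
    have hL : classInner (fun m : M => indFun D (ψ : D → ℂ) m) (η : M → ℂ) =
        ((∑ χ, a χ ψ * e χ : ℕ) : ℂ) := by
      rw [show (fun m : M => indFun D (ψ : D → ℂ) m) =
        ∑ χ, (a χ ψ : ℂ) • fun m : M => (χ : G → ℂ) (M.subtype m) from funext fun m => by
          rw [hval, Finset.sum_apply]; rfl, classInner_sum_left]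
      push_cast
      refine Finset.sum_congr rfl fun χ _ => ?_
      rw [classInner_smul_left, CfsgLib.Glauberman.classInner_eq_mult]
    rw [← hL]
    simp only [classInner, indFun]
    have hinner : ∀ y : G, ∑ m : M, extendByZero D (ψ : D → ℂ) (y⁻¹ * m * y) * conj ((η : M → ℂ) m) =
        ∑ k : K, (ψ : D → ℂ) (Subgroup.inclusion hKD k) * conj ((θ : K → ℂ) k) := by
      intro y
      rw [← Fintype.sum_equiv (MulAut.conjNormal y : MulAut M).toEquiv
        (fun m : M => extendByZero D (ψ : D → ℂ) (m : G) * conj ((η : M → ℂ) m)) _ (fun m => by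
          show _ = extendByZero D (ψ : D → ℂ) (y⁻¹ * ((MulAut.conjNormal y m : M) : G) * y) *
            conj ((η : M → ℂ) (MulAut.conjNormal y m))
          rw [MulAut.conjNormal_apply, show y⁻¹ * (y * (m : G) * y⁻¹) * y = m by group]
          congr 2
          have h := congrFun (congrArg Subtype.val (hη y⁻¹)) m
          rw [conjIrr_coe, conjFun_apply] at h
          rw [← h]
          exact congrArg (η : M → ℂ) (Subtype.ext (by simp)))]
      rw [← Finset.sum_filter_of_ne (p := fun m : M => (m : G) ∈ D) (fun m _ hne => by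
        by_contra h
        exact hne (by rw [extendByZero_notMem _ h, zero_mul]))]
      refine Finset.sum_bij' (fun m hm => (⟨m, hK ▸ ⟨m.2, (Finset.mem_filter.1 hm).2⟩⟩ : K))
        (fun k _ => Subgroup.inclusion hKM k) (fun _ _ => Finset.mem_univ _)
        (fun k _ => Finset.mem_filter.2 ⟨Finset.mem_univ _, hKD k.2⟩) (fun _ _ => Subtype.ext rfl)
        (fun _ _ => Subtype.ext rfl) fun m hm => ?_
      rw [extendByZero_mem _ (Finset.mem_filter.1 hm).2, ← hres]
      rfl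
    rw [Finset.sum_congr rfl fun m _ => by rw [mul_assoc, Finset.sum_mul], ← Finset.mul_sum,
      Finset.sum_comm, Finset.sum_congr rfl fun y _ => hinner y, Finset.sum_const, Finset.card_univ,
      nsmul_eq_mul, ← Nat.card_eq_fintype_card]
    show _ = (CfsgLib.Glauberman.mult (Subgroup.inclusion hKD) ψ θ : ℂ)
    rw [← CfsgLib.Glauberman.classInner_eq_mult]
    simp only [classInner]
    have hM0 := CfsgLib.Chars.Induced.card_subgroup_ne_zero M
    have hD0 := CfsgLib.Chars.Induced.card_subgroup_ne_zero D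
    have hK0 := CfsgLib.Chars.Induced.card_subgroup_ne_zero K
    field_simp
    linear_combination (∑ k : K, (ψ : D → ℂ) (Subgroup.inclusion hKD k) * conj ((θ : K → ℂ) k)) * hcard
  -- the matrix is a permutation matrix
  let A := Finset.univ.filter fun χ => e χ ≠ 0
  have hmain : ∀ χ ∈ A, ∑ χ' ∈ A, (∑ ψ, a χ ψ * a χ' ψ) * e χ' = e χ := by
    intro χ hχ
    conv_rhs => rw [← hrow χ (Finset.mem_filter.1 hχ).2]
    simp only [Finset.sum_mul]
    rw [Finset.sum_comm]
    refine Finset.sum_congr rfl fun ψ _ => ?_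
    rw [← hcol, Finset.mul_sum, Finset.sum_filter_of_ne]
    · exact Finset.sum_congr rfl fun χ' _ => mul_assoc _ _ _
    · intro χ' _ hne h0
      simp [h0] at hne
  have hdiag : ∀ χ ∈ A, ∑ ψ, a χ ψ * a χ ψ = 1 ∧
      ∀ χ' ∈ A, χ' ≠ χ → ∀ ψ, a χ ψ * a χ' ψ = 0 := by
    intro χ hχ
    have he := Nat.pos_of_ne_zero (Finset.mem_filter.1 hχ).2
    have h1 := hmain χ hχ
    rw [← Finset.add_sum_erase _ _ hχ] at h1
    have h2 : 1 ≤ ∑ ψ, a χ ψ * a χ ψ := by
      obtain ⟨ψ, hψ⟩ := exists_under D.subtype χ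
      exact le_trans (Nat.pos_of_ne_zero (Nat.mul_ne_zero_iff.2 ⟨hψ, hψ⟩))
        (Finset.single_le_sum (f := fun ψ => a χ ψ * a χ ψ) (fun _ _ => Nat.zero_le _) (Finset.mem_univ ψ))
    have h3 : e χ ≤ (∑ ψ, a χ ψ * a χ ψ) * e χ := Nat.le_mul_of_pos_left _ h2
    have h4 : (∑ ψ, a χ ψ * a χ ψ) * e χ = e χ := by omega
    have h5 : ∑ χ' ∈ A.erase χ, (∑ ψ, a χ ψ * a χ' ψ) * e χ' = 0 := by omega
    refine ⟨Nat.eq_of_mul_eq_mul_right he (h4.trans (one_mul _).symm), fun χ' hχ' hne ψ => ?_⟩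
    have h6 := Finset.sum_eq_zero_iff.1 h5 χ' (Finset.mem_erase.2 ⟨hne, hχ'⟩)
    exact Finset.sum_eq_zero_iff.1 ((Nat.mul_eq_zero.1 h6).resolve_right (Finset.mem_filter.1 hχ').2)
      ψ (Finset.mem_univ _)
  have hex : ∀ χ : {χ : IrrCharacter G // e χ ≠ 0}, ∃ ψ : {ψ : IrrCharacter D // f ψ ≠ 0},
      a χ.1 ψ.1 ≠ 0 := by
    intro χ
    obtain ⟨ψ, hψ⟩ := exists_under D.subtype χ.1
    exact ⟨⟨ψ, hfa χ.1 χ.2 ψ hψ⟩, hψ⟩
  choose F hF using hex
  refine Nat.card_congr (Equiv.ofBijective F ⟨?_, ?_⟩)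
  · intro χ χ' h
    by_contra hne
    have h1 := (hdiag χ.1 (Finset.mem_filter.2 ⟨Finset.mem_univ _, χ.2⟩)).2 χ'.1
      (Finset.mem_filter.2 ⟨Finset.mem_univ _, χ'.2⟩) (fun he => hne (Subtype.ext he.symm)) (F χ).1
    exact Nat.mul_ne_zero_iff.2 ⟨hF χ, by rw [h]; exact hF χ'⟩ h1
  · intro ψ
    have h1 : ∑ χ, a χ ψ.1 * e χ ≠ 0 := by rw [hcol]; exact ψ.2
    obtain ⟨χ, -, hχ⟩ := Finset.exists_ne_zero_of_sum_ne_zero h1
    have he : e χ ≠ 0 := (Nat.mul_ne_zero_iff.1 hχ).2
    refine ⟨⟨χ, he⟩, ?_⟩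
    by_contra hne
    have h2 := (hdiag χ (Finset.mem_filter.2 ⟨Finset.mem_univ _, he⟩)).1
    have h3 : ({ψ.1, (F ⟨χ, he⟩).1} : Finset (IrrCharacter D)).sum (fun b => a χ b * a χ b) ≤
        ∑ b, a χ b * a χ b := Finset.sum_le_sum_of_subset (Finset.subset_univ _)
    rw [Finset.sum_pair (fun h => hne (Subtype.ext h.symm)), h2] at h3
    have h4 : 1 ≤ a χ ψ.1 * a χ ψ.1 := Nat.pos_of_ne_zero
      (Nat.mul_ne_zero_iff.2 ⟨(Nat.mul_ne_zero_iff.1 hχ).1, (Nat.mul_ne_zero_iff.1 hχ).1⟩)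
    have h5 : 1 ≤ a χ (F ⟨χ, he⟩).1 * a χ (F ⟨χ, he⟩).1 :=
      Nat.pos_of_ne_zero (Nat.mul_ne_zero_iff.2 ⟨hF ⟨χ, he⟩, hF ⟨χ, he⟩⟩)
    omega

end CfsgLib.McKay
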