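import Cfsg.Agent.McKay.Decomp
import Cfsg.Agent.McKay.Twist
import Cfsg.Agent.McKay.Param

/-!
# The count when `K S` is normal

With `M = K S` normal in `Y = M H` (`H` a `p'`-subgroup normalising `S`), the characters of degree
prime to `p` over a central linear character are counted by the parameters `(θ, μ)`.
-/

set_option autoImplicit false

namespace CfsgLib.McKay

open Cfsg CfsgLib.Glauberman CfsgLib.Chars.Induced

universe u v

variable {X : Type u} [Group X]

/-- The elements of `W` fixing the parameters. -/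
def pstab {K S : Subgroup X} (W : Subgroup X) (θ : IrrCharacter K) (μ : S →* ℂˣ) : Subgroup X :=
  Subgroup.closure {x | x ∈ W ∧ Fix x θ ∧ FixLin x μ}

theorem mem_pstab {K S W : Subgroup X} (hWK : W ≤ Subgroup.normalizer (K : Set X))
    (hWS : W ≤ Subgroup.normalizer (S : Set X)) (θ : IrrCharacter K) (μ : S →* ℂˣ) {x : X} :
    x ∈ pstab W θ μ ↔ x ∈ W ∧ Fix x θ ∧ FixLin x μ := by
  refine ⟨fun h => ?_, fun h => Subgroup.subset_closure h⟩
  induction h using Subgroup.closure_induction with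
  | mem y hy => exact hy
  | one =>
    refine ⟨W.one_mem, fun k k' hk => ?_, fun s s' hs => ?_⟩
    · rw [show k' = k from Subtype.ext (by simpa using hk)]
    · rw [show s' = s from Subtype.ext (by simpa using hs)]
  | mul y z _ _ hy hz =>
    refine ⟨W.mul_mem hy.1 hz.1, fix_mul θ (hWK hz.1) hy.2.1 hz.2.1, fun s s' hs => ?_⟩
    rw [hy.2.2 (cj (hWS hz.1) s) s' (by rw [hs, cj_coe]; group)]
    exact hz.2.2 s _ rfl
  | inv y _ hy =>
    exact ⟨W.inv_mem hy.1, fix_inv θ hy.2.1, fun s s' hs => (hy.2.2 s' s (by rw [hs]; group)).symm⟩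

/-- Parameters of the characters over a central character. -/
def OkParam {K S : Subgroup X} {Z : Subgroup X} (lam : Z →* ℂˣ)
    (q : IrrCharacter K × (S →* ℂˣ)) : Prop :=
  (∀ s ∈ S, Fix s q.1) ∧
    (∀ (k : K) (hk : (k : X) ∈ Z), (q.1 : K → ℂ) k = (q.1 : K → ℂ) 1 * (lam ⟨k, hk⟩ : ℂ)) ∧
    ∀ (s : S) (hs : (s : X) ∈ Z), q.2 s = lam ⟨s, hs⟩

variable [Fintype X]

/-- Multiplicities inside an intermediate subgroup, for both arguments. -/
theorem mult_irrPull_pair {Y M Z : Subgroup X} [Fintype Z] [Fintype (Z.subgroupOf Y)]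
    (hMY : M ≤ Y) (hZY : Z ≤ Y) (hZM : Z ≤ M) (hZM' : Z.subgroupOf Y ≤ M.subgroupOf Y)
    (η : IrrCharacter M) (l : IrrCharacter Z) :
    CfsgLib.Glauberman.mult (Subgroup.inclusion hZM') (toSub (H := Y) hMY η) (toSub hZY l) =
      CfsgLib.Glauberman.mult (Subgroup.inclusion hZM) η l := by
  apply mult_eq_of_classInner_eq
  rw [← CfsgLib.Glauberman.classInner_eq_mult]
  simp only [classInner, toSub, irrPull_apply, Nat.card_congr (Subgroup.subgroupOfEquivOfLe hZY).toEquiv]
  congr 1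
  exact Fintype.sum_equiv (Subgroup.subgroupOfEquivOfLe hZY).toEquiv _ _ fun z => rfl

/-- Lying over does not depend on names. -/
theorem over_congr {A A' : Type u} [Group A] [Group A'] {L : Type v} [Group L] [Fintype L]
    {L' : Type v} [Group L'] [Fintype L'] (i : L →* A) (i' : L' →* A') (e : A ≃* A') (f : L ≃* L')
    (h : ∀ l, e (i l) = i' (f l)) (ν : IrrCharacter L) :
    Nat.card {χ : IrrCharacter A // CfsgLib.Glauberman.mult i χ ν ≠ 0} =
      Nat.card {χ : IrrCharacter A' // CfsgLib.Glauberman.mult i' χ (irrPull f.symm ν) ≠ 0} := by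
  let E : IrrCharacter A ≃ IrrCharacter A' :=
    { toFun := irrPull e.symm
      invFun := irrPull e
      left_inv := fun χ => Subtype.ext (funext fun g => by simp)
      right_inv := fun χ => Subtype.ext (funext fun g => by simp) }
  refine Nat.card_congr (E.subtypeEquiv fun χ => ?_)
  have hm : CfsgLib.Glauberman.mult i' (irrPull e.symm χ) (irrPull f.symm ν) =
      CfsgLib.Glauberman.mult i χ ν := by
    apply mult_eq_of_classInner_eq
    rw [← CfsgLib.Glauberman.classInner_eq_mult]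
    simp only [classInner, irrPull_apply, Nat.card_congr f.symm.toEquiv]
    congr 1
    refine Fintype.sum_equiv f.symm.toEquiv _ _ fun l => ?_
    have h1 : e.symm (i' l) = i (f.symm l) := by
      rw [MulEquiv.symm_apply_eq, h, f.apply_symm_apply]
    simp [h1]
  rw [show (E χ : IrrCharacter A') = irrPull e.symm χ from rfl, hm]

/-- The size of an orbit. -/
theorem orbitCard_eq_relIndex {K : Subgroup X} [K.Normal] (W : Subgroup X) (θ : IrrCharacter K) :
    orbitCard W θ = (inertia K (θ : K → ℂ)).relIndex W := by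
  letI : MulAction X (IrrCharacter K) := conjIrrAction K
  have h1 : (inertia K (θ : K → ℂ)).subgroupOf W = MulAction.stabilizer W θ := by
    ext x
    rw [Subgroup.mem_subgroupOf, mem_inertia, MulAction.mem_stabilizer_iff]
    show _ ↔ conjIrr (x : X) θ = θ
    rw [Subtype.ext_iff, conjIrr_coe]
  rw [Subgroup.relIndex, h1, MulAction.index_stabilizer, ← Nat.card_coe_set_eq]
  refine Nat.card_congr (Equiv.subtypeEquivRight fun η => ?_)
  exact ⟨fun ⟨x, hx, he⟩ => ⟨⟨x, hx⟩, he⟩, fun ⟨x, he⟩ => ⟨x, x.2, he⟩⟩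

/-- The characters of degree prime to `p` over an invariant one. -/
theorem cnt_eq_card_over {p : ℕ} [Fact p.Prime] {A : Type u} [Group A] [Fintype A] {L : Subgroup A}
    [L.Normal] [Fintype L] (ν : IrrCharacter L) (hν : ∀ a : A, conjIrr a ν = ν)
    (hidx : ¬ p ∣ L.index) (hdeg : ¬ p ∣ Cfsg.charDegree (ν : L → ℂ)) :
    cnt p L.subtype ν =
      Nat.card {χ : IrrCharacter A // CfsgLib.Glauberman.mult L.subtype χ ν ≠ 0} := by
  refine Nat.card_congr (Equiv.subtypeEquivRight fun χ => ⟨fun h => h.2, fun h => ⟨?_, h⟩⟩)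
  have hI : inertia L (ν : L → ℂ) = ⊤ :=
    eq_top_iff.2 fun a _ => mem_inertia.2 (congrArg Subtype.val (hν a))
  rw [exists_degree_eq χ ν h, hI, Subgroup.index_top, mul_one]
  intro hd
  rcases (Fact.out : p.Prime).dvd_mul.1 hd with h1 | h1
  · refine hidx (h1.trans ?_)
    have h3 := NormalSylow.mult_eq_induced L.subtype χ ν
    simp only [Subgroup.coe_subtype] at h3
    rw [← h3]
    exact mult_dvd_index_of_invariant ν (fun a => congrArg Subtype.val (hν a)) χ (by rwa [h3])
  · exact hdeg h1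

/-- **The count through the parameters.** -/
theorem local_formula {p : ℕ} [Fact p.Prime] {Y K S M H Z : Subgroup X} [Fintype K] [Fintype Z]
    [Fintype (S →* ℂˣ)] (hKY : K ≤ Y) (hYK : Y ≤ Subgroup.normalizer (K : Set X))
    (hpK : ¬ p ∣ Nat.card K) (hS : IsPGroup p S) (hidxS : ¬ p ∣ S.relIndex Y) (hM : M = K ⊔ S)
    (hKM : K ≤ M) (hSM : S ≤ M) (hYM : Y ≤ Subgroup.normalizer (M : Set X))
    (hHY : H ≤ Y) (hHS : H ≤ Subgroup.normalizer (S : Set X)) (hpH : ¬ p ∣ Nat.card H)
    (hY : Y = M ⊔ H) (hZM : Z ≤ M) (hZc : Z ≤ Subgroup.center X)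
    (hZ : ∀ z ∈ Z, ∃ k ∈ K ⊓ Z, ∃ s ∈ S ⊓ Z, k * s = z) (lam : Z →* ℂˣ) (hZY : Z ≤ Y)
    [DecidablePred (OkParam (K := K) (S := S) lam)] :
    (cnt p (Subgroup.inclusion hZY) (CfsgLib.Chars.linChar lam) : ℚ) =
      ∑ q ∈ Finset.univ.filter (OkParam (K := K) (S := S) lam),
        (Nat.card {ψ : IrrCharacter (K ⊔ pstab H q.1 q.2 : Subgroup X) //
            CfsgLib.Glauberman.mult (Subgroup.inclusion le_sup_left) ψ q.1 ≠ 0} : ℚ) /
          (pstab (Y ⊓ Subgroup.normalizer (S : Set X)) q.1 q.2).relIndex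
            (Y ⊓ Subgroup.normalizer (S : Set X)) := by
  classical
  have hp : p.Prime := Fact.out
  have hSY : S ≤ Y := hY ▸ hSM.trans le_sup_left
  have hMY : M ≤ Y := hY ▸ le_sup_left
  have hSK : S ≤ Subgroup.normalizer (K : Set X) := hSY.trans hYK
  set W := Y ⊓ Subgroup.normalizer (S : Set X) with hW
  have hWK : W ≤ Subgroup.normalizer (K : Set X) := inf_le_left.trans hYK
  have hWS : W ≤ Subgroup.normalizer (S : Set X) := inf_le_right
  have hHW : H ≤ W := le_inf hHY hHS
  have := Fintype.ofFinite Y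
  have := Fintype.ofFinite M
  have := Fintype.ofFinite (M.subgroupOf Y)
  have := Fintype.ofFinite (Z.subgroupOf Y)
  haveI : (M.subgroupOf Y).Normal := Subgroup.normal_subgroupOf_of_le_normalizer hYM
  have hSp : IsPGroup p (S.subgroupOf Y) := hS.comap_subtype
  let S' : Sylow p Y := hSp.toSylow hidxS
  have hS' : (S' : Subgroup Y) = S.subgroupOf Y := rfl
  have hZc' : Z.subgroupOf Y ≤ Subgroup.center Y := fun z hz =>
    Subgroup.mem_center_iff.2 fun g => Subtype.ext (Subgroup.mem_center_iff.1 (hZc hz) g)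
  have hZM' : Z.subgroupOf Y ≤ M.subgroupOf Y := fun z hz => hZM hz
  have hdec := cnt_decomp (p := p) hZM' le_top hZc' (toSub hZY (CfsgLib.Chars.linChar lam)) S' le_top
  have htop : cnt p (Subgroup.inclusion (hZM'.trans le_top : Z.subgroupOf Y ≤ ⊤))
      (toSub hZY (CfsgLib.Chars.linChar lam)) =
      cnt p (Subgroup.inclusion hZY) (CfsgLib.Chars.linChar lam) := by
    rw [cnt_congr p (Subgroup.inclusion (hZM'.trans le_top : Z.subgroupOf Y ≤ ⊤))
      (Z.subgroupOf Y).subtype Subgroup.topEquiv (MulEquiv.refl _) (fun _ => rfl),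
      show irrPull (MulEquiv.refl (Z.subgroupOf Y)).symm (toSub hZY (CfsgLib.Chars.linChar lam)) =
        toSub hZY (CfsgLib.Chars.linChar lam) from Subtype.ext (funext fun _ => rfl)]
    exact cnt_toSub p hZY _
  rw [← htop, hdec]
  -- invariance under elements of `Y`
  have hconj : ∀ (η : IrrCharacter M) (x : Y),
      conjIrr x (toSub (H := Y) hMY η) = toSub (H := Y) hMY η ↔ Fix (x : X) η := by
    intro η x
    constructor
    · intro h
      have h1 := congrArg Subtype.val h
      rw [conjIrr_coe] at h1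
      intro m m' hm
      have h2 := congrFun h1 ⟨⟨(m' : X), hMY m'.2⟩, m'.2⟩
      rw [conjFun_apply, toSub, irrPull_apply, irrPull_apply] at h2
      rw [show (Subgroup.subgroupOfEquivOfLe hMY) ⟨⟨(m' : X), hMY m'.2⟩, m'.2⟩ = m' from
        Subtype.ext rfl] at h2
      rw [← h2]
      refine congrArg (η : M → ℂ) (Subtype.ext ?_)
      show (x : X)⁻¹ * (m' : X) * (x : X) = (m : X)
      rw [hm]
      group
    · intro h
      apply Subtype.ext
      rw [conjIrr_coe]
      funext n
      rw [conjFun_apply, toSub, irrPull_apply, irrPull_apply]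
      refine fix_inv η h _ _ ?_
      simp
  have hMfix : ∀ (η : IrrCharacter M) (x : X), x ∈ M → Fix x η := fun η x hx => fix_of_mem hx η
  have hpk : ∀ η : IrrCharacter M, ¬ p ∣ Cfsg.charDegree (η : M → ℂ) →
      ∃ q : IrrCharacter K × (S →* ℂˣ), (∀ s ∈ S, Fix s q.1) ∧ Param hKM hSM η q.1 q.2 := by
    intro η hη
    obtain ⟨θ, μ, h1, h2⟩ := exists_param hpK hS hSK hM hKM hSM η hη
    exact ⟨(θ, μ), h1, h2⟩
  have hek : ∀ q : IrrCharacter K × (S →* ℂˣ), (∀ s ∈ S, Fix s q.1) →
      ∃ η : IrrCharacter M, Param hKM hSM η q.1 q.2 :=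
    fun q hq => exists_of_param hpK hS hSK hM hKM hSM q.1 hq q.2
  have hcheck : ∀ (η : IrrCharacter M) (q : IrrCharacter K × (S →* ℂˣ)), (∀ s ∈ S, Fix s q.1) →
      Param hKM hSM η q.1 q.2 →
      (Below p hZM' (toSub hZY (CfsgLib.Chars.linChar lam)) (S' : Subgroup Y) (toSub (H := Y) hMY η) ↔
        OkParam lam q) := by
    intro η q hq hη
    have hmm : CfsgLib.Glauberman.mult (Subgroup.inclusion hZM') (toSub (H := Y) hMY η)
        (toSub hZY (CfsgLib.Chars.linChar lam)) =
        CfsgLib.Glauberman.mult (Subgroup.inclusion hZM) η (CfsgLib.Chars.linChar lam) :=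
      mult_irrPull_pair hMY hZY hZM hZM' η _
    constructor
    · intro h
      exact ⟨hq, (param_over_iff hpK hS hM hKM hSM hη hZM hZc hZ lam).1 (hmm ▸ h.2.2)⟩
    · intro h
      refine ⟨fun s hs => (hconj η s).2 (hMfix η _ ?_), ?_, ?_⟩
      · rw [hS'] at hs
        exact hSM (Subgroup.mem_subgroupOf.1 hs)
      · have h1 : Cfsg.charDegree (toSub (H := Y) hMY η : M.subgroupOf Y → ℂ) =
            Cfsg.charDegree (η : M → ℂ) := by
          apply Nat.cast_injective (R := ℂ)
          rw [CfsgLib.Chars.coe_charDegree, CfsgLib.Chars.coe_charDegree, toSub, irrPull_apply, map_one]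
        rw [h1, charDegree_eq_of_isExt hη.1]
        exact not_dvd_charDegree hpK q.1
      · rw [hmm]
        exact (param_over_iff hpK hS hM hKM hSM hη hZM hZc hZ lam).2 h.2
  have hrep : ∀ θ' : IrrCharacter (M.subgroupOf Y),
      ∃ η : IrrCharacter M, toSub (H := Y) hMY η = θ' := fun θ' =>
    ⟨irrPull (Subgroup.subgroupOfEquivOfLe hMY).symm θ', Subtype.ext (funext fun n => by simp [toSub])⟩
  choose toη hη' using hrep
  have hpq : ∀ θ' ∈ Finset.univ.filter
      (Below p hZM' (toSub hZY (CfsgLib.Chars.linChar lam)) (S' : Subgroup Y)),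
      ∃ q : IrrCharacter K × (S →* ℂˣ), q ∈ Finset.univ.filter (OkParam (K := K) (S := S) lam) ∧
        Param hKM hSM (toη θ') q.1 q.2 := by
    intro θ' hθ'
    have hb := (Finset.mem_filter.1 hθ').2
    have hd : ¬ p ∣ Cfsg.charDegree (toη θ' : M → ℂ) := by
      have h1 : Cfsg.charDegree (θ' : M.subgroupOf Y → ℂ) = Cfsg.charDegree (toη θ' : M → ℂ) := by
        apply Nat.cast_injective (R := ℂ)
        conv_lhs => rw [← hη' θ']
        rw [CfsgLib.Chars.coe_charDegree, CfsgLib.Chars.coe_charDegree, toSub, irrPull_apply, map_one]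
      exact h1 ▸ hb.2.1
    obtain ⟨q, hq1, hq2⟩ := hpk _ hd
    refine ⟨q, Finset.mem_filter.2 ⟨Finset.mem_univ _, (hcheck _ q hq1 hq2).1 ?_⟩, hq2⟩
    rwa [hη']
  choose qf hqf1 hqf2 using hpq
  refine Finset.sum_bij (fun θ' hθ' => qf θ' hθ') (fun θ' hθ' => hqf1 θ' hθ') ?_ ?_ ?_
  · intro a ha b hb he
    have h1 := param_unique hpK hS hSK hM hKM hSM (hqf2 a ha) (by rw [he]; exact hqf2 b hb)
    rw [← hη' a, ← hη' b, h1]
  · intro q hq
    have hok := (Finset.mem_filter.1 hq).2
    obtain ⟨η, hη⟩ := hek q hok.1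
    have hmem : toSub (H := Y) hMY η ∈ Finset.univ.filter
        (Below p hZM' (toSub hZY (CfsgLib.Chars.linChar lam)) (S' : Subgroup Y)) :=
      Finset.mem_filter.2 ⟨Finset.mem_univ _, (hcheck η q hok.1 hη).2 hok⟩
    refine ⟨_, hmem, ?_⟩
    have h1 := hqf2 _ hmem
    rw [toSub_injective hMY (hη' (toSub hMY η))] at h1
    have hθ : (qf _ hmem).1 = q.1 := Subtype.ext (funext fun k => by rw [← h1.1, hη.1])
    refine Prod.ext hθ (lin_eq_of_pow_eq hS (not_dvd_charDegree hpK q.1) _ _ fun s => ?_)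
    rw [hη.2 s]
    have h2 := h1.2 s
    rwa [hθ] at h2
  intro θ' hθ'
  set q := qf θ' hθ' with hqdef
  have hok : OkParam lam q := (Finset.mem_filter.1 (hqf1 θ' hθ')).2
  obtain ⟨η, rfl⟩ : ∃ η, toSub (H := Y) hMY η = θ' := ⟨_, hη' θ'⟩
  have hpar : Param hKM hSM η q.1 q.2 := by
    have h1 := hqf2 _ hθ'
    rwa [toSub_injective hMY (hη' (toSub hMY η))] at h1
  have hfix : ∀ x ∈ W, Fix x η ↔ Fix x q.1 ∧ FixLin x q.2 := fun x hx =>
    param_fix_iff hpK hS hSK hM hKM hSM hpar (hYM hx.1) (hWK hx) (hWS hx)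
  -- the weight
  have hweight : orbitCard ((⊤ : Subgroup Y) ⊓ Subgroup.normalizer ((S' : Subgroup Y) : Set Y))
      (toSub (H := Y) hMY η) = (pstab W q.1 q.2).relIndex W := by
    rw [orbitCard_eq_relIndex, top_inf_eq]
    have hN : Subgroup.normalizer ((S' : Subgroup Y) : Set Y) = W.subgroupOf Y := by
      rw [hS', hW, Subgroup.inf_subgroupOf_left]
      exact (Subgroup.subgroupOf_normalizer_eq hSY).symm
    rw [hN]
    have hI : inertia (M.subgroupOf Y) (toSub (H := Y) hMY η : M.subgroupOf Y → ℂ) ⊓ W.subgroupOf Y =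
        (pstab W q.1 q.2).subgroupOf Y := by
      ext x
      rw [Subgroup.mem_inf, mem_inertia, Subgroup.mem_subgroupOf, Subgroup.mem_subgroupOf,
        mem_pstab hWK hWS]
      constructor
      · rintro ⟨h1, h2⟩
        exact ⟨h2, (hfix _ h2).1 ((hconj η x).1 (Subtype.ext (by rw [conjIrr_coe]; exact h1)))⟩
      · rintro ⟨h2, h3⟩
        have h1 := congrArg Subtype.val ((hconj η x).2 ((hfix _ h2).2 h3))
        rw [conjIrr_coe] at h1
        exact ⟨h1, h2⟩
    rw [← Subgroup.inf_relIndex_right, hI]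
    exact Subgroup.relIndex_subgroupOf inf_le_left
  rw [hweight]
  congr 1
  norm_cast
  -- the local count
  set P := pstab H q.1 q.2 with hP
  have hHK : H ≤ Subgroup.normalizer (K : Set X) := hHY.trans hYK
  have hPmem : ∀ x, x ∈ P ↔ x ∈ H ∧ Fix x q.1 ∧ FixLin x q.2 := fun x => mem_pstab hHK hHS _ _
  have hPH : P ≤ H := fun x hx => ((hPmem x).1 hx).1
  set T := M ⊔ P with hT
  have hTY : T ≤ Y := sup_le hMY (hPH.trans hHY)
  have hPM : P ≤ Subgroup.normalizer (M : Set X) := hPH.trans (hHY.trans hYM)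
  have hTfix : ∀ x : Y, (x : X) ∈ T ↔ Fix (x : X) η := by
    intro x
    constructor
    · intro hx
      have hx' : (x : X) ∈ ((M ⊔ P : Subgroup X) : Set X) := hx
      rw [Subgroup.coe_mul_of_right_le_normalizer_left M P hPM] at hx'
      obtain ⟨m, hm, h, hh, e⟩ := hx'
      rw [← e]
      exact fix_mul η (hPM hh) (hMfix η m hm)
        ((hfix h (hHW (hPH hh))).2 ((hPmem h).1 hh).2)
    · intro hx
      have hx' : (x : X) ∈ ((M ⊔ H : Subgroup X) : Set X) := hY ▸ x.2
      rw [Subgroup.coe_mul_of_right_le_normalizer_left M H (hHY.trans hYM)] at hx'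
      obtain ⟨m, hm, h, hh, e⟩ := hx'
      have h1 : Fix h η := by
        have h2 := fix_mul η (hYM x.2) (hMfix η m⁻¹ (M.inv_mem hm)) hx
        rwa [← e, inv_mul_cancel_left] at h2
      rw [← e]
      exact T.mul_mem (Subgroup.mem_sup_left hm) (Subgroup.mem_sup_right
        ((hPmem h).2 ⟨hh, (hfix h (hHW hh)).1 h1⟩))
  have hTI : T.subgroupOf Y = ⊤ ⊓ inertia (M.subgroupOf Y) (toSub (H := Y) hMY η : M.subgroupOf Y → ℂ) := by
    ext x
    rw [top_inf_eq, mem_inertia, Subgroup.mem_subgroupOf, hTfix x, ← hconj η x, Subtype.ext_iff,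
      conjIrr_coe]
  have hidxT : ¬ p ∣ (T.subgroupOf Y).relIndex ⊤ := by
    rw [Subgroup.relIndex_top_right]
    intro h
    refine hidxS (h.trans ?_)
    exact Subgroup.relIndex_dvd_of_le_left Y (hSM.trans le_sup_left)
  have := Fintype.ofFinite T
  have := Fintype.ofFinite (M.subgroupOf T)
  rw [cnt_inertia hp le_top (toSub (H := Y) hMY η) hTI (fun x hx => Subgroup.mem_sup_left hx) hidxT]
  rw [cnt_congr p _ (Subgroup.inclusion (le_sup_left : M ≤ T)) (Subgroup.subgroupOfEquivOfLe hTY)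
    (Subgroup.subgroupOfEquivOfLe hMY) (fun l => rfl)]
  rw [show irrPull (Subgroup.subgroupOfEquivOfLe hMY).symm (toSub (H := Y) hMY η) = η from
    Subtype.ext (funext fun n => by simp [toSub]), ← cnt_toSub p (le_sup_left : M ≤ T)]
  have hTM : T ≤ Subgroup.normalizer (M : Set X) := hTY.trans hYM
  haveI : (M.subgroupOf T).Normal := Subgroup.normal_subgroupOf_of_le_normalizer hTM
  have hinvT : ∀ a : T, conjIrr a (toSub (H := T) (le_sup_left : M ≤ T) η) =
      toSub (H := T) (le_sup_left : M ≤ T) η := by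
    intro a
    apply Subtype.ext
    rw [conjIrr_coe]
    funext n
    rw [conjFun_apply, toSub, irrPull_apply, irrPull_apply]
    refine fix_inv η ((hTfix ⟨a, hTY a.2⟩).1 a.2) _ _ ?_
    simp
  have hidxM : ¬ p ∣ (M.subgroupOf T).index := by
    intro h
    refine hidxS (Dvd.dvd.trans ?_ (Subgroup.relIndex_dvd_of_le_left Y hSM))
    rw [← Subgroup.relIndex_mul_relIndex M T Y le_sup_left hTY]
    exact dvd_mul_of_dvd_left h _
  rw [cnt_eq_card_over _ hinvT hidxM (by
    have h1 : Cfsg.charDegree (toSub (H := T) (le_sup_left : M ≤ T) η : M.subgroupOf T → ℂ) =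
        Cfsg.charDegree (η : M → ℂ) := by
      apply Nat.cast_injective (R := ℂ)
      rw [CfsgLib.Chars.coe_charDegree, CfsgLib.Chars.coe_charDegree, toSub, irrPull_apply, map_one]
    rw [h1, charDegree_eq_of_isExt hpar.1]
    exact not_dvd_charDegree hpK q.1)]
  -- restriction to the supplement
  set D := K ⊔ P with hD
  have hDT : D ≤ T := sup_le_sup_right hKM P
  have hKT : K ≤ T := le_sup_left.trans hDT
  have := Fintype.ofFinite (D.subgroupOf T)
  have := Fintype.ofFinite (K.subgroupOf T)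
  have hpP : ¬ p ∣ Nat.card P := fun h => hpH (h.trans (Subgroup.card_dvd_of_le hPH))
  have hpD : ¬ p ∣ Nat.card D := fun h =>
    (hp.dvd_mul.1 (h.trans (card_sup_dvd (hPH.trans hHK)))).elim hpK hpP
  have hMD : M ⊓ D ≤ K := by
    rintro x ⟨hxM, hxD⟩
    have hx' : x ∈ ((K ⊔ S : Subgroup X) : Set X) := hM ▸ hxM
    rw [Subgroup.coe_mul_of_right_le_normalizer_left K S hSK] at hx'
    obtain ⟨k, hk, s, hs, rfl⟩ := hx'
    have hsD : s ∈ D := by
      have h := D.mul_mem (D.inv_mem (Subgroup.mem_sup_left hk)) hxD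
      rwa [inv_mul_cancel_left] at h
    have h := inf_eq_bot_of_data hpD hS
    rw [Subgroup.eq_bot_iff_forall] at h
    show k * s ∈ K
    rw [h s ⟨hsD, hs⟩, mul_one]
    exact hk
  have hsup : M.subgroupOf T ⊔ D.subgroupOf T = ⊤ := by
    rw [← Subgroup.subgroupOf_sup le_sup_left hDT, Subgroup.subgroupOf_eq_top]
    exact sup_le le_sup_left (le_sup_right.trans le_sup_right)
  have hinf : K.subgroupOf T = M.subgroupOf T ⊓ D.subgroupOf T := by
    refine le_antisymm (fun x hx => ⟨hKM hx, Subgroup.mem_sup_left hx⟩) fun x hx => ?_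
    exact hMD ⟨hx.1, hx.2⟩
  have hKM' : K.subgroupOf T ≤ M.subgroupOf T := fun x hx => hKM hx
  have hKD' : K.subgroupOf T ≤ D.subgroupOf T := fun x hx => Subgroup.mem_sup_left hx
  rw [card_over_supplement hsup hinf hKM' hKD' _ (toSub hKT q.1) hinvT
    (fun k => hpar.1 ⟨(k : T), k.2⟩)]
  rw [over_congr _ (Subgroup.inclusion (le_sup_left : K ≤ D)) (Subgroup.subgroupOfEquivOfLe hDT)
    (Subgroup.subgroupOfEquivOfLe hKT) (fun l => rfl)]
  rw [show irrPull (Subgroup.subgroupOfEquivOfLe hKT).symm (toSub (H := T) hKT q.1) = q.1 from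
    Subtype.ext (funext fun n => by simp [toSub])]

end CfsgLib.McKay
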