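import Cfsg.Agent.McKay.Final

/-!
# Relative McKay for `p`-solvable groups

`L` normal in a `p`-solvable group `G`, `P = L S` for a Sylow `p`-subgroup `S`, `ν` a `P`-invariant
character of `L`: `G` and `N_G(P)` have equally many characters of degree prime to `p` over `ν`.
-/

set_option autoImplicit false

namespace CfsgLib.McKay

open Cfsg CfsgLib.Glauberman CfsgLib.Chars.Induced
open scoped Pointwise

universe u

variable {G : Type u} [Group G]

/-- The count in `⊤`. -/
theorem cnt_top (p : ℕ) [Fintype G] {L : Subgroup G} [Fintype L] (ν : IrrCharacter L) :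
    cnt p (Subgroup.inclusion (le_top : L ≤ ⊤)) ν = cnt p L.subtype ν := by
  have := Fintype.ofFinite (⊤ : Subgroup G)
  rw [cnt_congr p (Subgroup.inclusion (le_top : L ≤ ⊤)) L.subtype Subgroup.topEquiv
    (MulEquiv.refl L) (fun _ => rfl)]
  rfl

/-- Adjoining central elements to a Sylow subgroup does not change the normaliser. -/
theorem normalizer_central_sup {p : ℕ} [Fact p.Prime] [Finite G] {Z : Subgroup G}
    (hZ : Z ≤ Subgroup.center G) (S : Sylow p G) :
    Subgroup.normalizer ((Z ⊔ (S : Subgroup G) : Subgroup G) : Set G) =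
      Subgroup.normalizer ((S : Subgroup G) : Set G) := by
  set Ss : Subgroup G := (S : Subgroup G) with hSs
  have hZN : ∀ W : Subgroup G, Z ≤ Subgroup.normalizer (W : Set G) := fun W =>
    hZ.trans (Subgroup.center_le_normalizer _)
  have hsup : Z ⊔ Ss ≤ Subgroup.normalizer (Ss : Set G) := sup_le (hZN Ss) Ss.le_normalizer
  refine le_antisymm ?_ ?_
  · refine CfsgLib.Coprime.le_normalizer_of_conj_mem fun x hx s hs => ?_
    set P := Ss.map (MulAut.conj x : MulAut G).toMonoidHom with hP
    have hPle : P ≤ Subgroup.normalizer (Ss : Set G) := by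
      rintro _ ⟨t, ht, rfl⟩
      exact hsup ((Subgroup.mem_normalizer_iff.1 hx t).1 (Subgroup.mem_sup_right ht))
    have hpg : IsPGroup p (Ss ⊔ P : Subgroup G) :=
      IsPGroup.to_sup_of_normal_left' S.isPGroup' (S.isPGroup'.map _) hPle
    exact (S.is_maximal' hpg le_sup_left).le (Subgroup.mem_sup_right ⟨s, hs, rfl⟩)
  · have hN : Subgroup.normalizer (Ss : Set G) ≤ Subgroup.normalizer (Z : Set G) := by
      haveI : Z.Normal := ⟨fun z hz g => by
        rw [Subgroup.mem_center_iff.1 (hZ hz) g, mul_inv_cancel_right]; exact hz⟩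
      rw [Subgroup.normalizer_eq_top (H := Z)]
      exact le_top
    exact (le_inf hN le_rfl).trans (Subgroup.normalizer_inf_normalizer_le_normalizer_sup _ _)

/-- A normal `p`-subgroup is inside every Sylow subgroup. -/
theorem normal_le_sylow {p : ℕ} [Fact p.Prime] [Finite G] {A : Subgroup G} [A.Normal]
    (hA : IsPGroup p A) (S : Sylow p G) : A ≤ (S : Subgroup G) :=
  le_sup_right.trans (S.is_maximal' (IsPGroup.to_sup_of_normal_right S.isPGroup' hA) le_sup_left).le

/-- The statement for central subgroups of index `n`. -/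
def CentralStep (p : ℕ) (n : ℕ) : Prop :=
  ∀ (X : Type u) [Group X] [Fintype X] (Z : Subgroup X) [Fintype Z],
    Cfsg.IsPSolvable p X → ∀ (_ : Z ≤ Subgroup.center X), Z.index = n →
    ∀ (lam : Z →* ℂˣ) (T : Sylow p X)
      (hZN : Z ≤ Subgroup.normalizer ((T : Subgroup X) : Set X)),
    cnt p Z.subtype (CfsgLib.Chars.linChar lam) =
      cnt p (Subgroup.inclusion hZN) (CfsgLib.Chars.linChar lam)

/-- The general statement from the central ones. -/
theorem relative_of_central {p : ℕ} [Fact p.Prime] [Fintype G] (hG : Cfsg.IsPSolvable p G)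
    (L : Subgroup G) [L.Normal] [Fintype L] (hC : ∀ m ≤ L.index, CentralStep.{u} p m)
    (S : Sylow p G) (ν : IrrCharacter L) (hν : ∀ x ∈ L ⊔ (S : Subgroup G), conjIrr x ν = ν)
    (hLN : L ≤ Subgroup.normalizer ((L ⊔ (S : Subgroup G) : Subgroup G) : Set G)) :
    cnt p L.subtype ν = cnt p (Subgroup.inclusion hLN) ν := by
  classical
  have hp : p.Prime := Fact.out
  set P := L ⊔ (S : Subgroup G) with hP
  set N := Subgroup.normalizer (P : Set G) with hN
  set T := inertia L (ν : L → ℂ) with hT
  have hPT : P ≤ T := fun x hx => mem_inertia.2 (congrArg Subtype.val (hν x hx))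
  have hLT : L ≤ T := le_sup_left.trans hPT
  have hST : (S : Subgroup G) ≤ T := le_sup_right.trans hPT
  have hPN : P ≤ N := P.le_normalizer
  have hSdvd : ∀ {A B : Subgroup G}, (S : Subgroup G) ≤ A → A ≤ B → ¬ p ∣ A.relIndex B := by
    intro A B hA hAB h
    exact S.not_dvd_index' Subgroup.index_ne_zero_of_finite
      ((h.trans (Dvd.intro _ (Subgroup.relIndex_mul_index hAB))).trans (Subgroup.index_dvd_of_le hA))
  have := Fintype.ofFinite T
  have := Fintype.ofFinite (L.subgroupOf T)
  have hLTN : L ≤ N ⊓ T := le_inf hLN hLT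
  rw [cnt_inertia_top hp ν T hT hLT (fun h => hSdvd hST (le_top : T ≤ ⊤)
      (by rwa [Subgroup.relIndex_top_right])),
    cnt_inertia hp hLN ν (T := N ⊓ T) rfl hLTN
      (hSdvd (le_inf (le_sup_right.trans hPN) hST) inf_le_left)]
  let S' : Sylow p T := S.subtype hST
  have hP' : L.subgroupOf T ⊔ (S' : Subgroup T) = P.subgroupOf T := by
    rw [hP, Subgroup.subgroupOf_sup hLT hST]
    rfl
  have hN' : Subgroup.normalizer ((L.subgroupOf T ⊔ (S' : Subgroup T) : Subgroup T) : Set T) =
      (N ⊓ T).subgroupOf T := by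
    rw [hP', ← Subgroup.subgroupOf_normalizer_eq hPT, Subgroup.inf_subgroupOf_right]
  have hinv : ∀ g : T, conjIrr g (toSub (H := T) hLT ν) = toSub hLT ν := fun g => by
    rw [conjIrr_toSub]
    congr 1
    exact Subtype.ext (mem_inertia.1 g.2)
  have hLN' : L.subgroupOf T ≤
      Subgroup.normalizer ((L.subgroupOf T ⊔ (S' : Subgroup T) : Subgroup T) : Set T) := by
    rw [hN']
    exact fun x hx => hLTN hx
  have hidx : (L.subgroupOf T).index ≤ L.index :=
    Nat.le_of_dvd (Nat.pos_of_ne_zero Subgroup.index_ne_zero_of_finite)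
      (Subgroup.relIndex_dvd_index_of_normal L T)
  have h := cnt_eq_of_central (CfsgLib.Constrained.IsPSolvable.subgroup hG T) (toSub (H := T) hLT ν)
    hinv S' hLN' (fun X _ _ Z _ h1 h2 h3 => hC _ hidx X Z h1 h2 h3)
  rw [cnt_toSub] at h
  rw [h]
  have hle : Subgroup.normalizer ((L.subgroupOf T ⊔ (S' : Subgroup T) : Subgroup T) : Set T) =
      (N ⊓ T).subgroupOf T := hN'
  let e := (MulEquiv.subgroupCongr hle).trans (Subgroup.subgroupOfEquivOfLe (inf_le_right : N ⊓ T ≤ T))
  rw [cnt_congr p (Subgroup.inclusion hLN') (Subgroup.inclusion hLTN) e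
    (Subgroup.subgroupOfEquivOfLe hLT) (fun l => rfl)]
  congr 1

/-- **The central statements hold.** -/
theorem centralStep {p : ℕ} [Fact p.Prime] (n : ℕ) : CentralStep.{u} p n := by
  induction n using Nat.strong_induction_on with
  | _ n ih =>
  intro X _ _ Z _ hX hZc hn lam S hZN
  classical
  have hp : p.Prime := Fact.out
  haveI hZn : Z.Normal := ⟨fun z hz g => by
    rw [Subgroup.mem_center_iff.1 (hZc hz) g, mul_inv_cancel_right]; exact hz⟩
  set Ss : Subgroup X := (S : Subgroup X) with hSs
  set l := CfsgLib.Chars.linChar lam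
  set N := Subgroup.normalizer (Ss : Set X) with hN
  have htriv : N = ⊤ → cnt p Z.subtype l = cnt p (Subgroup.inclusion hZN) l := by
    intro h
    rw [cnt_congr p (Subgroup.inclusion hZN) Z.subtype
      ((MulEquiv.subgroupCongr h).trans Subgroup.topEquiv) (MulEquiv.refl Z) (fun _ => rfl)]
    rfl
  by_cases hNtop : N = ⊤
  · exact htriv hNtop
  haveI : Nontrivial (X ⧸ Z) := by
    refine Finite.one_lt_card_iff_nontrivial.1 ?_
    rw [← Subgroup.index_eq_card]
    refine Subgroup.one_lt_index_of_ne_top fun h => hNtop (top_le_iff.1 ?_)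
    rw [← h]
    exact hZN
  set q := QuotientGroup.mk' Z with hq
  obtain ⟨A, hAn, hAne, hA⟩ : ∃ A : Subgroup (X ⧸ Z), A.Normal ∧ A ≠ ⊥ ∧
      (IsPGroup p A ∨ ¬ p ∣ Nat.card A) := by
    rcases CfsgLib.Constrained.IsPSolvable.core_ne_bot
      (CfsgLib.Constrained.IsPSolvable.quotient hX Z) with h | h
    · exact ⟨_, inferInstance, h, Or.inl CfsgLib.Constrained.isPGroup_pCore⟩
    · exact ⟨_, inferInstance, h, Or.inr CfsgLib.Constrained.pPrimeCore_not_dvd⟩
  set K := A.comap q with hK
  haveI : K.Normal := hAn.comap q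
  have := Fintype.ofFinite K
  have hZK : Z ≤ K := fun z hz => by
    show q z ∈ A
    rw [show q z = 1 from (QuotientGroup.eq_one_iff z).2 hz]
    exact A.one_mem
  have hKidx : K.index < n := by
    rw [← hn, ← Subgroup.relIndex_mul_index hZK]
    refine lt_mul_of_one_lt_left (Nat.pos_of_ne_zero Subgroup.index_ne_zero_of_finite) ?_
    refine Subgroup.one_lt_index_of_ne_top fun h => hAne ?_
    rw [Subgroup.subgroupOf_eq_top] at h
    rw [eq_bot_iff]
    intro a ha
    obtain ⟨x, rfl⟩ := QuotientGroup.mk'_surjective Z a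
    exact (QuotientGroup.eq_one_iff x).2 (h ha)
  set M := K ⊔ Ss with hM
  set H := Subgroup.normalizer (M : Set X) with hH
  have hKH : K ≤ H := le_sup_left.trans M.le_normalizer
  have hSH : Ss ≤ H := le_sup_right.trans M.le_normalizer
  have hNH : N ≤ H := by
    have h1 : N ≤ Subgroup.normalizer (K : Set X) := by
      rw [Subgroup.normalizer_eq_top (H := K)]; exact le_top
    exact (le_inf h1 le_rfl).trans (Subgroup.normalizer_inf_normalizer_le_normalizer_sup _ _)
  -- step 1
  have step1 : cnt p Z.subtype l = cnt p (Subgroup.inclusion (hZK.trans hKH)) l := by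
    apply Nat.cast_injective (R := ℚ)
    rw [← cnt_top p l, cnt_decomp hZK (le_top : K ≤ ⊤) hZc l S le_top,
      cnt_decomp hZK hKH hZc l S hSH]
    refine Finset.sum_congr rfl fun θ hθ => ?_
    have hθ' := (Finset.mem_filter.1 hθ).2
    have hcnt : cnt p (Subgroup.inclusion (le_top : K ≤ ⊤)) θ = cnt p (Subgroup.inclusion hKH) θ := by
      rw [cnt_top]
      refine relative_of_central hX K (fun m hm => ih m (lt_of_le_of_lt hm hKidx)) S θ
        (fun x hx => ?_) hKH
      have hle : K ⊔ Ss ≤ inertia K (θ : K → ℂ) :=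
        sup_le (le_inertia (CfsgLib.Chars.isClassFunction_coe θ))
          (fun s hs => mem_inertia.2 (congrArg Subtype.val (hθ'.1 s hs)))
      exact Subtype.ext (mem_inertia.1 (hle hx))
    rw [hcnt, show (⊤ : Subgroup X) ⊓ Subgroup.normalizer ((S : Subgroup X) : Set X) =
      H ⊓ Subgroup.normalizer ((S : Subgroup X) : Set X) by rw [top_inf_eq, inf_eq_right.2 hNH]]
  rw [step1]
  by_cases hHtop : H = ⊤
  swap
  · -- induction in `H`
    have hZH : Z ≤ H := hZK.trans hKH
    have := Fintype.ofFinite H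
    have := Fintype.ofFinite (Z.subgroupOf H)
    let S' : Sylow p H := S.subtype hSH
    have hZc' : Z.subgroupOf H ≤ Subgroup.center H := fun z hz =>
      Subgroup.mem_center_iff.2 fun g => Subtype.ext (Subgroup.mem_center_iff.1 (hZc hz) g)
    have hidx : (Z.subgroupOf H).index < n := by
      have h1 := Subgroup.relIndex_mul_index hZH
      rw [hn] at h1
      show Z.relIndex H < n
      rw [← h1]
      exact lt_mul_of_one_lt_right (Nat.pos_of_ne_zero (Subgroup.index_ne_zero_of_finite
        (H := Z.subgroupOf H))) (Subgroup.one_lt_index_of_ne_top hHtop)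
    have hN' : Subgroup.normalizer ((S' : Subgroup H) : Set H) = N.subgroupOf H :=
      (Subgroup.subgroupOf_normalizer_eq hSH).symm
    have hZN' : Z.subgroupOf H ≤ Subgroup.normalizer ((S' : Subgroup H) : Set H) := by
      rw [hN']
      exact fun z hz => hZN hz
    have h := ih _ hidx H (Z.subgroupOf H) (CfsgLib.Constrained.IsPSolvable.subgroup hX H) hZc' rfl
      (lam.comp (Subgroup.subgroupOfEquivOfLe hZH).toMonoidHom) S' hZN'
    have hl : CfsgLib.Chars.linChar (lam.comp (Subgroup.subgroupOfEquivOfLe hZH).toMonoidHom) =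
        toSub (H := H) hZH l := Subtype.ext (funext fun z => by simp [toSub, l])
    rw [hl, cnt_toSub] at h
    rw [h, cnt_congr p (Subgroup.inclusion hZN') (Subgroup.inclusion hZN)
      ((MulEquiv.subgroupCongr hN').trans (Subgroup.subgroupOfEquivOfLe hNH))
      (Subgroup.subgroupOfEquivOfLe hZH) (fun _ => rfl)]
    congr 1
  rw [← step1]
  have hMn : M.Normal := Subgroup.normalizer_eq_top_iff.1 hHtop
  rcases hA with hA | hA
  · -- a `p`-chief factor: `K ≤ Z S`, so `S` is normal
    exfalso
    apply hNtop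
    haveI := hAn
    have h1 : A ≤ Ss.map q := normal_le_sylow hA (S.mapSurjective (QuotientGroup.mk'_surjective Z))
    have h2 : K ≤ Z ⊔ Ss := by
      refine (Subgroup.comap_mono h1).trans ?_
      rw [Subgroup.comap_map_eq, QuotientGroup.ker_mk', sup_comm]
    have h3 : M = Z ⊔ Ss :=
      le_antisymm (sup_le h2 le_sup_right) (sup_le_sup_right hZK Ss)
    rw [hN, ← normalizer_central_sup hZc S, ← h3]
    exact hHtop
  -- a `p'`-chief factor
  set Zp := Z ⊓ Ss with hZp
  haveI hZpn : (Zp.subgroupOf K).Normal := ⟨fun z hz g => by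
    rw [Subgroup.mem_subgroupOf] at hz ⊢
    show (g : X) * (z : X) * (g : X)⁻¹ ∈ Zp
    rw [Subgroup.mem_center_iff.1 (hZc hz.1) (g : X), mul_inv_cancel_right]
    exact hz⟩
  have hZpK : Zp ≤ K := inf_le_left.trans hZK
  obtain ⟨e, he⟩ := IsPGroup.iff_card.1 (S.isPGroup'.to_le (inf_le_right : Zp ≤ Ss))
  have hidx : ¬ p ∣ Zp.relIndex K := by
    rw [← Subgroup.relIndex_mul_relIndex Zp Z K inf_le_left hZK]
    intro h
    rcases hp.dvd_mul.1 h with h | h
    · rw [hZp, Subgroup.inf_relIndex_left] at h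
      refine S.not_dvd_index' Subgroup.index_ne_zero_of_finite (h.trans ?_)
      haveI : (Ss.subgroupOf N).Normal := Subgroup.normal_in_normalizer
      have h1 : Ss.relIndex Z ∣ Ss.relIndex N := by
        rw [← Subgroup.relIndex_subgroupOf hZN]
        exact (Subgroup.relIndex_dvd_index_of_normal (Ss.subgroupOf N) (Z.subgroupOf N))
      exact h1.trans (Subgroup.relIndex_dvd_index_of_le Ss.le_normalizer)
    · apply hA
      have h1 : Z.relIndex K = Nat.card A := by
        have h0 : ((⊥ : Subgroup (X ⧸ Z)).comap q).relIndex K = Z.relIndex K :=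
          congrArg (fun B : Subgroup X => B.relIndex K) (QuotientGroup.ker_mk' Z)
        rw [← h0, Subgroup.relIndex_comap, hK,
          Subgroup.map_comap_eq_self_of_surjective (QuotientGroup.mk'_surjective Z),
          Subgroup.relIndex_bot_left]
      rwa [← h1]
  have hcop : Nat.Coprime (Nat.card (Zp.subgroupOf K)) (Zp.subgroupOf K).index := by
    rw [Nat.card_congr (Subgroup.subgroupOfEquivOfLe hZpK).toEquiv, he]
    exact (hp.coprime_iff_not_dvd.2 hidx).pow_left e
  obtain ⟨K0', hK0'⟩ := Subgroup.exists_right_complement'_of_coprime hcop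
  set K0 := K0'.map K.subtype with hK0
  have hcard0 : Nat.card K0 = Zp.relIndex K := by
    rw [hK0, Subgroup.card_map_of_injective K.subtype_injective]
    exact (Subgroup.IsComplement'.index_eq_card hK0'.symm).symm
  have hpK0 : ¬ p ∣ Nat.card K0 := hcard0 ▸ hidx
  have hKsup : K = Zp ⊔ K0 := by
    have h1 := congrArg (Subgroup.map K.subtype) hK0'.sup_eq_top
    rw [Subgroup.map_sup, Subgroup.subgroupOf_map_subtype, inf_eq_left.2 hZpK,
      ← MonoidHom.range_eq_map, Subgroup.range_subtype, ← hK0] at h1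
    exact h1.symm
  have hmem0 : ∀ k ∈ K, k ^ Nat.card K0 = 1 → k ∈ K0 := by
    intro k hk hk1
    have hk' : k ∈ ((Zp ⊔ K0 : Subgroup X) : Set X) := hKsup ▸ hk
    rw [Subgroup.coe_mul_of_right_le_normalizer_left Zp K0 (fun x _ => by
      refine Subgroup.mem_normalizer_iff.2 fun g => ?_
      constructor
      · intro hg
        rw [Subgroup.mem_center_iff.1 (hZc hg.1) x, mul_inv_cancel_right]
        exact hg
      · intro hg
        have hc := Subgroup.mem_center_iff.1 (hZc hg.1) x
        have hgeq : x * g * x⁻¹ = g := by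
          have h3 : g = x⁻¹ * (x * g * x⁻¹ * x) := by group
          rw [← hc, inv_mul_cancel_left] at h3
          exact h3.symm
        rwa [hgeq] at hg)] at hk'
    obtain ⟨z, hz, g, hg, rfl⟩ := hk'
    have hg1 : g ^ Nat.card K0 = 1 :=
      congrArg Subtype.val (pow_card_eq_one' (x := (⟨g, hg⟩ : K0)))
    have hcomm : Commute z g := (Subgroup.mem_center_iff.1 (hZc hz.1) g).symm
    have hz1 : z ^ Nat.card K0 = 1 := by
      have h := hk1
      change (z * g) ^ Nat.card K0 = 1 at h
      rwa [hcomm.mul_pow, hg1, mul_one] at h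
    have hz2 : z ^ p ^ e = 1 := by
      have h : (⟨z, hz⟩ : Zp) ^ Nat.card Zp = 1 := pow_card_eq_one'
      rw [he] at h
      exact congrArg Subtype.val h
    have h3 := pow_gcd_eq_one.2 ⟨hz2, hz1⟩
    rw [((hp.coprime_iff_not_dvd.2 hpK0).pow_left e), pow_one] at h3
    show z * g ∈ K0
    rw [h3, one_mul]
    exact hg
  haveI hK0n : K0.Normal := ⟨fun k hk x => hmem0 _
    (‹K.Normal›.conj_mem k (hKsup ▸ Subgroup.mem_sup_right hk) x)
    (by rw [conj_pow, show k ^ Nat.card K0 = 1 from
      congrArg Subtype.val (pow_card_eq_one' (x := (⟨k, hk⟩ : K0))), mul_one, mul_inv_cancel])⟩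
  have hMeq : M = K0 ⊔ Ss := by
    refine le_antisymm (sup_le ?_ le_sup_right) (sup_le_sup_right (hKsup ▸ le_sup_right) Ss)
    rw [hKsup]
    exact sup_le (inf_le_right.trans le_sup_right) le_sup_left
  exact final_case hpK0 S (hMeq ▸ hMn) (hMeq ▸ hZK.trans le_sup_left) hZc lam hZN

/-- **Relative McKay for `p`-solvable groups.** -/
theorem relative_mckay {p : ℕ} [Fact p.Prime] [Fintype G] (hG : Cfsg.IsPSolvable p G)
    (L : Subgroup G) [L.Normal] [Fintype L] (S : Sylow p G) (ν : IrrCharacter L)
    (hν : ∀ x ∈ L ⊔ (S : Subgroup G), conjIrr x ν = ν)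
    (hLN : L ≤ Subgroup.normalizer ((L ⊔ (S : Subgroup G) : Subgroup G) : Set G)) :
    cnt p L.subtype ν = cnt p (Subgroup.inclusion hLN) ν :=
  relative_of_central hG L (fun m _ => centralStep m) S ν hν hLN

end CfsgLib.McKay
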